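import Cfsg.Agent.H78.StSL3

/-!
# Steinberg module: "double" steps (two commuting `SL` rank one steps) on the apartment (helper78)

For the classical groups embedded in `SL_N` with `U = G ∩` upper unitriangular, the short simple
reflections act as two commuting `SL` rank one steps on disjoint adjacent index pairs `a = (i, j)`,
`b = (i', j')`: the monomial element is `nE a * (nE b)⁻¹`, the root elements are `xE a t * xE b s`.
-/

set_option autoImplicit false

namespace Cfsg.Agent.H78.StSL

open Matrix Cfsg.Agent.H50.AutPSL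

variable {n : ℕ} {F : Type*} [Field F]

local notation "SLn" => SpecialLinearGroup (Fin n) F

/-- `nE j i` is the inverse of `nE i j`. -/
theorem nE_symm (i j : Fin n) (hij : i ≠ j) : (nE j i hij.symm : SLn) = (nE i j hij)⁻¹ := by
  apply Subtype.ext
  ext a b
  have e1 : (nE j i hij.symm : SLn).1 a b = ((nE j i hij.symm : SLn).1 *ᵥ Pi.single b 1) a := by
    rw [mulVec_single_one]; rfl
  have e2 : ((nE i j hij : SLn)⁻¹).1 a b = (((nE i j hij : SLn)⁻¹).1 *ᵥ Pi.single b 1) a := by
    rw [mulVec_single_one]; rfl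
  rw [e1, e2, nE_mulVec, nE_inv_mulVec]
  by_cases h1 : a = i
  · subst h1
    simp [hij]
  · by_cases h2 : a = j
    · subst h2
      simp [hij.symm]
    · simp [h1, h2]

/-- The inverse monomial element permutes the apartment in the same way. -/
theorem nE_inv_smul_apt (i j : Fin n) (hij : i ≠ j) (w : Equiv.Perm (Fin n)) :
    (nE i j hij : SLn)⁻¹ • (apt w : Flg n F) = apt (Equiv.swap i j * w) := by
  rw [← nE_symm, nE_smul_apt, Equiv.swap_comm]

/-- The rank one relation on the apartment, for the inverse monomial element. -/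
theorem rank1_inv (i j : Fin n) (hij : i ≠ j) (t : F) (ht : t ≠ 0) (w : Equiv.Perm (Fin n))
    (hw : w.symm i < w.symm j) :
    ((nE i j hij : SLn)⁻¹ * xE i j hij t) • (apt (Equiv.swap i j * w) : Flg n F) =
      xE i j hij (-t⁻¹) • apt (Equiv.swap i j * w) := by
  apply Flg.ext'
  intro k v
  rw [mem_smul, mem_smul, mem_apt, mem_apt, _root_.mul_inv_rev, xE_inv, xE_inv, neg_neg, inv_inv]
  have hv : ((xE i j hij (-t) * (nE i j hij)).1 *ᵥ v) =
      (xE i j hij (-t)).1 *ᵥ (((nE i j hij : SLn)).1 *ᵥ v) := by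
    rw [mulVec_mulVec]
    rfl
  rw [hv]
  simp only [xE_mulVec, nE_mulVec, symm_swap_mul]
  have hsi : Equiv.swap i j i = j := Equiv.swap_apply_left i j
  have hsj : Equiv.swap i j j = i := Equiv.swap_apply_right i j
  constructor
  · intro h c hc
    by_cases h1 : c = i
    · subst h1
      have h2 := h c hc
      simp only [hij, hij.symm, if_true, if_false] at h2 ⊢
      have h3 : v j = - (t * v c) := by linear_combination h2
      rw [h3]
      field_simp
      ring
    · by_cases h2 : c = j
      · subst h2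
        rw [hsj] at hc
        have h3 := h c (by rw [hsj]; exact hc)
        have h4 := h i (by rw [hsi]; exact lt_trans hc hw)
        simp only [hij, hij.symm, if_true, if_false] at h3 h4 ⊢
        have h5 : v i = 0 := by simpa using h3
        rw [h5] at h4
        simpa using h4
      · have h3 := h c hc
        simpa [h1, h2] using h3
  · intro h c hc
    by_cases h1 : c = i
    · subst h1
      have h2 := h c hc
      simp only [hij, hij.symm, if_true, if_false] at h2 ⊢
      have h3 : v c = - (t⁻¹ * v j) := by linear_combination h2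
      rw [h3]
      field_simp
      ring
    · by_cases h2 : c = j
      · subst h2
        rw [hsj] at hc
        have h3 := h c (by rw [hsj]; exact hc)
        have h4 := h i (by rw [hsi]; exact lt_trans hc hw)
        simp only [hij, hij.symm, if_true, if_false] at h3 h4 ⊢
        rw [h3] at h4
        have h5 : v i = 0 := by simpa using h4
        simp [h5]
      · have h3 := h c hc
        simpa [h1, h2] using h3

/-- Root elements with "disjoint" indices commute. -/
theorem xE_commute (i j i' j' : Fin n) (hij : i ≠ j) (hij' : i' ≠ j') (h1 : i ≠ j')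
    (h2 : j ≠ i') (t s : F) : Commute (xE i j hij t : SLn) (xE i' j' hij' s) := by
  apply Subtype.ext
  show transvection i j t * transvection i' j' s = transvection i' j' s * transvection i j t
  apply Matrix.mulVec_injective
  funext v
  rw [← mulVec_mulVec, ← mulVec_mulVec]
  funext c
  simp only [tv_mulVec]
  by_cases hc : c = i
  · subst hc
    by_cases hc' : c = i'
    · subst hc'
      simp [h1, h2, hij, hij', Ne.symm h1, Ne.symm h2, hij.symm, hij'.symm]
      ring
    · simp [h1, h2, hc', Ne.symm h1, Ne.symm h2, hij.symm]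
  · by_cases hc' : c = i'
    · subst hc'
      simp [h1, h2, hc, Ne.symm h1, Ne.symm h2, hij'.symm]
    · simp [hc, hc']

/-- Four pairwise distinctness conditions for two index pairs. -/
def Disj4 (i j i' j' : Fin n) : Prop := i ≠ i' ∧ i ≠ j' ∧ j ≠ i' ∧ j ≠ j'

theorem nE_commute_xE (i j i' j' : Fin n) (hij : i ≠ j) (hij' : i' ≠ j')
    (hd : Disj4 i j i' j') (s : F) : Commute (nE i j hij : SLn) (xE i' j' hij' s) := by
  obtain ⟨d1, d2, d3, d4⟩ := hd
  unfold nE
  exact ((xE_commute i j i' j' hij hij' d2 d3 1 s).mul_left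
    (xE_commute j i i' j' hij.symm hij' d4 d1 (-1) s)).mul_left
    (xE_commute i j i' j' hij hij' d2 d3 1 s)

theorem nE_commute_nE (i j i' j' : Fin n) (hij : i ≠ j) (hij' : i' ≠ j')
    (hd : Disj4 i j i' j') : Commute (nE i j hij : SLn) (nE i' j' hij') := by
  have hd' : Disj4 i j j' i' := ⟨hd.2.1, hd.1, hd.2.2.2, hd.2.2.1⟩
  unfold nE
  exact ((nE_commute_xE i j i' j' hij hij' hd 1).mul_right
    (nE_commute_xE i j j' i' hij hij'.symm hd' (-1))).mul_right
    (nE_commute_xE i j i' j' hij hij' hd 1)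

omit [Field F] in
theorem swap_comm_of_disj (i j i' j' : Fin n) (hd : Disj4 i j i' j') (w : Equiv.Perm (Fin n)) :
    Equiv.swap i j * (Equiv.swap i' j' * w) = Equiv.swap i' j' * (Equiv.swap i j * w) := by
  obtain ⟨d1, d2, d3, d4⟩ := hd
  apply Equiv.ext
  intro c
  simp only [Equiv.Perm.mul_apply]
  generalize w c = x
  by_cases h1 : x = i
  · subst h1
    rw [Equiv.swap_apply_of_ne_of_ne d1 d2, Equiv.swap_apply_left,
      Equiv.swap_apply_of_ne_of_ne d3 d4]
  · by_cases h2 : x = j
    · subst h2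
      rw [Equiv.swap_apply_of_ne_of_ne d3 d4, Equiv.swap_apply_right,
        Equiv.swap_apply_of_ne_of_ne d1 d2]
    · rw [Equiv.swap_apply_of_ne_of_ne h1 h2]
      by_cases h3 : x = i'
      · subst h3
        rw [Equiv.swap_apply_left, Equiv.swap_apply_of_ne_of_ne (Ne.symm d2) (Ne.symm d4)]
      · by_cases h4 : x = j'
        · subst h4
          rw [Equiv.swap_apply_right, Equiv.swap_apply_of_ne_of_ne (Ne.symm d1) (Ne.symm d3)]
        · rw [Equiv.swap_apply_of_ne_of_ne h3 h4, Equiv.swap_apply_of_ne_of_ne h1 h2]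

/-- The double monomial element permutes the apartment. -/
theorem dbl_n_smul_apt (i j i' j' : Fin n) (hij : i ≠ j) (hij' : i' ≠ j')
    (w : Equiv.Perm (Fin n)) :
    ((nE i j hij : SLn) * (nE i' j' hij')⁻¹) • (apt w : Flg n F) =
      apt (Equiv.swap i j * (Equiv.swap i' j' * w)) := by
  rw [mul_smul, nE_inv_smul_apt, nE_smul_apt]

/-- The double root elements fix the part of the apartment where both roots are positive. -/
theorem dbl_x_smul_apt (i j i' j' : Fin n) (hij : i ≠ j) (hij' : i' ≠ j') (t s : F)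
    (w : Equiv.Perm (Fin n)) (hw : w.symm i < w.symm j) (hw' : w.symm i' < w.symm j') :
    ((xE i j hij t : SLn) * xE i' j' hij' s) • (apt w : Flg n F) = apt w := by
  rw [mul_smul, xE_smul_apt _ _ _ _ _ hw', xE_smul_apt _ _ _ _ _ hw]

/-- The double rank one relation. -/
theorem dbl_rank1 (i j i' j' : Fin n) (hij : i ≠ j) (hij' : i' ≠ j') (hd : Disj4 i j i' j')
    (t s : F) (ht : t ≠ 0) (hs : s ≠ 0) (w : Equiv.Perm (Fin n))
    (hw : w.symm i < w.symm j) (hw' : w.symm i' < w.symm j') :
    (((nE i j hij : SLn) * (nE i' j' hij')⁻¹) * (xE i j hij t * xE i' j' hij' s)) •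
        (apt (Equiv.swap i j * (Equiv.swap i' j' * w)) : Flg n F) =
      ((xE i j hij (-t⁻¹) : SLn) * xE i' j' hij' (-s⁻¹)) •
        apt (Equiv.swap i j * (Equiv.swap i' j' * w)) := by
  have hd' : Disj4 i' j' i j := ⟨hd.1.symm, hd.2.2.1.symm, hd.2.1.symm, hd.2.2.2.symm⟩
  have c1 : Commute ((nE i' j' hij' : SLn)⁻¹) (xE i j hij t) :=
    (nE_commute_xE i' j' i j hij' hij hd' t).inv_left
  have e1 : ((nE i j hij : SLn) * (nE i' j' hij')⁻¹) * (xE i j hij t * xE i' j' hij' s) =
      (nE i j hij * xE i j hij t) * ((nE i' j' hij')⁻¹ * xE i' j' hij' s) := by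
    rw [mul_assoc, ← mul_assoc ((nE i' j' hij' : SLn)⁻¹), c1.eq, mul_assoc, ← mul_assoc]
  have hw2 : (Equiv.swap i j * w).symm i' < (Equiv.swap i j * w).symm j' := by
    rw [symm_swap_mul, symm_swap_mul, Equiv.swap_apply_of_ne_of_ne hd.1.symm hd.2.2.1.symm,
      Equiv.swap_apply_of_ne_of_ne hd.2.1.symm hd.2.2.2.symm]
    exact hw'
  have hw3 : (Equiv.swap i' j' * w).symm i < (Equiv.swap i' j' * w).symm j := by
    rw [symm_swap_mul, symm_swap_mul, Equiv.swap_apply_of_ne_of_ne hd.1 hd.2.1,
      Equiv.swap_apply_of_ne_of_ne hd.2.2.1 hd.2.2.2]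
    exact hw
  have c2 : Commute (nE i j hij * xE i j hij t : SLn) (xE i' j' hij' (-s⁻¹)) :=
    (nE_commute_xE i j i' j' hij hij' hd _).mul_left
      (xE_commute i j i' j' hij hij' hd.2.1 hd.2.2.1 t _)
  rw [e1, mul_smul]
  conv_lhs => rw [swap_comm_of_disj i j i' j' hd w, rank1_inv i' j' hij' s hs _ hw2,
    ← swap_comm_of_disj i j i' j' hd w, ← mul_smul, c2.eq, mul_smul,
    rank1 i j hij t ht _ hw3, ← mul_smul,
    ← (xE_commute i j i' j' hij hij' hd.2.1 hd.2.2.1 (-t⁻¹) (-s⁻¹)).eq]

/-- Conjugation by the monomial element keeps unitriangular matrices with vanishing `(j, i)`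
entry unitriangular, for adjacent `j < i`. -/
theorem isUT_conj_rev (i j : Fin n) (hadj : (j : ℕ) + 1 = i) (hij : i ≠ j)
    (M : Matrix (Fin n) (Fin n) F) (hM : IsUT M) (h0 : M j i = 0) :
    IsUT ((nE i j hij : SLn).1 * M * ((nE i j hij : SLn)⁻¹).1) := by
  have key : ∀ x y : Fin n, (y : ℕ) < x → M x y = 0 := fun x y h => hM.1 x y h
  constructor
  · intro a b hba
    rw [conj_nE_apply]
    split_ifs with h1 h2 h3 h4 h5 h6 h7 h8
    all_goals first
      | (rw [h0]; simp)
      | (simp only [Fin.lt_def, Fin.ext_iff] at *; simp (disch := omega) only [key, neg_zero])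
  · intro a
    rw [conj_nE_apply]
    split_ifs with h1 h2 h3
    all_goals first
      | (simp [hM.2])
      | (exfalso; simp only [Fin.ext_iff] at *; omega)

/-- The double factorisation: a unitriangular matrix with vanishing entries at two disjoint
adjacent positions stays unitriangular under conjugation by the double monomial element. -/
theorem dbl_isUT_conj [Fintype F] (i j i' j' : Fin n) (hadj : (i : ℕ) + 1 = j)
    (hadj' : (i' : ℕ) + 1 = j') (hij : i ≠ j) (hij' : i' ≠ j') (hd : Disj4 i j i' j')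
    (u : SLn) (hu : u ∈ Uni n F) (h0 : u.1 i j = 0) (h0' : u.1 i' j' = 0) :
    (nE i j hij * (nE i' j' hij')⁻¹) * u * (nE i j hij * (nE i' j' hij')⁻¹)⁻¹ ∈ Uni n F := by
  obtain ⟨d1, d2, d3, d4⟩ := hd
  have e1 : (nE i j hij * (nE i' j' hij')⁻¹) * u * (nE i j hij * (nE i' j' hij')⁻¹)⁻¹ =
      nE i j hij * (nE j' i' hij'.symm * u * (nE j' i' hij'.symm)⁻¹) * (nE i j hij)⁻¹ := by
    rw [nE_symm i' j' hij']
    group
  rw [e1]
  have hM1 : IsUT ((nE j' i' hij'.symm : SLn).1 * u.1 * ((nE j' i' hij'.symm : SLn)⁻¹).1) :=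
    isUT_conj_rev j' i' hadj' hij'.symm u.1 hu h0'
  have hM0 : ((nE j' i' hij'.symm : SLn).1 * u.1 * ((nE j' i' hij'.symm : SLn)⁻¹).1) i j = 0 := by
    rw [conj_nE_apply, if_neg d3, if_neg d4, if_neg d2, if_neg d1]
    exact h0
  exact isUT_conj i j hadj hij _ hM1 hM0

/-- The double factorisation of a unitriangular element. -/
theorem dbl_factor [Fintype F] (i j i' j' : Fin n) (hadj : (i : ℕ) + 1 = j)
    (hadj' : (i' : ℕ) + 1 = j') (hij : i ≠ j) (hij' : i' ≠ j') (hd : Disj4 i j i' j')
    (u : SLn) (hu : u ∈ Uni n F) :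
    u * (xE i j hij (u.1 i j) * xE i' j' hij' (u.1 i' j'))⁻¹ ∈ Uni n F ∧
    (nE i j hij * (nE i' j' hij')⁻¹) * (u * (xE i j hij (u.1 i j) * xE i' j' hij' (u.1 i' j'))⁻¹) *
      (nE i j hij * (nE i' j' hij')⁻¹)⁻¹ ∈ Uni n F := by
  have hlt : i < j := by rw [Fin.lt_def]; omega
  have hlt' : i' < j' := by rw [Fin.lt_def]; omega
  have hx : ∀ t : F, xE i j hij t ∈ Uni n F := fun t => isUT_transvection i j hlt t
  have hx' : ∀ t : F, xE i' j' hij' t ∈ Uni n F := fun t => isUT_transvection i' j' hlt' t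
  have hu' : u * (xE i j hij (u.1 i j) * xE i' j' hij' (u.1 i' j'))⁻¹ ∈ Uni n F :=
    (Uni n F).mul_mem hu ((Uni n F).inv_mem ((Uni n F).mul_mem (hx _) (hx' _)))
  refine ⟨hu', dbl_isUT_conj i j i' j' hadj hadj' hij hij' hd _ hu' ?_ ?_⟩
  · rw [_root_.mul_inv_rev, xE_inv, xE_inv]
    show (u.1 * (transvection i' j' (-(u.1 i' j')) * transvection i j (-(u.1 i j)))) i j = 0
    rw [← Matrix.mul_assoc, mul_transvection_apply_same,
      Cfsg.Agent.H45.mul_transvection_apply', Cfsg.Agent.H45.mul_transvection_apply',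
      if_neg hd.2.2.2, if_neg hd.2.1, hu.2 i]
    ring
  · rw [_root_.mul_inv_rev, xE_inv, xE_inv]
    show (u.1 * (transvection i' j' (-(u.1 i' j')) * transvection i j (-(u.1 i j)))) i' j' = 0
    rw [← Matrix.mul_assoc, Cfsg.Agent.H45.mul_transvection_apply', if_neg (Ne.symm hd.2.2.2),
      mul_transvection_apply_same, hu.2 i']
    ring

/-- Lower root elements are conjugates of upper ones (other direction). -/
theorem conj_xE_rev (i j : Fin n) (hij : i ≠ j) (c : F) :
    nE i j hij * xE j i hij.symm c * (nE i j hij)⁻¹ = xE i j hij (-c) := by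
  apply Subtype.ext
  show (nE i j hij : SLn).1 * transvection j i c * ((nE i j hij : SLn)⁻¹).1 = transvection i j (-c)
  ext a b
  rw [conj_nE_apply]
  simp only [transvection, Matrix.add_apply, Matrix.one_apply, Matrix.single_apply]
  by_cases ha : a = i
  · subst ha
    by_cases hb : b = a
    · subst hb
      simp [hij, hij.symm]
    · by_cases hb' : b = j
      · subst hb'
        simp [hij, hij.symm]
      · simp [hij, hij.symm, hb, hb', Ne.symm hb, Ne.symm hb']
  · by_cases ha' : a = j
    · subst ha'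
      by_cases hb : b = i
      · subst hb
        simp [hij, hij.symm]
      · by_cases hb' : b = a
        · subst hb'
          simp [hij, hij.symm]
        · simp [hij.symm, hb, hb', Ne.symm hb, Ne.symm hb']
    · by_cases hb : b = i
      · subst hb
        simp [ha, ha', Ne.symm ha, Ne.symm ha', hij]
      · by_cases hb' : b = j
        · subst hb'
          simp [ha, ha', Ne.symm ha, Ne.symm ha', hij, hij.symm]
        · simp [ha, ha', hb, hb', Ne.symm ha, Ne.symm ha', Ne.symm hb, Ne.symm hb']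

/-- Conjugating a double upper root element by the double monomial element gives the double
lower root element. -/
theorem dbl_conj (i j i' j' : Fin n) (hij : i ≠ j) (hij' : i' ≠ j') (hd : Disj4 i j i' j')
    (c c' : F) :
    (nE i j hij * (nE i' j' hij')⁻¹) * (xE i j hij (-c) * xE i' j' hij' c') *
      (nE i j hij * (nE i' j' hij')⁻¹)⁻¹ =
      (xE j i hij.symm c : SLn) * xE j' i' hij'.symm (-c') := by
  have hd' : Disj4 i' j' i j := ⟨hd.1.symm, hd.2.2.1.symm, hd.2.1.symm, hd.2.2.2.symm⟩
  have c1 : Commute ((nE i' j' hij' : SLn)⁻¹) (xE i j hij (-c)) :=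
    (nE_commute_xE i' j' i j hij' hij hd' _).inv_left
  have c2 : Commute ((nE i' j' hij' : SLn)⁻¹) (nE i j hij) :=
    (nE_commute_nE i' j' i j hij' hij hd').inv_left
  have c3 : Commute ((nE i j hij : SLn)⁻¹) (xE i' j' hij' c') :=
    (nE_commute_xE i j i' j' hij hij' hd _).inv_left
  have c4 : Commute ((nE i j hij : SLn)⁻¹) ((nE i' j' hij' : SLn)⁻¹) := c2.symm.inv_left
  have e1 : (nE i j hij * (nE i' j' hij')⁻¹) * (xE i j hij (-c) * xE i' j' hij' c') *
      (nE i j hij * (nE i' j' hij')⁻¹)⁻¹ =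
      (nE i j hij * xE i j hij (-c) * (nE i j hij)⁻¹) *
        (nE j' i' hij'.symm * xE i' j' hij' c' * (nE j' i' hij'.symm)⁻¹) := by
    rw [nE_symm i' j' hij', inv_inv, _root_.mul_inv_rev, inv_inv]
    have e2 : nE i j hij * (nE i' j' hij')⁻¹ * (xE i j hij (-c) * xE i' j' hij' c') *
        (nE i' j' hij' * (nE i j hij)⁻¹) =
        nE i j hij * ((nE i' j' hij')⁻¹ * xE i j hij (-c)) * (xE i' j' hij' c' *
          nE i' j' hij') * (nE i j hij)⁻¹ := by group
    rw [e2, c1.eq]
    have e3 : nE i j hij * (xE i j hij (-c) * (nE i' j' hij')⁻¹) *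
        (xE i' j' hij' c' * nE i' j' hij') * (nE i j hij)⁻¹ =
        nE i j hij * xE i j hij (-c) * (((nE i' j' hij')⁻¹ *
          xE i' j' hij' c' * nE i' j' hij') * (nE i j hij)⁻¹) := by group
    have c5 : Commute ((nE i' j' hij' : SLn)⁻¹ * xE i' j' hij' c' * nE i' j' hij')
        ((nE i j hij : SLn)⁻¹) :=
      ((c4.symm.mul_left c3.symm).mul_left
        (nE_commute_nE i' j' i j hij' hij hd').inv_right)
    rw [e3, c5.eq]
    group
  rw [e1, conj_xE, conj_xE_rev]

end Cfsg.Agent.H78.StSL
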