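import Cfsg.Agent.H78.StM2
import Cfsg.Agent.H78.DefectZero
import Cfsg.Agent.H82.Irr

/-!
# Abstract Steinberg character on a central quotient (helper78)

`steinberg_quot`: from the abstract Steinberg module data (see `StM1`, `StM2`), a `p`-subgroup `U`
of index prime to `p` and a normal subgroup `Z` commuting with `U` and fixing the apartment, we get
an irreducible character of `G ⧸ Z` of degree the order of a Sylow `p`-subgroup that vanishes on
the nontrivial elements of every Sylow `p`-subgroup.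

`steinberg_main`: the same with stability replaced by rank one data for a generating set.
-/

set_option autoImplicit false

namespace Cfsg.Agent.H78.StM

open scoped Classical

universe u

theorem steinberg_quot {G : Type u} [Group G] [Finite G] {Ω : Type*} [MulAction G Ω] {W : Type*}
    [Fintype W] (p : ℕ) [Fact p.Prime] (U : Subgroup G) (a : W → Ω) (sg : W → ℂ) (ω₀ : Ω)
    (hU : ∀ u ∈ U, u • ω₀ = ω₀) (horb : ∀ w, ∃ g : G, g • ω₀ = a w)
    (w₀ : W) (hw₀ : sg w₀ ≠ 0)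
    (hind : ∀ v ∈ U, ∀ w, v • a w₀ = a w → v = 1 ∧ w = w₀)
    (hst : ∀ g : G, ∀ v ∈ stV U a sg, trep G Ω g v ∈ stV U a sg)
    (hUp : IsPGroup p U) (hUi : ¬ p ∣ U.index)
    (Z : Subgroup G) [Z.Normal] (hZ : ∀ z ∈ Z, (∀ u ∈ U, z * u = u * z) ∧ ∀ w, z • a w = a w) :
    ∃ χ : G ⧸ Z → ℂ, Cfsg.IsIrrCharacter (G ⧸ Z) χ ∧
      ∀ P : Sylow p (G ⧸ Z), χ 1 = Nat.card P ∧ ∀ x : G ⧸ Z, x ∈ P → x ≠ 1 → χ x = 0 := by
  obtain ⟨τ, hτ, hirr, hdim⟩ := exists_irr U a sg ω₀ hU horb w₀ hw₀ hind hst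
  have hli := linIndep U a sg w₀ hw₀ hind
  have hUpos : 0 < Nat.card U := Nat.card_pos
  have hfd : FiniteDimensional ℂ τ.toSubmodule :=
    Module.finite_of_finrank_pos (by rw [hdim]; exact hUpos)
  have hker : Z ≤ MonoidHom.ker (τ.toRepresentation : G →* Module.End ℂ τ.toSubmodule) := by
    intro z hz
    rw [MonoidHom.mem_ker]
    refine LinearMap.ext fun v => Subtype.ext ?_
    show trep G Ω z v.1 = v.1
    exact central_trivial U a sg z (hZ z hz).1 (hZ z hz).2 v.1 (hτ ▸ v.2)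
  obtain ⟨ρ', hρ'⟩ : ∃ ρ' : Representation ℂ (G ⧸ Z) τ.toSubmodule,
      ρ'.comp (QuotientGroup.mk' Z) = τ.toRepresentation :=
    ⟨QuotientGroup.lift Z τ.toRepresentation hker, by ext g; rfl⟩
  have hirr' : ρ'.IsIrreducible :=
    (Cfsg.Agent.H82.irreducible_comp_iff ρ' _ (QuotientGroup.mk'_surjective Z)).mp
      (by rw [hρ']; exact hirr)
  refine ⟨ρ'.character, Cfsg.Agent.H82.isIrrCharacter_of_rep ρ', ?_⟩
  have hUZ : ∀ u ∈ U, u ∈ Z → u = 1 := by
    intro u hu huZ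
    have h1 : trep G Ω u (stE a sg) = stE a sg :=
      central_trivial U a sg u (hZ u huZ).1 (hZ u huZ).2 _ (stE_mem_stV U a sg)
    have h2 : (fun u : U => trep G Ω (u : G) (stE a sg)) ⟨u, hu⟩ =
        (fun u : U => trep G Ω (u : G) (stE a sg)) 1 := by
      show trep G Ω u (stE a sg) = trep G Ω ((1 : U) : G) (stE a sg)
      rw [h1, OneMemClass.coe_one, map_one]
      rfl
    exact congrArg Subtype.val (hli.injective h2)
  obtain ⟨f, hf⟩ : ∃ f : G →* G ⧸ Z, f = QuotientGroup.mk' Z := ⟨_, rfl⟩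
  have hinj : Function.Injective (f.comp U.subtype) := by
    rw [injective_iff_map_eq_one]
    intro u hu
    have : (u : G) ∈ Z := by
      rw [hf] at hu
      exact (QuotientGroup.eq_one_iff _).mp hu
    exact Subtype.ext (hUZ _ u.2 this)
  have hcard : Nat.card (U.map f) = Nat.card U := by
    have h := Nat.card_congr (MonoidHom.ofInjective hinj).toEquiv
    rw [MonoidHom.range_comp, Subgroup.range_subtype] at h
    exact h.symm
  have hpg : IsPGroup p (U.map f) := hUp.map f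
  have hidx : ¬ p ∣ (U.map f).index := fun h =>
    hUi (dvd_trans h (Subgroup.index_map_dvd U (by rw [hf]; exact QuotientGroup.mk'_surjective Z)))
  intro P
  have hPc : Nat.card P = Nat.card U := by
    rw [Sylow.card_eq_multiplicity, ← hcard]
    exact (Sylow.card_eq_multiplicity (hpg.toSylow hidx)).symm
  have hχ1 : ρ'.character 1 = Nat.card P := by
    rw [Representation.char_one, hdim, hPc]
  refine ⟨hχ1, ?_⟩
  intro x hxP hx1
  obtain ⟨n, hn⟩ : ∃ n, n = (Nat.card (G ⧸ Z)).factorization p := ⟨_, rfl⟩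
  have hPn : Nat.card P = p ^ n := by rw [hn]; exact Sylow.card_eq_multiplicity P
  have hp := (Fact.out : p.Prime)
  apply rep_defect_zero_vanish ρ' p n hp
  · rw [hn]; exact Nat.ordProj_dvd _ _
  · rw [hn]; exact Nat.pow_succ_factorization_not_dvd Nat.card_pos.ne' hp
  · rw [hdim, ← hPc, hPn]
  · have hxp : IsPGroup p P := P.isPGroup'
    obtain ⟨k, hk⟩ := hxp ⟨x, hxP⟩
    have hk' : x ^ p ^ k = 1 := by simpa using congrArg Subtype.val hk
    obtain ⟨j, hj, hjk⟩ := (Nat.dvd_prime_pow hp).mp (orderOf_dvd_of_pow_eq_one hk')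
    rw [hjk]
    rcases j with _ | j
    · exfalso
      rw [pow_zero] at hjk
      exact hx1 (orderOf_eq_one_iff.mp hjk)
    · exact dvd_pow_self p (Nat.succ_ne_zero j)

/-- The packaged form: rank one data for each "simple reflection" `n i` and generation of `G` by
`U` and the `n i`. -/
theorem steinberg_main {G : Type u} [Group G] [Finite G] {Ω : Type*} [MulAction G Ω] {W : Type*}
    [Fintype W] (p : ℕ) [Fact p.Prime] (U : Subgroup G) (a : W → Ω) (sg : W → ℂ) (ω₀ : Ω)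
    (hU : ∀ u ∈ U, u • ω₀ = ω₀) (horb : ∀ w, ∃ g : G, g • ω₀ = a w)
    (w₀ : W) (hw₀ : sg w₀ ≠ 0)
    (hind : ∀ v ∈ U, ∀ w, v • a w₀ = a w → v = 1 ∧ w = w₀)
    {ι : Type*} (n : ι → G) (X : ι → Set G) (σ : ι → W → W) (Wp : ι → Set W)
    (hgen : Subgroup.closure ((U : Set G) ∪ Set.range n) = ⊤)
    (hσ : ∀ i w, σ i (σ i w) = w) (hsg : ∀ i w, sg (σ i w) = - sg w)
    (hn : ∀ i w, n i • a w = a (σ i w))
    (hWp : ∀ i w, σ i w ∈ Wp i ↔ w ∉ Wp i)
    (hXU : ∀ i, ∀ x ∈ X i, x ∈ U)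
    (hX : ∀ i, ∀ x ∈ X i, ∀ w ∈ Wp i, x • a w = a w)
    (hr : ∀ i, ∀ x ∈ X i, x ≠ 1 → ∃ x' ∈ X i, ∀ w ∈ Wp i,
      (n i * x) • a (σ i w) = x' • a (σ i w))
    (hf : ∀ i, ∀ u ∈ U, ∃ u' ∈ U, ∃ x ∈ X i, u = u' * x ∧ n i * u' * (n i)⁻¹ ∈ U)
    (hUp : IsPGroup p U) (hUi : ¬ p ∣ U.index)
    (Z : Subgroup G) [Z.Normal] (hZ : ∀ z ∈ Z, (∀ u ∈ U, z * u = u * z) ∧ ∀ w, z • a w = a w) :
    ∃ χ : G ⧸ Z → ℂ, Cfsg.IsIrrCharacter (G ⧸ Z) χ ∧
      ∀ P : Sylow p (G ⧸ Z), χ 1 = Nat.card P ∧ ∀ x : G ⧸ Z, x ∈ P → x ≠ 1 → χ x = 0 := by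
  refine steinberg_quot p U a sg ω₀ hU horb w₀ hw₀ hind ?_ hUp hUi Z hZ
  apply stV_stable_of U a sg _ hgen
  rintro g (hg | ⟨i, rfl⟩) u
  · exact trep_mem_stV U a sg _ (U.mul_mem hg u.2)
  · exact rank_one U a sg (n i) (X i) (σ i) (hσ i) (hsg i) (hn i) (Wp i) (hWp i) (hXU i) (hX i)
      (hr i) (hf i) u

end Cfsg.Agent.H78.StM
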