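import Cfsg.Agent.H78.StSL3
import Cfsg.Agent.H78.StM3

/-!
# The Steinberg character of `PSL_n` (helper78)
-/

set_option autoImplicit false

namespace Cfsg.Agent.H78.StSL

open Matrix Cfsg.Agent.H50.AutPSL

/-- `PSL_{m+1}(F)` has an irreducible character of degree the order of a Sylow `p`-subgroup that
vanishes on the nontrivial elements of every Sylow `p`-subgroup. -/
theorem sl_steinberg {F : Type*} [Field F] [Fintype F] (p : ℕ) [Fact p.Prime] [CharP F p]
    (m : ℕ) :
    ∃ χ : SpecialLinearGroup (Fin (m + 1)) F ⧸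
        Subgroup.center (SpecialLinearGroup (Fin (m + 1)) F) → ℂ,
      Cfsg.IsIrrCharacter (SpecialLinearGroup (Fin (m + 1)) F ⧸
        Subgroup.center (SpecialLinearGroup (Fin (m + 1)) F)) χ ∧
      ∀ P : Sylow p (SpecialLinearGroup (Fin (m + 1)) F ⧸
        Subgroup.center (SpecialLinearGroup (Fin (m + 1)) F)),
        χ 1 = Nat.card P ∧ ∀ x : SpecialLinearGroup (Fin (m + 1)) F ⧸
        Subgroup.center (SpecialLinearGroup (Fin (m + 1)) F), x ∈ P → x ≠ 1 → χ x = 0 := by
  classical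
  obtain ⟨f, hp, hF⟩ := FiniteField.card F p
  have hUp : IsPGroup p (Uni (m + 1) F) :=
    IsPGroup.of_card (n := f * ∑ j : Fin (m + 1), (j : ℕ)) (by rw [card_Uni, hF, pow_mul])
  have hUi : ¬ p ∣ (Uni (m + 1) F).index := not_dvd_index hF f.pos (by omega)
  refine Cfsg.Agent.H78.StM.steinberg_main p (Uni (m + 1) F)
    (apt : Equiv.Perm (Fin (m + 1)) → Flg (m + 1) F)
    (fun w => ((Equiv.Perm.sign w : ℤ) : ℂ)) (apt 1)
    (fun u hu => uni_smul_apt_one u hu) orbit_apt Fin.revPerm ?_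
    (fun v hv w h => big_cell v hv w h)
    nS (fun k => Set.range (xE k.castSucc k.succ (cs_ne k)))
    (fun k w => Equiv.swap k.castSucc k.succ * w)
    (fun k => {w | w.symm k.castSucc < w.symm k.succ})
    gen_top ?_ ?_ (fun k w => nE_smul_apt _ _ _ w) ?_ ?_ ?_ ?_
    (fun k u hu => factor _ _ (cs_adj k) (cs_ne k) u hu)
    hUp hUi (Subgroup.center _)
    (fun z hz => ⟨fun u _ => (Subgroup.mem_center_iff.mp hz u).symm,
      fun w => center_smul_apt z hz w⟩)
  · rcases Int.units_eq_one_or (Equiv.Perm.sign (Fin.revPerm : Equiv.Perm (Fin (m + 1)))) with h | h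
      <;> simp [h]
  · intro k w
    simp
  · intro k w
    simp [Equiv.Perm.sign_mul, Equiv.Perm.sign_swap (cs_ne k)]
  · intro k w
    show (Equiv.swap k.castSucc k.succ * w).symm k.castSucc <
      (Equiv.swap k.castSucc k.succ * w).symm k.succ ↔ ¬ (w.symm k.castSucc < w.symm k.succ)
    rw [symm_swap_mul, symm_swap_mul, Equiv.swap_apply_left, Equiv.swap_apply_right, not_lt]
    have hne : w.symm k.succ ≠ w.symm k.castSucc := fun h => cs_ne k (w.symm.injective h).symm
    exact ⟨le_of_lt, fun h => lt_of_le_of_ne h hne⟩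
  · rintro k x ⟨t, rfl⟩
    exact isUT_transvection _ _ Fin.castSucc_lt_succ t
  · rintro k x ⟨t, rfl⟩ w hw
    exact xE_smul_apt _ _ _ t w hw
  · rintro k x ⟨t, rfl⟩ hx1
    have ht : t ≠ 0 := by
      rintro rfl
      apply hx1
      apply Subtype.ext
      exact transvection_zero _ _
    exact ⟨_, ⟨-t⁻¹, rfl⟩, fun w hw => rank1 _ _ _ t ht w hw⟩

end Cfsg.Agent.H78.StSL
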