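import Mathlib
import Cfsg.Prelude.Def_Classical

/-!
# Steinberg module for `Ω⁺_{2(m+1)}`: basic definitions (helper78)
-/

set_option autoImplicit false

namespace Cfsg.Agent.H78.StO

open Matrix

/-- The isometry group of the hyperbolic form in dimension `2(m+1)`. -/
abbrev OG (m : ℕ) (F : Type*) [Field F] : Type _ :=
  ↥(Cfsg.isometryGroup F (Cfsg.quadFormPlus (m + 1) F))

/-- The matrix of an isometry. -/
def mat {m : ℕ} {F : Type*} [Field F] (g : OG m F) :
    Matrix (Fin (m + 1) ⊕ Fin (m + 1)) (Fin (m + 1) ⊕ Fin (m + 1)) F :=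
  ((g : Matrix.GeneralLinearGroup (Fin (m + 1) ⊕ Fin (m + 1)) F) :
    Matrix (Fin (m + 1) ⊕ Fin (m + 1)) (Fin (m + 1) ⊕ Fin (m + 1)) F)

/-- Alternating matrices: skew with zero diagonal. -/
def IsAlt {n : ℕ} {F : Type*} [Field F] (S : Matrix (Fin n) (Fin n) F) : Prop :=
  (∀ i j, S j i = - S i j) ∧ ∀ i, S i i = 0

/-- Unitriangular isometries: upper unitriangular in the ordered basis
`e_0, …, e_m, f_m, …, f_0`. -/
def IsUniO {m : ℕ} {F : Type*} [Field F] (g : OG m F) : Prop :=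
  (∀ i j, mat g (Sum.inr i) (Sum.inl j) = 0) ∧
  (∀ i j, j < i → mat g (Sum.inl i) (Sum.inl j) = 0) ∧
  (∀ i, mat g (Sum.inl i) (Sum.inl i) = 1) ∧
  (∀ i j, i < j → mat g (Sum.inr i) (Sum.inr j) = 0) ∧
  (∀ i, mat g (Sum.inr i) (Sum.inr i) = 1)

theorem mat_one {m : ℕ} {F : Type*} [Field F] : mat (1 : OG m F) = 1 := rfl

theorem mat_mul {m : ℕ} {F : Type*} [Field F] (g h : OG m F) : mat (g * h) = mat g * mat h := rfl

theorem mat_injective {m : ℕ} {F : Type*} [Field F] : Function.Injective (mat : OG m F → _) := by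
  intro g h hgh
  apply Subtype.ext
  apply Units.ext
  exact hgh

/-- The defining property of an isometry. -/
theorem quad_mat {m : ℕ} {F : Type*} [Field F] (g : OG m F) (v : Fin (m + 1) ⊕ Fin (m + 1) → F) :
    Cfsg.quadFormPlus (m + 1) F (mat g *ᵥ v) = Cfsg.quadFormPlus (m + 1) F v :=
  g.2 v v

end Cfsg.Agent.H78.StO
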