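import Mathlib
import Cfsg.Prelude.Def_Characters
import Cfsg.Prelude.Def_Blocks
import Cfsg.Agent.H21.BRDefs
import Cfsg.Agent.H21.SimpleTools
import Cfsg.Agent.H21.ResidueTrick
import Cfsg.Agent.H65.B0Data
import Cfsg.Agent.H65.BRSetup
import Cfsg.Agent.H16.BRCol
import Cfsg.Agent.H4.PrqTypeA
import Cfsg.Agent.H81.Reg

/-!
# S0997 (Brauer–Tuan), the reduction (helper78)

`G` simple non-cyclic of order `p * q ^ b * g₀`, `g₀ < p - 1`.  Then either

* (type A) `G` has a faithful irreducible character of degree `(p - 1) / 2`, or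
* (type B) `q = 2`, `C(P) = P`, `e = |N(P) : P| = 2 ^ a`, `2 e ≤ p - 1`, `g₀ = p - e`, and the
  principal `p`-block has sign `ε = -1`, exceptional degree `p - e` and all non-principal
  non-exceptional degrees even.
-/

set_option autoImplicit false
set_option linter.style.haveILetI false

namespace Cfsg.Agent.H78.BT

open Cfsg Cfsg.Agent.H21.BR
open scoped ComplexConjugate

universe u

/-- Type A: a faithful irreducible character of degree `(p - 1) / 2`. -/
def TypeAOut (G : Type u) [Group G] (p : ℕ) : Prop :=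
  ∃ χ : G → ℂ, IsIrrCharacter G χ ∧ (∀ g : G, χ g = χ 1 → g = 1) ∧ 2 * charDegree χ + 1 = p

/-- Type B: the data of the principal block with sign `-1`. -/
def TypeBOut (G : Type u) [Group G] (p q g₀ : ℕ) [Fact p.Prime] : Prop :=
  q = 2 ∧ ∃ (P : Sylow p G) (e a : ℕ) (X Y : Finset (IrrCharacter G)) (δ : IrrCharacter G → ℤ),
    Nat.card (P : Subgroup G) = p ∧
    Subgroup.centralizer ((P : Subgroup G) : Set G) = (P : Subgroup G) ∧
    (Subgroup.centralizer ((P : Subgroup G) : Set G)).relIndex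
      (Subgroup.normalizer ((P : Subgroup G) : Set G)) = e ∧
    Nat.card (Subgroup.normalizer ((P : Subgroup G) : Set G)) = p * e ∧
    e = 2 ^ a ∧ 1 ≤ a ∧ 2 * e ≤ p - 1 ∧ g₀ = p - e ∧
    B0Data p (P : Subgroup G) e X Y δ (-1) ∧
    (∀ θ ∈ Y, charDegree (θ : G → ℂ) = p - e) ∧
    (∀ χ ∈ X, χ ≠ one G → Even (charDegree (χ : G → ℂ)))

/-- **S0997-RED.** -/
theorem red {G : Type u} [Group G] [Finite G] [IsSimpleGroup G] (hG : ¬ IsCyclic G)
    (p q b g₀ : ℕ) [Fact p.Prime] (hq : q.Prime) (hpq : p ≠ q)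
    (hG' : Nat.card G = p * q ^ b * g₀) (hg : g₀ < p - 1) :
    TypeAOut G p ∨ TypeBOut G p q g₀ := by
  classical
  have hp : p.Prime := Fact.out
  have hna : ∃ u v : G, u * v ≠ v * u := by
    by_contra h
    push Not at h
    apply hG
    letI : CommGroup G := { ‹Group G› with mul_comm := h }
    exact IsSimpleGroup.isCyclic
  have hGc : ¬ IsMulCommutative G := by
    intro hc
    obtain ⟨u, v, huv⟩ := hna
    exact huv (hc.is_comm.comm u v)
  have hg0 : g₀ ≠ 0 := by
    rintro rfl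
    rw [mul_zero] at hG'
    exact (Nat.card_pos (α := G)).ne' hG'
  have hp3 : 3 ≤ p := by omega
  have hp2 : p ≠ 2 := by omega
  have hpg : ¬ p ∣ g₀ := fun h => by
    have := Nat.le_of_dvd (by omega) h
    omega
  have hpq' : ¬ p ∣ q ^ b := fun h =>
    hpq ((Nat.prime_dvd_prime_iff_eq hp hq).mp (hp.dvd_of_dvd_pow h))
  have hpm : ¬ p ∣ q ^ b * g₀ := fun h => (hp.dvd_mul.mp h).elim hpq' hpg
  obtain ⟨P⟩ : Nonempty (Sylow p G) := inferInstance
  have hP : Nat.card (P : Subgroup G) = p := by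
    have h1 : Nat.card G = p ^ 1 * (q ^ b * g₀) := by rw [hG']; ring
    have := Cfsg.Agent.H21.sylow_card_of_card_eq h1 hpm P
    simpa using this
  obtain ⟨e, he, he1, hedvd, hpe⟩ := Cfsg.Agent.H21.simple_sylow_prime_card_NC hGc P hP
  have he0 : 0 < e := Nat.pos_of_dvd_of_pos hedvd (by omega)
  have hele : e ≤ p - 1 := Nat.le_of_dvd (by omega) hedvd
  -- degrees prime to `p` and `q` divide `g₀`
  have hdvd_g : ∀ d : ℕ, d ∣ Nat.card G → ¬ p ∣ d → ¬ q ∣ d → d ∣ g₀ := by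
    intro d hd hpd hqd
    rw [hG'] at hd
    have h1 : Nat.Coprime d p := Nat.Coprime.symm ((Nat.Prime.coprime_iff_not_dvd hp).2 hpd)
    have h2 : Nat.Coprime d (q ^ b) :=
      Nat.Coprime.pow_right b (Nat.Coprime.symm ((Nat.Prime.coprime_iff_not_dvd hq).2 hqd))
    have h3 : d ∣ q ^ b * g₀ := h1.dvd_of_dvd_mul_left (by rwa [mul_assoc] at hd)
    exact h2.dvd_of_dvd_mul_left h3
  -- a divisor `≥ 2` of `g₀` is not `≡ ±1 (mod p)`
  have hpm1 : ∀ (d : ℕ) (s : ℤ), (s = 1 ∨ s = -1) → 2 ≤ d → (d : ℤ) ≡ s [ZMOD p] →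
      d ∣ g₀ → False := by
    intro d s hs hd2 hmod hdg
    have hdle : d ≤ g₀ := Nat.le_of_dvd (by omega) hdg
    have h1 := hmod.dvd
    rcases hs with rfl | rfl
    · have h2 : (p : ℤ) ∣ (d : ℤ) - 1 := by
        have h3 := (dvd_neg (a := (p : ℤ))).mpr h1
        have h4 : -((1 : ℤ) - (d : ℤ)) = (d : ℤ) - 1 := by ring
        rwa [h4] at h3
      have h3 := Int.le_of_dvd (by omega) h2
      omega
    · have h2 : (p : ℤ) ∣ (d : ℤ) + 1 := by
        have h3 := (dvd_neg (a := (p : ℤ))).mpr h1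
        have h4 : -((-1 : ℤ) - (d : ℤ)) = (d : ℤ) + 1 := by ring
        rwa [h4] at h3
      have h3 := Int.le_of_dvd (by omega) h2
      omega
  -- a number `≡ ±1 (mod p)` is prime to `p`
  have hnd : ∀ (d : ℕ) (s : ℤ), (s = 1 ∨ s = -1) → (d : ℤ) ≡ s [ZMOD p] → ¬ p ∣ d := by
    intro d s hs hmod h
    have h3 : (p : ℤ) ∣ (d : ℤ) := by exact_mod_cast h
    have h4 : (p : ℤ) ∣ s := by
      have h5 := dvd_add hmod.dvd h3
      simpa using h5
    rcases hs with h1 | h1
    · rw [h1] at h4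
      have : p ∣ 1 := by exact_mod_cast h4
      exact hp.not_dvd_one this
    · rw [h1] at h4
      have : p ∣ 1 := by exact_mod_cast (dvd_neg.mp h4)
      exact hp.not_dvd_one this
  -- a number `≡ ±e (mod p)` is prime to `p`
  have hnde : ∀ (d : ℕ) (s : ℤ), (s = 1 ∨ s = -1) → (d : ℤ) ≡ s * (e : ℤ) [ZMOD p] → ¬ p ∣ d := by
    intro d s hs hmod h
    have h3 : (p : ℤ) ∣ (d : ℤ) := by exact_mod_cast h
    have h4 : (p : ℤ) ∣ s * (e : ℤ) := by
      have h5 := dvd_add hmod.dvd h3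
      simpa using h5
    have h6 : (p : ℤ) ∣ (e : ℤ) := by
      rcases hs with h | h
      · rw [h] at h4; simpa using h4
      · rw [h] at h4; simpa using h4
    have h7 : p ∣ e := by exact_mod_cast h6
    have := Nat.le_of_dvd he0 h7
    omega
  -- `d ≡ ± e (mod p)` with `0 < d < p`
  have hcase : ∀ (d : ℕ) (s : ℤ), (s = 1 ∨ s = -1) → 0 < d → d < p →
      (d : ℤ) ≡ s * (e : ℤ) [ZMOD p] → (s = 1 ∧ d = e) ∨ (s = -1 ∧ d + e = p) := by
    intro d s hs hd0 hdp hmod
    have h1 := hmod.dvd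
    rcases hs with rfl | rfl
    · left
      refine ⟨rfl, ?_⟩
      have h2 : |1 * (e : ℤ) - (d : ℤ)| < (p : ℤ) := by
        rw [abs_lt]
        constructor <;> omega
      have h3 := Int.eq_zero_of_abs_lt_dvd h1 h2
      omega
    · right
      refine ⟨rfl, ?_⟩
      have h2 : (p : ℤ) ∣ ((d + e : ℕ) : ℤ) := by
        have h3 := (dvd_neg (a := (p : ℤ))).mpr h1
        have h4 : -(-1 * (e : ℤ) - (d : ℤ)) = ((d + e : ℕ) : ℤ) := by push_cast; ring
        rwa [h4] at h3
      have h3 : p ∣ d + e := by exact_mod_cast h2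
      exact Nat.eq_of_dvd_of_lt_two_mul (by omega) h3 (by omega)
  -- the raw block data
  obtain ⟨T, s, y, ε, hTcard, hT, hε, hy2, hydvd, hymod, hyC, hrel, -⟩ :=
    Cfsg.Agent.H65.B0Data.b0_data hna p hp2 P hP e he.symm
  have hTq : ∀ χ ∈ T, (q : ℤ) ∣ s χ * (charDegree (χ : G → ℂ) : ℤ) := by
    intro χ hχ
    obtain ⟨hs, h2, hdv, hmod, -⟩ := hT χ hχ
    by_contra hcon
    have hqd : ¬ q ∣ charDegree (χ : G → ℂ) := fun h =>
      hcon (Dvd.dvd.mul_left (by exact_mod_cast h) _)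
    exact hpm1 _ (s χ) hs h2 hmod (hdvd_g _ hdv (hnd _ _ hs hmod) hqd)
  have hqy : ¬ q ∣ y := by
    intro h
    have h1 : (q : ℤ) ∣ ε * (y : ℤ) := Dvd.dvd.mul_left (by exact_mod_cast h) _
    rw [hrel] at h1
    have h2 : (q : ℤ) ∣ 1 := by
      have := dvd_sub h1 (Finset.dvd_sum hTq)
      simpa using this
    have : q ∣ 1 := by exact_mod_cast h2
    exact hq.not_dvd_one this
  have hyg : y ∣ g₀ := hdvd_g y hydvd (hnde y ε hε hymod) hqy
  have hyle : y ≤ g₀ := Nat.le_of_dvd (by omega) hyg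
  -- `C(P) = P`
  have hCcard : Nat.card (Subgroup.centralizer ((P : Subgroup G) : Set G)) = p := by
    by_contra hne
    have := hyC hne
    omega
  have hC : Subgroup.centralizer ((P : Subgroup G) : Set G) = (P : Subgroup G) := by
    have hPle : (P : Subgroup G) ≤ Subgroup.centralizer ((P : Subgroup G) : Set G) := by
      haveI : IsCyclic (P : Subgroup G) := isCyclic_of_prime_card hP
      intro x hx
      rw [Subgroup.mem_centralizer_iff]
      intro z hz
      have := (IsCyclic.commGroup (α := (P : Subgroup G))).mul_comm ⟨z, hz⟩ ⟨x, hx⟩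
      exact congrArg Subtype.val this
    exact (Subgroup.eq_of_le_of_card_ge hPle (by rw [hCcard, hP])).symm
  have hNcard : Nat.card (Subgroup.normalizer ((P : Subgroup G) : Set G)) = p * e := by
    rw [← Cfsg.Agent.H21.card_centralizer_mul_relIndex_normalizer, hCcard, ← he]
  -- `2 e ≤ p - 1`
  have hte : 2 * e ≤ p - 1 := by
    have hne : e ≠ p - 1 := by
      intro hep
      rcases hcase y ε hε (by omega) (by omega) hymod with ⟨-, h⟩ | ⟨-, h⟩ <;> omega
    obtain ⟨t, ht⟩ := hedvd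
    have ht0 : t ≠ 0 := by
      rintro rfl
      omega
    have ht1 : t ≠ 1 := by
      rintro rfl
      omega
    rw [ht]
    calc 2 * e = e * 2 := by ring
      _ ≤ e * t := Nat.mul_le_mul_left e (by omega)
  -- the structured block data
  obtain ⟨X, Y, δ, ε', hB⟩ := Cfsg.Agent.H65.BR.b0_setup hG p hp2 P hP hC e he.symm hte
  obtain ⟨f0, hf0, hrel', hcolY, hcolYsq⟩ := Cfsg.Agent.H16.BR.col_facts p P hP hC e X Y δ ε' hB
  have hYne : Y.Nonempty := by
    rw [Finset.nonempty_iff_ne_empty]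
    intro h0
    have h1 := hB.cardY
    rw [h0, Finset.card_empty, zero_mul] at h1
    omega
  obtain ⟨θ, hθ⟩ := hYne
  have hθdeg : charDegree (θ : G → ℂ) = f0 := hf0 θ hθ
  have hf2 : 2 ≤ f0 := by rw [← hθdeg]; exact hB.two_le_Y θ hθ
  have hfdvd : f0 ∣ Nat.card G := by rw [← hθdeg]; exact Cfsg.Agent.H81.irr_charDegree_dvd θ
  have hfmod : (f0 : ℤ) ≡ ε' * (e : ℤ) [ZMOD p] := by rw [← hθdeg]; exact hB.deg_Y θ hθ
  have hdeg0 : charDegree ((one G : IrrCharacter G) : G → ℂ) = 1 := by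
    have := (Cfsg.Agent.H81.irr_charDegree (one G)).1
    rw [Cfsg.Agent.H21.E2Block.triv_apply] at this
    exact_mod_cast this.symm
  have hXq : ∀ χ ∈ X, χ ≠ one G → q ∣ charDegree (χ : G → ℂ) := by
    intro χ hχ hne
    by_contra hqd
    exact hpm1 _ (δ χ) (hB.δ_pm χ hχ) (hB.two_le_X χ hχ hne) (hB.deg_X χ hχ)
      (hdvd_g _ (Cfsg.Agent.H81.irr_charDegree_dvd χ) (hnd _ _ (hB.δ_pm χ hχ) (hB.deg_X χ hχ)) hqd)
  have hsplit : ε' * (f0 : ℤ) =
      1 + ∑ χ ∈ X.erase (one G), δ χ * (charDegree (χ : G → ℂ) : ℤ) := by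
    rw [hrel', ← Finset.add_sum_erase _ _ hB.one_mem, hB.δ_one, hdeg0]
    simp
  have hsumq : (q : ℤ) ∣ ∑ χ ∈ X.erase (one G), δ χ * (charDegree (χ : G → ℂ) : ℤ) := by
    apply Finset.dvd_sum
    intro χ hχ
    rw [Finset.mem_erase] at hχ
    exact Dvd.dvd.mul_left (by exact_mod_cast hXq χ hχ.2 hχ.1) _
  have hqf : ¬ q ∣ f0 := by
    intro h
    have h1 : (q : ℤ) ∣ ε' * (f0 : ℤ) := Dvd.dvd.mul_left (by exact_mod_cast h) _
    rw [hsplit] at h1
    have h2 : (q : ℤ) ∣ 1 := by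
      have := dvd_sub h1 hsumq
      simpa using this
    have : q ∣ 1 := by exact_mod_cast h2
    exact hq.not_dvd_one this
  have hfg : f0 ∣ g₀ := hdvd_g f0 hfdvd (hnde f0 ε' hB.ε_pm hfmod) hqf
  have hfle : f0 ≤ g₀ := Nat.le_of_dvd (by omega) hfg
  rcases hcase f0 ε' hB.ε_pm (by omega) (by omega) hfmod with ⟨hε1, hfe⟩ | ⟨hε1, hfe⟩
  · -- type A
    left
    obtain ⟨t, ht⟩ := hedvd
    have het : e * t = p - 1 := ht.symm
    have ht2 : 2 ≤ t := by
      by_contra hlt
      have : t = 0 ∨ t = 1 := by omega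
      rcases this with rfl | rfl <;> omega
    have he2 : 2 ≤ e := by omega
    obtain ⟨ht2', -⟩ := Cfsg.Agent.H4.Prq.typeA G p hp2 P hP hC e t het he2 ht2 X Y δ ε' hB hε1
      (fun θ' hθ' => by rw [hf0 θ' hθ', hfe]) hcolY hcolYsq
    refine ⟨(θ : G → ℂ), θ.2, ?_, ?_⟩
    · intro g hg
      by_contra hg1
      refine Cfsg.Agent.H21.ResidueTrick.irr_apply_ne_degree θ ?_ g hg1 hg
      rw [(Cfsg.Agent.H81.irr_charDegree θ).1, hθdeg]
      intro h1
      have : f0 = 1 := by exact_mod_cast h1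
      omega
    · rw [hθdeg, hfe]
      rw [ht2'] at het
      omega
  · -- type B
    right
    have hfe' : f0 = p - e := by omega
    have hg0' : g₀ = f0 := Nat.eq_of_dvd_of_lt_two_mul hg0 hfg (by omega)
    -- `e ∣ q ^ b`
    have h1 : p * e ∣ Nat.card G := by
      rw [← hNcard]
      exact Subgroup.card_subgroup_dvd_card _
    have h2 : e ∣ q ^ b * g₀ := by
      rw [hG', mul_assoc] at h1
      exact (Nat.mul_dvd_mul_iff_left hp.pos).mp h1
    have hcop : Nat.Coprime e g₀ := by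
      rw [hg0', hfe']
      have h3 : Nat.Coprime e p := by
        rw [Nat.coprime_comm, Nat.Prime.coprime_iff_not_dvd hp]
        intro h
        have := Nat.le_of_dvd he0 h
        omega
      have h4 : p - e + e = p := by omega
      have h5 : Nat.Coprime e (p - e + e) := by rw [h4]; exact h3
      exact (Nat.coprime_add_self_right).mp h5
    have h3 : e ∣ q ^ b := hcop.dvd_of_dvd_mul_right h2
    obtain ⟨a, -, hea⟩ := (Nat.dvd_prime_pow hq).mp h3
    have ha1 : 1 ≤ a := by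
      by_contra h0
      have : a = 0 := by omega
      rw [this, pow_zero] at hea
      exact he1 hea
    have hqe : q ∣ e := by
      rw [hea]
      exact dvd_pow_self q (by omega)
    -- `q = 2`
    have hq2 : q = 2 := by
      have h4 : (q : ℤ) ∣ ε' * (f0 : ℤ) - 1 := by
        rw [hsplit]
        simpa using hsumq
      rw [hε1] at h4
      have h5 : (q : ℤ) ∣ ((f0 + 1 : ℕ) : ℤ) := by
        have h6 := (dvd_neg (a := (q : ℤ))).mpr h4
        have h7 : -(-1 * (f0 : ℤ) - 1) = ((f0 + 1 : ℕ) : ℤ) := by push_cast; ring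
        rwa [h7] at h6
      have h6 : q ∣ f0 + 1 := by exact_mod_cast h5
      have h7 : q ∣ f0 + 1 + e := Nat.dvd_add h6 hqe
      have h8 : f0 + 1 + e = (p - 1) + 2 := by omega
      rw [h8] at h7
      have h9 : q ∣ p - 1 := dvd_trans hqe hedvd
      have h10 : q ∣ 2 := (Nat.dvd_add_right h9).mp h7
      exact (Nat.prime_dvd_prime_iff_eq hq Nat.prime_two).mp h10
    refine ⟨hq2, P, e, a, X, Y, δ, hP, hC, he.symm, hNcard, ?_, ha1, hte, ?_, ?_, ?_, ?_⟩
    · rw [hea, hq2]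
    · rw [hg0', hfe']
    · rw [← hε1]
      exact hB
    · intro θ' hθ'
      rw [hf0 θ' hθ', hfe']
    · intro χ hχ hne
      have := hXq χ hχ hne
      rw [hq2] at this
      exact (even_iff_two_dvd).mpr this

end Cfsg.Agent.H78.BT
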