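import Mathlib

/-!
# Steinberg module for `SL_n`: flags, apartment and rank one computations (helper78)
-/

set_option autoImplicit false

namespace Cfsg.Agent.H78.StSL

open Matrix

variable {n : ℕ} {F : Type*} [Field F]

local notation "SLn" => SpecialLinearGroup (Fin n) F

/-- `mulVec` by a transvection. -/
theorem tv_mulVec (i j : Fin n) (t : F) (v : Fin n → F) (c : Fin n) :
    (transvection i j t *ᵥ v) c = if c = i then v i + t * v j else v c := by
  unfold transvection
  rw [Matrix.add_mulVec, Matrix.one_mulVec, Pi.add_apply, Matrix.single_mulVec,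
    Function.update_apply]
  split_ifs with h
  · rw [h]
  · simp

/-- Root elements. -/
noncomputable def xE (i j : Fin n) (hij : i ≠ j) (t : F) : SLn :=
  SpecialLinearGroup.transvection hij t

theorem xE_val (i j : Fin n) (hij : i ≠ j) (t : F) : (xE i j hij t).1 = transvection i j t := rfl

theorem xE_inv (i j : Fin n) (hij : i ≠ j) (t : F) : (xE i j hij t)⁻¹ = xE i j hij (-t) := by
  apply inv_eq_of_mul_eq_one_right
  apply Subtype.ext
  show transvection i j t * transvection i j (-t) = 1
  rw [transvection_mul_transvection_same i j hij, add_neg_cancel, transvection_zero]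

theorem xE_mulVec (i j : Fin n) (hij : i ≠ j) (t : F) (v : Fin n → F) (c : Fin n) :
    ((xE i j hij t).1 *ᵥ v) c = if c = i then v i + t * v j else v c :=
  tv_mulVec i j t v c

/-- Monomial lift of the transposition `(i j)`. -/
noncomputable def nE (i j : Fin n) (hij : i ≠ j) : SLn :=
  xE i j hij 1 * xE j i hij.symm (-1) * xE i j hij 1

theorem nE_inv (i j : Fin n) (hij : i ≠ j) :
    (nE i j hij : SLn)⁻¹ = xE i j hij (-1) * xE j i hij.symm 1 * xE i j hij (-1) := by
  unfold nE
  rw [_root_.mul_inv_rev, _root_.mul_inv_rev, xE_inv, xE_inv, neg_neg, mul_assoc]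

theorem nE_mulVec (i j : Fin n) (hij : i ≠ j) (v : Fin n → F) (c : Fin n) :
    ((nE i j hij).1 *ᵥ v) c = if c = i then v j else if c = j then - v i else v c := by
  show ((transvection i j 1 * transvection j i (-1) * transvection i j 1) *ᵥ v) c = _
  rw [← mulVec_mulVec, ← mulVec_mulVec]
  simp only [tv_mulVec]
  by_cases h1 : c = i
  · subst h1
    simp [hij, hij.symm]
  · by_cases h2 : c = j
    · subst h2
      simp [hij.symm]
    · simp [h1, h2]

theorem nE_inv_mulVec (i j : Fin n) (hij : i ≠ j) (v : Fin n → F) (c : Fin n) :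
    (((nE i j hij : SLn)⁻¹).1 *ᵥ v) c = if c = i then - v j else if c = j then v i else v c := by
  rw [nE_inv]
  show ((transvection i j (-1) * transvection j i 1 * transvection i j (-1)) *ᵥ v) c = _
  rw [← mulVec_mulVec, ← mulVec_mulVec]
  simp only [tv_mulVec]
  by_cases h1 : c = i
  · subst h1
    simp [hij, hij.symm]
  · by_cases h2 : c = j
    · subst h2
      simp [hij.symm]
    · simp [h1, h2]

/-- "Flags": level-indexed families of sets of vectors. -/
structure Flg (n : ℕ) (F : Type*) where
  /-- the sets -/
  s : Fin n → Set (Fin n → F)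

omit [Field F] in
theorem Flg.ext' {φ ψ : Flg n F} (h : ∀ k v, v ∈ φ.s k ↔ v ∈ ψ.s k) : φ = ψ := by
  cases φ
  cases ψ
  congr
  funext k
  exact Set.ext (h k)

noncomputable instance flgAction : MulAction SLn (Flg n F) where
  smul g φ := ⟨fun k => {v | (g⁻¹).1 *ᵥ v ∈ φ.s k}⟩
  one_smul φ := Flg.ext' fun k v => by
    show ((1 : SLn)⁻¹).1 *ᵥ v ∈ φ.s k ↔ _
    rw [inv_one]
    show (1 : Matrix (Fin n) (Fin n) F) *ᵥ v ∈ _ ↔ _
    rw [one_mulVec]
  mul_smul g h φ := Flg.ext' fun k v => by
    show ((g * h)⁻¹).1 *ᵥ v ∈ φ.s k ↔ (h⁻¹).1 *ᵥ ((g⁻¹).1 *ᵥ v) ∈ φ.s k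
    rw [_root_.mul_inv_rev, mulVec_mulVec]
    rfl

theorem mem_smul (g : SLn) (φ : Flg n F) (k : Fin n) (v : Fin n → F) :
    v ∈ (g • φ).s k ↔ (g⁻¹).1 *ᵥ v ∈ φ.s k := Iff.rfl

/-- The apartment: coordinate flags. -/
def apt (w : Equiv.Perm (Fin n)) : Flg n F := ⟨fun k => {v | ∀ c, k < w.symm c → v c = 0}⟩

theorem mem_apt (w : Equiv.Perm (Fin n)) (k : Fin n) (v : Fin n → F) :
    v ∈ (apt w : Flg n F).s k ↔ ∀ c, k < w.symm c → v c = 0 := Iff.rfl

theorem symm_swap_mul (i j : Fin n) (w : Equiv.Perm (Fin n)) (c : Fin n) :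
    (Equiv.swap i j * w).symm c = w.symm (Equiv.swap i j c) := by
  rw [Equiv.symm_apply_eq]
  simp [Equiv.Perm.mul_apply]

/-- The monomial element permutes the apartment. -/
theorem nE_smul_apt (i j : Fin n) (hij : i ≠ j) (w : Equiv.Perm (Fin n)) :
    (nE i j hij : SLn) • (apt w : Flg n F) = apt (Equiv.swap i j * w) := by
  apply Flg.ext'
  intro k v
  rw [mem_smul, mem_apt, mem_apt]
  simp only [nE_inv_mulVec, symm_swap_mul]
  constructor
  · intro h c hc
    have h' := h (Equiv.swap i j c) hc
    by_cases h1 : c = i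
    · subst h1
      simpa [hij, hij.symm] using h'
    · by_cases h2 : c = j
      · subst h2
        simpa [hij, hij.symm] using h'
      · simpa [Equiv.swap_apply_of_ne_of_ne h1 h2, h1, h2] using h'
  · intro h c hc
    by_cases h1 : c = i
    · subst h1
      have := h j (by simpa using hc)
      simp [this]
    · by_cases h2 : c = j
      · subst h2
        have := h i (by simpa using hc)
        simp [h1, this]
      · have := h c (by rw [Equiv.swap_apply_of_ne_of_ne h1 h2]; exact hc)
        simp [h1, h2, this]

/-- Root elements fix the part of the apartment where the root is "positive". -/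
theorem xE_smul_apt (i j : Fin n) (hij : i ≠ j) (t : F) (w : Equiv.Perm (Fin n))
    (hw : w.symm i < w.symm j) : xE i j hij t • (apt w : Flg n F) = apt w := by
  apply Flg.ext'
  intro k v
  rw [mem_smul, mem_apt, mem_apt, xE_inv]
  simp only [xE_mulVec]
  constructor
  · intro h c hc
    by_cases h1 : c = i
    · subst h1
      have h2 := h c hc
      have h3 := h j (lt_trans hc hw)
      simp only [hij.symm, if_true, if_false] at h2 h3
      rw [h3] at h2
      simpa using h2
    · have h2 := h c hc
      simpa [h1] using h2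
  · intro h c hc
    by_cases h1 : c = i
    · subst h1
      simp [h c hc, h j (lt_trans hc hw)]
    · simp [h1, h c hc]

/-- The rank one relation on the apartment. -/
theorem rank1 (i j : Fin n) (hij : i ≠ j) (t : F) (ht : t ≠ 0) (w : Equiv.Perm (Fin n))
    (hw : w.symm i < w.symm j) :
    ((nE i j hij : SLn) * xE i j hij t) • (apt (Equiv.swap i j * w) : Flg n F) =
      xE i j hij (-t⁻¹) • apt (Equiv.swap i j * w) := by
  apply Flg.ext'
  intro k v
  rw [mem_smul, mem_smul, mem_apt, mem_apt, _root_.mul_inv_rev, xE_inv, xE_inv, neg_neg]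
  have hv : ((xE i j hij (-t) * (nE i j hij)⁻¹).1 *ᵥ v) =
      (xE i j hij (-t)).1 *ᵥ (((nE i j hij)⁻¹).1 *ᵥ v) := by
    rw [mulVec_mulVec]
    rfl
  rw [hv]
  simp only [xE_mulVec, nE_inv_mulVec, symm_swap_mul]
  have hsi : Equiv.swap i j i = j := Equiv.swap_apply_left i j
  have hsj : Equiv.swap i j j = i := Equiv.swap_apply_right i j
  constructor
  · intro h c hc
    by_cases h1 : c = i
    · subst h1
      have h2 := h c hc
      simp only [hij, hij.symm, if_true, if_false] at h2 ⊢
      have h3 : v j = - (t * v c) := by linear_combination -h2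
      rw [h3]
      field_simp
      ring
    · by_cases h2 : c = j
      · subst h2
        rw [hsj] at hc
        have h3 := h c (by rw [hsj]; exact hc)
        have h4 := h i (by rw [hsi]; exact lt_trans hc hw)
        simp only [hij, hij.symm, if_true, if_false] at h3 h4 ⊢
        rw [h3] at h4
        simpa using h4
      · have h3 := h c hc
        simpa [h1, h2] using h3
  · intro h c hc
    by_cases h1 : c = i
    · subst h1
      have h2 := h c hc
      simp only [hij, hij.symm, if_true, if_false] at h2 ⊢
      have h3 : v c = - (t⁻¹ * v j) := by linear_combination h2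
      rw [h3]
      field_simp
      ring
    · by_cases h2 : c = j
      · subst h2
        rw [hsj] at hc
        have h3 := h c (by rw [hsj]; exact hc)
        have h4 := h i (by rw [hsi]; exact lt_trans hc hw)
        simp only [hij, hij.symm, if_true, if_false] at h3 h4 ⊢
        rw [h3] at h4
        simpa using h4
      · have h3 := h c hc
        simpa [h1, h2] using h3

end Cfsg.Agent.H78.StSL
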