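import Mathlib
import Cfsg.Prelude.Def_Blocks
import Cfsg.Agent.H3.PGroup
import Cfsg.Agent.H82.Irr

/-!
# Alperin–Feit–Thompson, part 1: subgroups of index 2 and real linear characters (helper78)
-/

set_option autoImplicit false
set_option linter.style.haveILetI false

namespace Cfsg.Agent.H78

section AFTGroup

variable {G : Type*} [Group G]

/-- A non-cyclic finite `2`-group has two distinct subgroups of index `2`. -/
theorem exists_two_index_two [Finite G] (hG : IsPGroup 2 G) (hnc : ¬ IsCyclic G) :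
    ∃ M₁ M₂ : Subgroup G, M₁.index = 2 ∧ M₂.index = 2 ∧ M₁ ≠ M₂ := by
  haveI := Fact.mk Nat.prime_two
  have hbot : (⊥ : Subgroup G) ≠ ⊤ := by
    intro h
    apply hnc
    have : Subsingleton G := by
      refine ⟨fun a b => ?_⟩
      have ha : a ∈ (⊥ : Subgroup G) := by rw [h]; trivial
      have hb : b ∈ (⊥ : Subgroup G) := by rw [h]; trivial
      rw [Subgroup.mem_bot] at ha hb
      rw [ha, hb]
    exact isCyclic_of_subsingleton
  obtain ⟨M₁, hM₁, -⟩ := (eq_top_or_exists_le_coatom (⊥ : Subgroup G)).resolve_left hbot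
  obtain ⟨x, hx⟩ : ∃ x, x ∉ M₁ := by
    by_contra h
    push Not at h
    exact hM₁.1 (eq_top_iff.mpr fun x _ => h x)
  have hz : Subgroup.zpowers x ≠ ⊤ := by
    intro h
    apply hnc
    refine ⟨⟨x, fun y => ?_⟩⟩
    have : y ∈ (⊤ : Subgroup G) := trivial
    rw [← h] at this
    exact this
  obtain ⟨M₂, hM₂, hle⟩ := (eq_top_or_exists_le_coatom (Subgroup.zpowers x)).resolve_left hz
  refine ⟨M₁, M₂, Cfsg.Agent.H3.coatom_index hG hM₁, Cfsg.Agent.H3.coatom_index hG hM₂, ?_⟩
  rintro rfl
  exact hx (hle (Subgroup.mem_zpowers x))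

/-- The sign homomorphism attached to a subgroup of index `2`. -/
noncomputable def signHom (M : Subgroup G) (h : M.index = 2) : G →* ℤˣ where
  toFun g := by classical exact if g ∈ M then 1 else -1
  map_one' := by simp [M.one_mem]
  map_mul' a b := by
    classical
    have := Subgroup.mul_mem_iff_of_index_two h (a := a) (b := b)
    by_cases ha : a ∈ M <;> by_cases hb : b ∈ M <;> simp [ha, hb, this]

theorem signHom_eq_one_iff (M : Subgroup G) (h : M.index = 2) (g : G) :
    signHom M h g = 1 ↔ g ∈ M := by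
  classical
  show (if g ∈ M then (1 : ℤˣ) else -1) = 1 ↔ g ∈ M
  by_cases hg : g ∈ M
  · simp [hg]
  · simp only [hg, if_false, iff_false]
    decide

/-- The group of homomorphisms from a non-cyclic finite `2`-group to `{±1}` has order divisible
by `4`. -/
theorem four_dvd_card_hom [Finite G] (hG : IsPGroup 2 G) (hnc : ¬ IsCyclic G) :
    4 ∣ Nat.card (G →* ℤˣ) := by
  classical
  haveI := Fact.mk Nat.prime_two
  obtain ⟨M₁, M₂, h1, h2, hne⟩ := exists_two_index_two hG hnc
  have hP : IsPGroup 2 (G →* ℤˣ) := by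
    intro f
    refine ⟨1, ?_⟩
    ext g
    simp [pow_two, Int.units_mul_self]
  haveI : Finite (G →* ℤˣ) := Finite.of_injective (fun f => (f : G → ℤˣ)) DFunLike.coe_injective
  letI : Fintype (G →* ℤˣ) := Fintype.ofFinite _
  obtain ⟨k, hk⟩ := IsPGroup.iff_card.mp hP
  have hf1 : signHom M₁ h1 ≠ 1 := by
    intro h
    have : M₁ = ⊤ := by
      rw [eq_top_iff]
      intro g _
      rw [← signHom_eq_one_iff M₁ h1, h]
      rfl
    rw [this, Subgroup.index_top] at h1
    omega
  have hf2 : signHom M₂ h2 ≠ 1 := by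
    intro h
    have : M₂ = ⊤ := by
      rw [eq_top_iff]
      intro g _
      rw [← signHom_eq_one_iff M₂ h2, h]
      rfl
    rw [this, Subgroup.index_top] at h2
    omega
  have hf12 : signHom M₁ h1 ≠ signHom M₂ h2 := by
    intro h
    apply hne
    ext g
    rw [← signHom_eq_one_iff M₁ h1, ← signHom_eq_one_iff M₂ h2, h]
  have h3 : 3 ≤ Nat.card (G →* ℤˣ) := by
    rw [Nat.card_eq_fintype_card]
    have hc : ({1, signHom M₁ h1, signHom M₂ h2} : Finset (G →* ℤˣ)).card = 3 := by
      rw [Finset.card_insert_of_notMem (by simp [hf1.symm, hf2.symm]),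
        Finset.card_insert_of_notMem (by simp [hf12]), Finset.card_singleton]
    rw [← hc]
    exact Finset.card_le_univ _
  rw [hk] at h3 ⊢
  have hk2 : 2 ≤ k := by
    by_contra hlt
    have : k = 0 ∨ k = 1 := by omega
    rcases this with rfl | rfl <;> norm_num at h3
  exact pow_dvd_pow 2 hk2

end AFTGroup

section RealLin

variable {G : Type*} [Group G]

/-- The embedding of `{±1}` into `ℂˣ`. -/
noncomputable def unitsIntToComplex : ℤˣ →* ℂˣ := Units.map ((Int.castRingHom ℂ) : ℤ →* ℂ)

theorem unitsIntToComplex_apply (u : ℤˣ) : ((unitsIntToComplex u : ℂˣ) : ℂ) = ((u : ℤ) : ℂ) := rfl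

/-- A real number which is a root of unity is `1` or `-1`. -/
theorem complex_eq_one_or_neg_one_of_pow {z : ℂ} (him : z.im = 0) {n : ℕ} (hn : n ≠ 0)
    (hz : z ^ n = 1) : z = 1 ∨ z = -1 := by
  have hzr : z = (z.re : ℂ) := by
    apply Complex.ext <;> simp [him]
  have h1 : z.re ^ n = 1 := by
    have : ((z.re ^ n : ℝ) : ℂ) = 1 := by
      push_cast
      rw [← hzr]; exact hz
    exact_mod_cast this
  have h2 : |z.re| ^ n = 1 := by rw [← abs_pow, h1, abs_one]
  have h3 : |z.re| = 1 := (pow_eq_one_iff_of_nonneg (abs_nonneg _) hn).mp h2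
  rcases (abs_eq (by norm_num : (0 : ℝ) ≤ 1)).mp h3 with h | h
  · left; rw [hzr, h]; simp
  · right; rw [hzr, h]; simp

/-- A real-valued linear character of a finite group takes the values `±1`. -/
theorem real_linear_values [Finite G] (χ : Cfsg.IrrCharacter G) (h1 : χ.1 1 = 1)
    (hreal : ∀ g : G, (χ.1 g).im = 0) (g : G) : χ.1 g = 1 ∨ χ.1 g = -1 := by
  apply complex_eq_one_or_neg_one_of_pow (hreal g) (orderOf_pos g).ne'
  have h := congrArg (fun u : ℂˣ => (u : ℂ))
    (map_pow (Cfsg.Agent.H82.irrLinearHom χ h1) g (orderOf g))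
  simp only [pow_orderOf_eq_one, map_one, Units.val_one, Units.val_pow_eq_pow_val,
    Cfsg.Agent.H82.irrLinearHom_apply] at h
  exact h.symm

/-- The number of real-valued linear characters equals the number of homomorphisms to `{±1}`. -/
theorem card_realLin [Finite G] :
    Nat.card {χ : Cfsg.IrrCharacter G // χ.1 1 = 1 ∧ ∀ g : G, (χ.1 g).im = 0} =
      Nat.card (G →* ℤˣ) := by
  classical
  symm
  let F : (G →* ℤˣ) → {χ : Cfsg.IrrCharacter G // χ.1 1 = 1 ∧ ∀ g : G, (χ.1 g).im = 0} :=
    fun φ => ⟨Cfsg.Agent.H82.linChar (unitsIntToComplex.comp φ),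
      Cfsg.Agent.H82.linChar_one _, fun g => by
        rw [Cfsg.Agent.H82.linChar_apply, MonoidHom.comp_apply, unitsIntToComplex_apply]
        simp⟩
  apply Nat.card_eq_of_bijective F
  constructor
  · intro φ ψ h
    ext g
    have h2 := congrFun (congrArg (fun χ : {χ : Cfsg.IrrCharacter G //
      χ.1 1 = 1 ∧ ∀ g : G, (χ.1 g).im = 0} => χ.1.1) h) g
    simp only [F, Cfsg.Agent.H82.linChar_apply, MonoidHom.comp_apply,
      unitsIntToComplex_apply] at h2
    exact_mod_cast h2
  · rintro ⟨χ, h1, hreal⟩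
    have hv := real_linear_values χ h1 hreal
    let φ : G →* ℤˣ :=
      { toFun := fun g => if χ.1 g = 1 then 1 else -1
        map_one' := by simp [h1]
        map_mul' := by
          intro a b
          have hab := Cfsg.Agent.H82.irr_linear_mul χ h1 a b
          rcases hv a with ha | ha <;> rcases hv b with hb | hb <;>
            simp [hab, ha, hb] <;> norm_num }
    refine ⟨φ, ?_⟩
    apply Subtype.ext
    apply Subtype.ext
    funext g
    show ((unitsIntToComplex (φ g) : ℂˣ) : ℂ) = χ.1 g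
    rw [unitsIntToComplex_apply]
    show (((if χ.1 g = 1 then (1 : ℤˣ) else -1 : ℤˣ) : ℤ) : ℂ) = χ.1 g
    rcases hv g with hg | hg
    · simp [hg]
    · have : χ.1 g ≠ 1 := by rw [hg]; norm_num
      rw [if_neg this, hg]
      simp

end RealLin

end Cfsg.Agent.H78
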