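import Cfsg.Agent.H78.BrauerFowler
import Cfsg.Agent.H78.FrobSchur5
import Cfsg.Agent.H78.AFT1
import Cfsg.Agent.H81.Reg
import Cfsg.Agent.H4.RealClasses

/-!
# Alperin–Feit–Thompson, part 2: counting modulo 4 (helper78)
-/

set_option autoImplicit false
set_option linter.unusedSectionVars false
set_option linter.style.haveILetI false

namespace Cfsg.Agent.H78

open scoped ComplexConjugate

universe u

variable {G : Type u} [Group G] [Fintype G]

attribute [local instance] Cfsg.Agent.H4.fintypeIrr

theorem irr_degree_two_pow (hG : IsPGroup 2 G) (χ : Cfsg.IrrCharacter G) :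
    ∃ j : ℕ, Cfsg.charDegree χ.1 = 2 ^ j := by
  haveI := Fact.mk Nat.prime_two
  obtain ⟨m, hm⟩ := IsPGroup.iff_card.mp hG
  have h := Cfsg.Agent.H81.irr_charDegree_dvd χ
  rw [hm] at h
  obtain ⟨j, -, hj⟩ := (Nat.dvd_prime_pow Nat.prime_two).mp h
  exact ⟨j, hj⟩

theorem charDegree_eq_one_iff (χ : Cfsg.IrrCharacter G) :
    Cfsg.charDegree χ.1 = 1 ↔ χ.1 1 = 1 := by
  have h := (irr_degree χ).2
  constructor
  · intro h1; rw [h, h1]; simp
  · intro h1; rw [h1] at h; exact_mod_cast h.symm

theorem indZ_of_degree_one (χ : Cfsg.IrrCharacter G) (h1 : Cfsg.charDegree χ.1 = 1) :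
    indZ χ = if (∀ g : G, (χ.1 g).im = 0) then 1 else 0 := by
  split_ifs with hreal
  · have h : indicator χ.1 = 1 :=
      irr_indicator_eq_one_of_odd χ.1 χ.2 hreal 1 (by rw [(irr_degree χ).2, h1]) odd_one
    unfold indZ
    rw [if_pos h]
  · exact indZ_eq_zero_of_not_real χ hreal

theorem indZ_mod_two (χ : Cfsg.IrrCharacter G) :
    ((indZ χ : ℤ) : ZMod 2) = if (∀ g : G, (χ.1 g).im = 0) then 1 else 0 := by
  split_ifs with hreal
  · rcases irr_indicator_sq_of_real χ hreal with h | h
    · have : indZ χ = 1 := by unfold indZ; rw [if_pos h]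
      rw [this]; simp
    · have : indZ χ = -1 := by
        unfold indZ
        have hne : ¬ indicator χ.1 = 1 := by rw [h]; norm_num
        rw [if_neg hne, if_pos h]
      rw [this]; decide
  · rw [indZ_eq_zero_of_not_real χ hreal]; simp

open Classical in
/-- The involution count modulo `4` in a `2`-group. -/
theorem sum_indZ_mod_four (hG : IsPGroup 2 G) :
    ((1 + Nat.card {x : G // orderOf x = 2} : ℤ) : ZMod 4) =
      (Nat.card {χ : Cfsg.IrrCharacter G // χ.1 1 = 1 ∧ ∀ g : G, (χ.1 g).im = 0} : ZMod 4) +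
      2 * ((∑ χ ∈ Finset.univ.filter (fun χ : Cfsg.IrrCharacter G => Cfsg.charDegree χ.1 = 2),
        indZ χ : ℤ) : ZMod 4) := by
  rw [involution_count]
  push_cast
  have hterm : ∀ χ : Cfsg.IrrCharacter G,
      ((indZ χ : ℤ) : ZMod 4) * ((Cfsg.charDegree χ.1 : ℕ) : ZMod 4) =
      (if (χ.1 1 = 1 ∧ ∀ g : G, (χ.1 g).im = 0) then 1 else 0) +
        2 * (if Cfsg.charDegree χ.1 = 2 then ((indZ χ : ℤ) : ZMod 4) else 0) := by
    intro χ
    obtain ⟨j, hj⟩ := irr_degree_two_pow hG χ
    rcases j with _ | _ | j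
    · have h1 : Cfsg.charDegree χ.1 = 1 := by simpa using hj
      have h1' := (charDegree_eq_one_iff χ).mp h1
      rw [indZ_of_degree_one χ h1, h1]
      by_cases hreal : ∀ g : G, (χ.1 g).im = 0
      · simp [h1', hreal]
      · simp [h1', hreal]
    · have h2 : Cfsg.charDegree χ.1 = 2 := by simpa using hj
      have hne : ¬ χ.1 1 = 1 := by rw [← charDegree_eq_one_iff, h2]; norm_num
      rw [h2]
      simp only [hne, false_and, if_false, if_true, zero_add, Nat.cast_ofNat]
      ring
    · have h4 : ((Cfsg.charDegree χ.1 : ℕ) : ZMod 4) = 0 := by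
        rw [hj, pow_succ, pow_succ]
        push_cast
        have : (2 : ZMod 4) * 2 = 0 := by decide
        rw [mul_assoc, this, mul_zero]
      have hge : 4 ≤ Cfsg.charDegree χ.1 := by
        rw [hj, pow_succ, pow_succ]
        have : 1 ≤ 2 ^ j := Nat.one_le_two_pow
        omega
      have hne1 : ¬ χ.1 1 = 1 := by rw [← charDegree_eq_one_iff]; omega
      have hne2 : ¬ Cfsg.charDegree χ.1 = 2 := by omega
      rw [h4]
      simp [hne1, hne2]
  rw [Finset.sum_congr rfl (fun χ _ => hterm χ), Finset.sum_add_distrib, ← Finset.mul_sum]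
  congr 1
  · rw [Finset.sum_boole, Nat.card_eq_fintype_card, Fintype.card_subtype]
  · rw [Finset.sum_filter]

open Classical in
/-- In a non-cyclic `2`-group with `t ≡ 1 (mod 4)` involutions, the number of irreducible
characters of degree `2` is odd. -/
theorem odd_card_degree_two (hG : IsPGroup 2 G) (hnc : ¬ IsCyclic G)
    (ht : Nat.card {x : G // orderOf x = 2} % 4 = 1) :
    Odd (Finset.univ.filter
      (fun χ : Cfsg.IrrCharacter G => Cfsg.charDegree χ.1 = 2)).card := by
  have h1 := sum_indZ_mod_four hG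
  have h4 : ((Nat.card {χ : Cfsg.IrrCharacter G // χ.1 1 = 1 ∧ ∀ g : G, (χ.1 g).im = 0} : ℕ) :
      ZMod 4) = 0 := by
    rw [card_realLin]
    exact (ZMod.natCast_eq_zero_iff _ 4).mpr (four_dvd_card_hom hG hnc)
  have ht' : ((1 + Nat.card {x : G // orderOf x = 2} : ℤ) : ZMod 4) = 2 := by
    have h5 : ((Nat.card {x : G // orderOf x = 2} : ℕ) : ZMod 4) = 1 := by
      rw [← Nat.mod_add_div (Nat.card {x : G // orderOf x = 2}) 4, ht]
      push_cast
      have : (4 : ZMod 4) = 0 := by decide
      rw [this, zero_mul, add_zero]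
    push_cast
    rw [h5]; decide
  rw [ht', h4, zero_add] at h1
  set T := Finset.univ.filter (fun χ : Cfsg.IrrCharacter G => Cfsg.charDegree χ.1 = 2) with hT
  set S : ℤ := ∑ χ ∈ T, indZ χ with hS
  have hS2 : ((S : ℤ) : ZMod 2) = 1 := by
    have h6 : ((2 * S - 2 : ℤ) : ZMod 4) = 0 := by
      push_cast
      rw [← h1]; ring
    have h7 : (4 : ℤ) ∣ 2 * S - 2 := by
      have := (ZMod.intCast_zmod_eq_zero_iff_dvd (2 * S - 2) 4).mp h6
      exact_mod_cast this
    have h8 : S % 2 = 1 := by omega
    have h9 : ((S : ℤ) : ZMod 2) = ((1 : ℤ) : ZMod 2) := by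
      rw [ZMod.intCast_eq_intCast_iff_dvd_sub]
      have : (2 : ℤ) ∣ 1 - S := by omega
      exact_mod_cast this
    rw [h9]; simp
  -- S mod 2 counts the real characters of degree 2
  have hS3 : ((S : ℤ) : ZMod 2) =
      ((T.filter (fun χ => ∀ g : G, (χ.1 g).im = 0)).card : ZMod 2) := by
    rw [hS]
    push_cast
    rw [Finset.sum_congr rfl (fun χ _ => indZ_mod_two χ), Finset.sum_boole]
  -- the non-real ones pair up
  have hnr : ((T.filter (fun χ => ¬ ∀ g : G, (χ.1 g).im = 0)).card : ZMod 2) = 0 := by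
    have hsum : ∑ _χ ∈ T.filter (fun χ => ¬ ∀ g : G, (χ.1 g).im = 0), (1 : ZMod 2) = 0 := by
      apply Finset.sum_involution (fun χ _ => Cfsg.Agent.H4.irrConj χ)
      · intro χ _; decide
      · intro χ hχ _ heq
        rw [Finset.mem_filter] at hχ
        apply hχ.2
        intro g
        have := congrFun (congrArg Subtype.val heq) g
        exact Complex.conj_eq_iff_im.mp this
      · intro χ _
        apply Subtype.ext
        funext g
        show conj (conj (χ.1 g)) = χ.1 g
        exact Complex.conj_conj _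
      · intro χ hχ
        rw [Finset.mem_filter, hT, Finset.mem_filter] at hχ ⊢
        refine ⟨⟨Finset.mem_univ _, ?_⟩, ?_⟩
        · rw [← hχ.1.2]
          unfold Cfsg.charDegree
          show ⌊(conj (χ.1 1)).re⌋₊ = ⌊(χ.1 1).re⌋₊
          rw [Complex.conj_re]
        · intro hreal
          apply hχ.2
          intro g
          have := hreal g
          have h2 : (conj (χ.1 g)).im = 0 := this
          rw [Complex.conj_im] at h2
          linarith
    rw [Finset.sum_const, nsmul_eq_mul, mul_one] at hsum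
    exact hsum
  have hsplit := Finset.card_filter_add_card_filter_not (s := T)
    (fun χ => ∀ g : G, (χ.1 g).im = 0)
  have hfin : ((T.card : ℕ) : ZMod 2) = 1 := by
    rw [← hsplit]
    push_cast
    rw [hnr, add_zero, ← hS3, hS2]
  exact ZMod.natCast_eq_one_iff_odd.mp hfin

end Cfsg.Agent.H78
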