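import Cfsg.Agent.H78.AFT2
import Cfsg.Agent.H4.Chars
import Cfsg.Agent.S0154

/-!
# Alperin–Feit–Thompson, part 3: twisting by linear characters and the conclusion (helper78)
-/

set_option autoImplicit false
set_option linter.unusedSectionVars false
set_option linter.style.haveILetI false

namespace Cfsg.Agent.H78

open scoped ComplexConjugate

universe u

variable {G : Type u} [Group G] [Fintype G]

attribute [local instance] Cfsg.Agent.H4.fintypeIrr

theorem norm_hom_eq_one (f : G →* ℂˣ) (g : G) : ‖((f g : ℂˣ) : ℂ)‖ = 1 := by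
  have h : ((f g : ℂˣ) : ℂ) ^ orderOf g = 1 := by
    rw [← Units.val_pow_eq_pow_val, ← map_pow, pow_orderOf_eq_one, map_one, Units.val_one]
  exact Complex.norm_eq_one_of_pow_eq_one h (orderOf_pos g).ne'

theorem twist_isIrr (f : G →* ℂˣ) (χ : Cfsg.IrrCharacter G) :
    Cfsg.IsIrrCharacter G (fun g => ((f g : ℂˣ) : ℂ) * χ.1 g) := by
  apply Cfsg.Agent.H4.isIrrCharacter_of_norm_one
  · have h1 : Cfsg.IsCharacter G (Cfsg.Agent.H82.linChar f).1 :=
      Cfsg.Agent.H4.isCharacter_of_isIrrCharacter (Cfsg.Agent.H82.linChar f).2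
    have h2 := Cfsg.Agent.H4.isCharacter_of_isIrrCharacter χ.2
    exact Cfsg.Agent.H4.isCharacter_mul h1 h2
  · have h := Cfsg.Agent.H4.irr_inner_self χ
    unfold Cfsg.classInner at h ⊢
    rw [← h]
    congr 1
    refine Finset.sum_congr rfl fun g _ => ?_
    have h3 : ((f g : ℂˣ) : ℂ) * conj ((f g : ℂˣ) : ℂ) = 1 := by
      rw [Complex.mul_conj, Complex.normSq_eq_norm_sq, norm_hom_eq_one]
      simp
    rw [map_mul]
    calc ((f g : ℂˣ) : ℂ) * χ.1 g * (conj ((f g : ℂˣ) : ℂ) * conj (χ.1 g))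
        = (((f g : ℂˣ) : ℂ) * conj ((f g : ℂˣ) : ℂ)) * (χ.1 g * conj (χ.1 g)) := by ring
      _ = χ.1 g * conj (χ.1 g) := by rw [h3, one_mul]

/-- The product of an irreducible character with a linear character. -/
noncomputable def twist (f : G →* ℂˣ) (χ : Cfsg.IrrCharacter G) : Cfsg.IrrCharacter G :=
  ⟨fun g => ((f g : ℂˣ) : ℂ) * χ.1 g, twist_isIrr f χ⟩

theorem twist_apply (f : G →* ℂˣ) (χ : Cfsg.IrrCharacter G) (g : G) :
    (twist f χ).1 g = ((f g : ℂˣ) : ℂ) * χ.1 g := rfl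

theorem charDegree_twist (f : G →* ℂˣ) (χ : Cfsg.IrrCharacter G) :
    Cfsg.charDegree (twist f χ).1 = Cfsg.charDegree χ.1 := by
  unfold Cfsg.charDegree
  rw [twist_apply, map_one, Units.val_one, one_mul]

/-- The action of the linear characters on the irreducible characters of degree `2`. -/
@[reducible] noncomputable def twistAction (G : Type u) [Group G] [Fintype G] :
    MulAction (G →* ℂˣ) {χ : Cfsg.IrrCharacter G // Cfsg.charDegree χ.1 = 2} where
  smul f χ := ⟨twist f χ.1, by rw [charDegree_twist]; exact χ.2⟩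
  one_smul χ := by
    apply Subtype.ext
    apply Subtype.ext
    funext g
    show (((1 : G →* ℂˣ) g : ℂˣ) : ℂ) * χ.1.1 g = χ.1.1 g
    simp
  mul_smul f₁ f₂ χ := by
    apply Subtype.ext
    apply Subtype.ext
    funext g
    show (((f₁ * f₂) g : ℂˣ) : ℂ) * χ.1.1 g = ((f₁ g : ℂˣ) : ℂ) * (((f₂ g : ℂˣ) : ℂ) * χ.1.1 g)
    simp [mul_assoc]

/-- If the number of irreducible characters of degree `2` of a `2`-group is odd, one of them is
fixed by multiplication with all linear characters. -/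
theorem exists_fixed_degree_two (hG : IsPGroup 2 G)
    (hodd : Odd (Nat.card {χ : Cfsg.IrrCharacter G // Cfsg.charDegree χ.1 = 2})) :
    ∃ χ : Cfsg.IrrCharacter G, Cfsg.charDegree χ.1 = 2 ∧
      ∀ (f : G →* ℂˣ) (g : G), ((f g : ℂˣ) : ℂ) * χ.1 g = χ.1 g := by
  letI := twistAction G
  haveI := Fact.mk Nat.prime_two
  have hA : IsPGroup 2 (G →* ℂˣ) := by
    obtain ⟨m, hm⟩ := IsPGroup.iff_card.mp hG
    intro f
    refine ⟨m, ?_⟩
    ext g
    rw [MonoidHom.pow_apply, ← map_pow, ← hm, pow_card_eq_one', map_one]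
    rfl
  have hmod := hA.card_modEq_card_fixedPoints
    {χ : Cfsg.IrrCharacter G // Cfsg.charDegree χ.1 = 2}
  have hne : Nat.card (MulAction.fixedPoints (G →* ℂˣ)
      {χ : Cfsg.IrrCharacter G // Cfsg.charDegree χ.1 = 2}) ≠ 0 := by
    intro h0
    rw [h0] at hmod
    have h1 : Nat.card {χ : Cfsg.IrrCharacter G // Cfsg.charDegree χ.1 = 2} % 2 = 0 % 2 := hmod
    obtain ⟨k, hk⟩ := hodd
    omega
  obtain ⟨⟨χ, hχ⟩⟩ := (Nat.card_ne_zero.mp hne).1
  refine ⟨χ.1, χ.2, fun f g => ?_⟩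
  have h := hχ f
  exact congrFun (congrArg (fun x : {χ : Cfsg.IrrCharacter G // Cfsg.charDegree χ.1 = 2} =>
    x.1.1) h) g

omit [Fintype G] in
theorem exists_hom_ne_one [Finite G] {g : G} (hg : g ∉ commutator G) :
    ∃ f : G →* ℂˣ, f g ≠ 1 := by
  have h1 : (Abelianization.of g : Abelianization G) ≠ 1 := by
    intro h
    apply hg
    exact (QuotientGroup.eq_one_iff g).mp h
  haveI : NeZero (Monoid.exponent (Abelianization G)) := ⟨Monoid.exponent_ne_zero_of_finite⟩
  obtain ⟨φ, hφ⟩ :=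
    CommGroup.exists_apply_ne_one_of_hasEnoughRootsOfUnity (Abelianization G) ℂ h1
  exact ⟨φ.comp Abelianization.of, hφ⟩

theorem irr_norm_le (χ : Cfsg.IrrCharacter G) (g : G) :
    ‖χ.1 g‖ ≤ (Cfsg.charDegree χ.1 : ℝ) := by
  obtain ⟨n, ρ, hirr, hχ⟩ := χ.2
  have h1 := Cfsg.Agent.H4.character_norm_le ρ g
  have h2 : (Cfsg.charDegree χ.1 : ℂ) = (Module.finrank ℂ (Fin n → ℂ) : ℂ) := by
    rw [← (irr_degree χ).2, ← hχ, Representation.char_one]
  have h3 : Cfsg.charDegree χ.1 = Module.finrank ℂ (Fin n → ℂ) := by exact_mod_cast h2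
  rw [h3, ← hχ]
  exact h1

open Classical in
/-- An irreducible character of degree `2` fixed by all linear characters forces
`[G : G'] ≤ 4`. -/
theorem index_commutator_le_four (χ : Cfsg.IrrCharacter G) (h2 : Cfsg.charDegree χ.1 = 2)
    (hfix : ∀ (f : G →* ℂˣ) (g : G), ((f g : ℂˣ) : ℂ) * χ.1 g = χ.1 g) :
    (commutator G).index ≤ 4 := by
  have hvan : ∀ g, g ∉ commutator G → χ.1 g = 0 := by
    intro g hg
    obtain ⟨f, hf⟩ := exists_hom_ne_one hg
    have h3 : (((f g : ℂˣ) : ℂ) - 1) * χ.1 g = 0 := by rw [sub_mul, hfix f g, one_mul, sub_self]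
    rcases mul_eq_zero.mp h3 with h | h
    · exfalso
      apply hf
      apply Units.ext
      rw [Units.val_one]
      exact sub_eq_zero.mp h
    · exact h
  have hnorm := Cfsg.Agent.H82.irr_norm_sq χ
  have hbound : ∀ g, ‖χ.1 g‖ ≤ 2 := by
    intro g
    have := irr_norm_le χ g
    rw [h2] at this
    exact_mod_cast this
  have hreal : ∑ g : G, ‖χ.1 g‖ ^ 2 = (Nat.card G : ℝ) := by
    have : ((∑ g : G, ‖χ.1 g‖ ^ 2 : ℝ) : ℂ) = (Nat.card G : ℂ) := by
      rw [← hnorm]
      push_cast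
      refine Finset.sum_congr rfl fun g _ => ?_
      rw [Complex.mul_conj, Complex.normSq_eq_norm_sq]
      push_cast
      rfl
    exact_mod_cast this
  have hle : ∑ g : G, ‖χ.1 g‖ ^ 2 ≤ 4 * (Nat.card (commutator G) : ℝ) := by
    calc ∑ g : G, ‖χ.1 g‖ ^ 2
        = ∑ g : G, if g ∈ commutator G then ‖χ.1 g‖ ^ 2 else 0 := by
          refine Finset.sum_congr rfl fun g _ => ?_
          split_ifs with h
          · rfl
          · rw [hvan g h]; simp
      _ ≤ ∑ g : G, if g ∈ commutator G then (4 : ℝ) else 0 := by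
          refine Finset.sum_le_sum fun g _ => ?_
          split_ifs
          · nlinarith [hbound g, norm_nonneg (χ.1 g)]
          · exact le_refl _
      _ = 4 * (Nat.card (commutator G) : ℝ) := by
          rw [← Finset.sum_filter, Finset.sum_const, nsmul_eq_mul, mul_comm]
          congr 1
          rw [Nat.card_eq_fintype_card, Fintype.card_subtype]
  rw [hreal] at hle
  have hmul := Subgroup.index_mul_card (commutator G)
  have hpos : 0 < Nat.card (commutator G) := Nat.card_pos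
  have hle' : Nat.card G ≤ 4 * Nat.card (commutator G) := by exact_mod_cast hle
  rw [← hmul] at hle'
  exact Nat.le_of_mul_le_mul_right hle' hpos

omit [Fintype G] in
/-- **Alperin–Feit–Thompson**: a `2`-group whose number of involutions is `≡ 1 (mod 4)` is cyclic
or has `[G : G'] = 4`. -/
theorem alperin_feit_thompson [Finite G] (hG : IsPGroup 2 G)
    (ht : Nat.card {x : G // orderOf x = 2} % 4 = 1) :
    IsCyclic G ∨ (commutator G).index = 4 := by
  classical
  letI : Fintype G := Fintype.ofFinite G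
  by_cases hc : IsCyclic G
  · exact Or.inl hc
  right
  have hodd := odd_card_degree_two hG hc ht
  have hodd' : Odd (Nat.card {χ : Cfsg.IrrCharacter G // Cfsg.charDegree χ.1 = 2}) := by
    rw [Nat.card_eq_fintype_card, Fintype.card_subtype]
    exact hodd
  obtain ⟨χ, h2, hfix⟩ := exists_fixed_degree_two hG hodd'
  have hle := index_commutator_le_four χ h2 hfix
  have h4 := four_dvd_card_hom hG hc
  rw [← card_realLin] at h4
  have hpos : 0 < Nat.card {χ : Cfsg.IrrCharacter G // χ.1 1 = 1 ∧ ∀ g : G, (χ.1 g).im = 0} := by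
    rw [card_realLin]
    haveI : Finite (G →* ℤˣ) :=
      Finite.of_injective (fun f => (f : G → ℤˣ)) DFunLike.coe_injective
    exact Nat.card_pos
  have hge : 4 ≤ Nat.card {χ : Cfsg.IrrCharacter G // χ.1 1 = 1 ∧ ∀ g : G, (χ.1 g).im = 0} :=
    Nat.le_of_dvd hpos h4
  have hinj : Nat.card {χ : Cfsg.IrrCharacter G // χ.1 1 = 1 ∧ ∀ g : G, (χ.1 g).im = 0} ≤
      Nat.card {χ : Cfsg.IrrCharacter G // (χ : G → ℂ) 1 = 1} := by
    apply Nat.card_le_card_of_injective
      (fun x : {χ : Cfsg.IrrCharacter G // χ.1 1 = 1 ∧ ∀ g : G, (χ.1 g).im = 0} =>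
        (⟨x.1, x.2.1⟩ : {χ : Cfsg.IrrCharacter G // (χ : G → ℂ) 1 = 1}))
    intro a b hab
    apply Subtype.ext
    exact congrArg (fun y : {χ : Cfsg.IrrCharacter G // (χ : G → ℂ) 1 = 1} => y.1) hab
  rw [Cfsg.Agent.S0154.result] at hinj
  omega

end Cfsg.Agent.H78
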