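import Cfsg.Agent.H78.Klein1
import Cfsg.Agent.H78.BL1
import Cfsg.Agent.H84.BrauerIV

/-!
# Index-three Brauer–Leonard situation, group-theoretic part (helper78)

`P` an abelian Sylow `p`-subgroup, `[N_G(P) : C_G(P)] = 3`, `C_G(y) ∩ N_G(P) = C_G(P)` for
`y ∈ P#`.  Main result: `no_products`, no product of two conjugates of an involution `t` lies
in the `p`-section of `y ∈ P#` (for `p = 2`: provided `y` is not conjugate to `t`).
-/

set_option autoImplicit false
set_option linter.style.haveILetI false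

namespace Cfsg.Agent.H78.BM

open Cfsg

universe u

variable {G : Type u} [Group G] [Finite G] {p : ℕ} [Fact p.Prime]

omit [Finite G] [Fact p.Prime] in
/-- Cubes of elements of `N_G(P)` lie in `C_G(P)`. -/
theorem pow_three_mem (P : Sylow p G)
    (hCN : (Subgroup.centralizer ((P : Subgroup G) : Set G)).relIndex
      (Subgroup.normalizer ((P : Subgroup G) : Set G)) = 3)
    {n : G} (hn : n ∈ Subgroup.normalizer ((P : Subgroup G) : Set G)) :
    n ^ 3 ∈ Subgroup.centralizer ((P : Subgroup G) : Set G) := by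
  have hker : ((P : Subgroup G).normalizerMonoidHom).ker =
      (Subgroup.centralizer ((P : Subgroup G) : Set G)).subgroupOf
      (Subgroup.normalizer ((P : Subgroup G) : Set G)) := Subgroup.normalizerMonoidHom_ker _
  have hidx : ((P : Subgroup G).normalizerMonoidHom).ker.index = 3 := by rw [hker]; exact hCN
  have h1 : ((⟨n, hn⟩ : ↥(Subgroup.normalizer ((P : Subgroup G) : Set G))) :
      ↥(Subgroup.normalizer ((P : Subgroup G) : Set G)) ⧸
        ((P : Subgroup G).normalizerMonoidHom).ker) ^ 3 = 1 := by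
    rw [← hidx, Subgroup.index_eq_card]
    exact pow_card_eq_one'
  rw [← QuotientGroup.mk_pow, QuotientGroup.eq_one_iff, hker, Subgroup.mem_subgroupOf] at h1
  exact h1

omit [Finite G] [Fact p.Prime] in
/-- An element of `N_G(P)` fixing some `y ∈ P#` centralizes `P`. -/
theorem mem_centralizer_of_fix (P : Sylow p G)
    (hfrob : ∀ y : G, y ∈ (P : Subgroup G) → y ≠ 1 →
      Subgroup.centralizer ({y} : Set G) ⊓ Subgroup.normalizer ((P : Subgroup G) : Set G) =
        Subgroup.centralizer ((P : Subgroup G) : Set G))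
    {n y : G} (hn : n ∈ Subgroup.normalizer ((P : Subgroup G) : Set G))
    (hy : y ∈ (P : Subgroup G)) (hy1 : y ≠ 1) (h : n * y * n⁻¹ = y) :
    n ∈ Subgroup.centralizer ((P : Subgroup G) : Set G) := by
  rw [← hfrob y hy hy1]
  refine Subgroup.mem_inf.mpr ⟨?_, hn⟩
  rw [Subgroup.mem_centralizer_singleton_iff]
  exact mul_inv_eq_iff_eq_mul.mp h

/-- An element of `P#` conjugate to its inverse is an involution. -/
theorem sq_eq_one_of_conj_inv (P : Sylow p G) [IsMulCommutative P]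
    (hCN : (Subgroup.centralizer ((P : Subgroup G) : Set G)).relIndex
      (Subgroup.normalizer ((P : Subgroup G) : Set G)) = 3)
    (hfrob : ∀ y : G, y ∈ (P : Subgroup G) → y ≠ 1 →
      Subgroup.centralizer ({y} : Set G) ⊓ Subgroup.normalizer ((P : Subgroup G) : Set G) =
        Subgroup.centralizer ((P : Subgroup G) : Set G))
    {y g : G} (hy : y ∈ (P : Subgroup G)) (hy1 : y ≠ 1) (h : g * y * g⁻¹ = y⁻¹) :
    y * y = 1 := by
  have h' : g⁻¹⁻¹ * y * g⁻¹ ∈ (P : Subgroup G) := by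
    rw [inv_inv, h]
    exact Subgroup.inv_mem _ hy
  obtain ⟨n, hn, hn'⟩ := P.conj_eq_normalizer_conj_of_mem y g⁻¹ hy h'
  rw [inv_inv, h] at hn'
  -- m = n⁻¹ inverts y
  obtain ⟨m, hmdef⟩ : ∃ m : G, m = n⁻¹ := ⟨_, rfl⟩
  have hmN : m ∈ Subgroup.normalizer ((P : Subgroup G) : Set G) := by
    rw [hmdef]; exact Subgroup.inv_mem _ hn
  have hm : m * y * m⁻¹ = y⁻¹ := by rw [hmdef, inv_inv]; exact hn'.symm
  have hm2 : (m * m) * y * (m * m)⁻¹ = y := by
    calc (m * m) * y * (m * m)⁻¹ = m * (m * y * m⁻¹) * m⁻¹ := by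
          simp only [mul_assoc, mul_inv_rev]
      _ = m * y⁻¹ * m⁻¹ := by rw [hm]
      _ = (m * y * m⁻¹)⁻¹ := by simp only [mul_assoc, mul_inv_rev, inv_inv]
      _ = y := by rw [hm, inv_inv]
  have h2 := mem_centralizer_of_fix P hfrob (Subgroup.mul_mem _ hmN hmN) hy hy1 hm2
  have h3 : m * m * m ∈ Subgroup.centralizer ((P : Subgroup G) : Set G) := by
    have := pow_three_mem P hCN hmN
    rwa [pow_succ, pow_two] at this
  have h4 : m ∈ Subgroup.centralizer ((P : Subgroup G) : Set G) := by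
    have : m = m * m * m * (m * m)⁻¹ := by rw [mul_assoc m m m, mul_inv_cancel_right]
    rw [this]
    exact Subgroup.mul_mem _ h3 (Subgroup.inv_mem _ h2)
  have h5 : y * m = m * y := Subgroup.mem_centralizer_iff.mp h4 y hy
  have h6 : y⁻¹ = y := by
    rw [← hm, ← h5, mul_inv_cancel_right]
  calc y * y = y * y⁻¹ := by rw [h6]
    _ = 1 := mul_inv_cancel y

omit [Finite G] [Fact p.Prime] in
/-- The product over an orbit of a non-central element of `N_G(P)` is trivial. -/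
theorem mul_conj_conj_eq_one (P : Sylow p G) [IsMulCommutative P]
    (hCN : (Subgroup.centralizer ((P : Subgroup G) : Set G)).relIndex
      (Subgroup.normalizer ((P : Subgroup G) : Set G)) = 3)
    (hfrob : ∀ y : G, y ∈ (P : Subgroup G) → y ≠ 1 →
      Subgroup.centralizer ({y} : Set G) ⊓ Subgroup.normalizer ((P : Subgroup G) : Set G) =
        Subgroup.centralizer ((P : Subgroup G) : Set G))
    {n w : G} (hn : n ∈ Subgroup.normalizer ((P : Subgroup G) : Set G))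
    (hnC : n ∉ Subgroup.centralizer ((P : Subgroup G) : Set G)) (hw : w ∈ (P : Subgroup G)) :
    w * (n * w * n⁻¹) * (n * (n * w * n⁻¹) * n⁻¹) = 1 := by
  by_contra hne
  have hw1 : n * w * n⁻¹ ∈ (P : Subgroup G) := (Subgroup.mem_set_normalizer_iff.mp hn w).mp hw
  have hw2 : n * (n * w * n⁻¹) * n⁻¹ ∈ (P : Subgroup G) :=
    (Subgroup.mem_set_normalizer_iff.mp hn _).mp hw1
  have hq : w * (n * w * n⁻¹) * (n * (n * w * n⁻¹) * n⁻¹) ∈ (P : Subgroup G) :=
    Subgroup.mul_mem _ (Subgroup.mul_mem _ hw hw1) hw2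
  have h3c : n * n * n ∈ Subgroup.centralizer ((P : Subgroup G) : Set G) := by
    have := pow_three_mem P hCN hn
    rwa [pow_succ, pow_two] at this
  have h3 : (n * n * n) * w = w * (n * n * n) :=
    (Subgroup.mem_centralizer_iff.mp h3c w hw).symm
  have h3' : n * (n * (n * w * n⁻¹) * n⁻¹) * n⁻¹ = w := by
    calc n * (n * (n * w * n⁻¹) * n⁻¹) * n⁻¹ = (n * n * n) * w * (n * n * n)⁻¹ := by
          simp only [mul_assoc, mul_inv_rev]
      _ = w := by rw [h3, mul_inv_cancel_right]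
  have hc1 : w * (n * w * n⁻¹) = (n * w * n⁻¹) * w :=
    Subgroup.mem_centralizer_iff.mp (P.le_centralizer hw1) w hw
  have hc2 : w * (n * (n * w * n⁻¹) * n⁻¹) = (n * (n * w * n⁻¹) * n⁻¹) * w :=
    Subgroup.mem_centralizer_iff.mp (P.le_centralizer hw2) w hw
  have hfix : n * (w * (n * w * n⁻¹) * (n * (n * w * n⁻¹) * n⁻¹)) * n⁻¹ =
      w * (n * w * n⁻¹) * (n * (n * w * n⁻¹) * n⁻¹) := by
    calc n * (w * (n * w * n⁻¹) * (n * (n * w * n⁻¹) * n⁻¹)) * n⁻¹
        = (n * w * n⁻¹) * (n * (n * w * n⁻¹) * n⁻¹) * (n * (n * (n * w * n⁻¹) * n⁻¹) * n⁻¹) := by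
          rw [conj_mul, conj_mul]
      _ = (n * w * n⁻¹) * (n * (n * w * n⁻¹) * n⁻¹) * w := by rw [h3']
      _ = (n * w * n⁻¹) * ((n * (n * w * n⁻¹) * n⁻¹) * w) :=
          mul_assoc (n * w * n⁻¹) (n * (n * w * n⁻¹) * n⁻¹) w
      _ = (n * w * n⁻¹) * (w * (n * (n * w * n⁻¹) * n⁻¹)) := by rw [hc2]
      _ = ((n * w * n⁻¹) * w) * (n * (n * w * n⁻¹) * n⁻¹) :=
          (mul_assoc (n * w * n⁻¹) w (n * (n * w * n⁻¹) * n⁻¹)).symm
      _ = w * (n * w * n⁻¹) * (n * (n * w * n⁻¹) * n⁻¹) := by rw [hc1]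
  exact hnC (mem_centralizer_of_fix P hfrob hn hq hne hfix)

omit [Finite G] in
/-- The order of an element of a Sylow `p`-subgroup is a power of `p`. -/
theorem orderOf_mem_sylow (P : Sylow p G) {y : G} (hy : y ∈ (P : Subgroup G)) :
    ∃ k : ℕ, orderOf y = p ^ k := by
  obtain ⟨k, hk⟩ := P.2 ⟨y, hy⟩
  have h1 : y ^ p ^ k = 1 := by
    have := congrArg Subtype.val hk
    simpa using this
  obtain ⟨j, -, hj⟩ := (Nat.dvd_prime_pow Fact.out).mp (orderOf_dvd_of_pow_eq_one h1)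
  exact ⟨j, hj⟩

/-- No product of two conjugates of the involution `t` lies in the `p`-section of `y ∈ P#`
(for `p = 2`, provided `y` is not conjugate to `t`). -/
theorem no_products (P : Sylow p G) [IsMulCommutative P]
    (hCN : (Subgroup.centralizer ((P : Subgroup G) : Set G)).relIndex
      (Subgroup.normalizer ((P : Subgroup G) : Set G)) = 3)
    (hfrob : ∀ y : G, y ∈ (P : Subgroup G) → y ≠ 1 →
      Subgroup.centralizer ({y} : Set G) ⊓ Subgroup.normalizer ((P : Subgroup G) : Set G) =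
        Subgroup.centralizer ((P : Subgroup G) : Set G))
    (t : G) (ht : orderOf t = 2) {y : G} (hy : y ∈ (P : Subgroup G)) (hy1 : y ≠ 1)
    (hyt : p = 2 → ¬ IsConj y t) :
    ∀ u z : G, IsPPart p u z → IsConj y z → ∀ x c : G, c * (x * t * x⁻¹ * t) * c⁻¹ ≠ u⁻¹ := by
  intro u z hu hz x c hxc
  have hp : p.Prime := Fact.out
  have htt : t * t = 1 := by rw [← pow_two, ← ht, pow_orderOf_eq_one]
  obtain ⟨m, hm⟩ := Cfsg.Agent.H84.exists_pow_eq_of_isPPart hp hu
  obtain ⟨d, hd⟩ := isConj_iff.mp hz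
  obtain ⟨w, hzw, hcomm, -, hw⟩ := hu
  -- the two involutions
  obtain ⟨a, ha⟩ : ∃ a : G, a = d⁻¹ * (c * x * t * x⁻¹ * c⁻¹) * d := ⟨_, rfl⟩
  obtain ⟨b, hb⟩ : ∃ b : G, b = d⁻¹ * (c * t * c⁻¹) * d := ⟨_, rfl⟩
  obtain ⟨w', hw'⟩ : ∃ w' : G, w' = d⁻¹ * w * d := ⟨_, rfl⟩
  have ha2 : a * a = 1 := by
    rw [ha]
    calc d⁻¹ * (c * x * t * x⁻¹ * c⁻¹) * d * (d⁻¹ * (c * x * t * x⁻¹ * c⁻¹) * d)
        = d⁻¹ * c * x * (t * t) * x⁻¹ * c⁻¹ * d := by group
      _ = 1 := by rw [htt]; group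
  have hb2 : b * b = 1 := by
    rw [hb]
    calc d⁻¹ * (c * t * c⁻¹) * d * (d⁻¹ * (c * t * c⁻¹) * d) = d⁻¹ * c * (t * t) * c⁻¹ * d := by
          group
      _ = 1 := by rw [htt]; group
  have hainv : a⁻¹ = a := inv_eq_of_mul_eq_one_left ha2
  have hbinv : b⁻¹ = b := inv_eq_of_mul_eq_one_left hb2
  have hyz : y = d⁻¹ * z * d := by rw [← hd]; group
  have hab : a * b = (y * w')⁻¹ := by
    have h1 : a * b = d⁻¹ * (c * (x * t * x⁻¹ * t) * c⁻¹) * d := by rw [ha, hb]; group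
    rw [h1, hxc, hyz, hw', ← hzw]
    group
  have hyw : y * w' = w' * y := by
    rw [hyz, hw']
    calc d⁻¹ * z * d * (d⁻¹ * w * d) = d⁻¹ * (z * w) * d := by group
      _ = d⁻¹ * (w * z) * d := by rw [hcomm.eq]
      _ = d⁻¹ * w * d * (d⁻¹ * z * d) := by group
  have hba : b * a = y * w' := by
    have h1 : (a * b)⁻¹ = y * w' := by rw [hab, inv_inv]
    rw [mul_inv_rev, hainv, hbinv] at h1
    exact h1
  -- both invert `y * w'`, hence `y`
  have hpow : (y * w') ^ m = y := by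
    have h1 : y * w' = d⁻¹ * u * d := by rw [hyz, hw', ← hzw]; group
    rw [h1, hyz, ← hm]
    have h2 := conj_pow (a := d⁻¹) (b := u) (i := m)
    rw [inv_inv] at h2
    exact h2
  have hay : a * y * a⁻¹ = y⁻¹ := by
    have h1 : a * (y * w') * a⁻¹ = (y * w')⁻¹ := by
      rw [← hab, ← hba, hainv]
      calc a * (b * a) * a = a * b * (a * a) := by group
        _ = a * b := by rw [ha2, mul_one]
    rw [← hpow, ← conj_pow, h1, inv_pow]
  have hby : b * y * b⁻¹ = y⁻¹ := by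
    have h1 : b * (y * w') * b⁻¹ = (y * w')⁻¹ := by
      rw [← hab, ← hba, hbinv]
      calc b * (b * a) * b = (b * b) * a * b := by group
        _ = a * b := by rw [hb2, one_mul]
    rw [← hpow, ← conj_pow, h1, inv_pow]
  have hyy : y * y = 1 := sq_eq_one_of_conj_inv P hCN hfrob hy hy1 hay
  have hyinv : y⁻¹ = y := inv_eq_of_mul_eq_one_left hyy
  obtain ⟨k, hk⟩ := orderOf_mem_sylow P hy
  by_cases hp2 : p = 2
  swap
  · -- `p` odd: `y = 1`
    have h1 : orderOf y ∣ 2 := orderOf_dvd_of_pow_eq_one (by rw [pow_two]; exact hyy)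
    rw [hk] at h1
    rcases Nat.eq_zero_or_pos k with h0 | h0
    · rw [h0, pow_zero, orderOf_eq_one_iff] at hk
      exact hy1 hk
    · have h2 : p ∣ 2 := (dvd_pow_self p h0.ne').trans h1
      exact hp2 ((Nat.prime_dvd_prime_iff_eq hp Nat.prime_two).mp h2)
  · subst hp2
    -- the centralizer of `y`
    have hPH := Cfsg.Agent.H78.BL.le_centralizer_singleton P hy
    obtain ⟨K, hKn, -, hKall, hKidx⟩ :=
      Cfsg.Agent.H78.BL.exists_complement_centralizer P hfrob hy hy1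
    haveI := hKn
    have hmemH : ∀ g : G, g * y * g⁻¹ = y → g ∈ Subgroup.centralizer ({y} : Set G) := by
      intro g hg
      rw [Subgroup.mem_centralizer_singleton_iff]
      exact mul_inv_eq_iff_eq_mul.mp hg
    have haH : a ∈ Subgroup.centralizer ({y} : Set G) := hmemH a (by rw [hay, hyinv])
    have hbH : b ∈ Subgroup.centralizer ({y} : Set G) := hmemH b (by rw [hby, hyinv])
    have hyH : y ∈ Subgroup.centralizer ({y} : Set G) := hPH hy
    have hwH : w' ∈ Subgroup.centralizer ({y} : Set G) := by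
      rw [Subgroup.mem_centralizer_singleton_iff]
      exact hyw.symm
    -- elements of `P ∩ K` are trivial
    have hPK : ∀ h : ↥(Subgroup.centralizer ({y} : Set G)), (h : G) ∈ (P : Subgroup G) →
        h ∈ K → h = 1 := by
      intro h hP hK
      rw [hKall] at hK
      obtain ⟨j, hj⟩ := orderOf_mem_sylow P hP
      rw [← Subgroup.orderOf_coe, hj] at hK
      rcases Nat.eq_zero_or_pos j with h0 | h0
      · rw [h0, pow_zero, orderOf_eq_one_iff] at hj
        exact Subtype.ext hj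
      · exfalso
        have h2 : (2 : ℕ) ∣ Nat.gcd (2 ^ j) 2 := Nat.dvd_gcd (dvd_pow_self 2 h0.ne') dvd_rfl
        rw [hK] at h2
        omega
    -- `H ⧸ K` is commutative
    have hinj : Function.Injective (fun q : ↥(P : Subgroup G) =>
        (QuotientGroup.mk (⟨q.1, hPH q.2⟩ : ↥(Subgroup.centralizer ({y} : Set G))) :
          ↥(Subgroup.centralizer ({y} : Set G)) ⧸ K)) := by
      intro q₁ q₂ h
      have h1 := QuotientGroup.eq.mp h
      have h2 := hPK _ (by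
        show (q₁ : G)⁻¹ * (q₂ : G) ∈ (P : Subgroup G)
        exact Subgroup.mul_mem _ (Subgroup.inv_mem _ q₁.2) q₂.2) h1
      have h3 : (q₁ : G)⁻¹ * (q₂ : G) = 1 := congrArg Subtype.val h2
      exact Subtype.ext (inv_mul_eq_one.mp h3)
    have hbij := hinj.bijective_of_nat_card_le (by
      rw [← Subgroup.index_eq_card, hKidx])
    have hcommQ : ∀ A B : ↥(Subgroup.centralizer ({y} : Set G)) ⧸ K, A * B = B * A := by
      intro A B
      obtain ⟨q₁, rfl⟩ := hbij.2 A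
      obtain ⟨q₂, rfl⟩ := hbij.2 B
      show (QuotientGroup.mk (⟨q₁.1, hPH q₁.2⟩ * ⟨q₂.1, hPH q₂.2⟩) :
        ↥(Subgroup.centralizer ({y} : Set G)) ⧸ K) =
        QuotientGroup.mk (⟨q₂.1, hPH q₂.2⟩ * ⟨q₁.1, hPH q₁.2⟩)
      congr 1
      apply Subtype.ext
      show (q₁ : G) * (q₂ : G) = (q₂ : G) * (q₁ : G)
      exact congrArg Subtype.val (mul_comm' q₁ q₂)
    -- conjugate `a`, `b` into `P` inside `H`
    obtain ⟨Q, hQ⟩ : ∃ Q : Sylow 2 (Subgroup.centralizer ({y} : Set G)), Q = P.subtype hPH :=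
      ⟨_, rfl⟩
    have hmemQ : ∀ h : Subgroup.centralizer ({y} : Set G),
        h ∈ (Q : Subgroup (Subgroup.centralizer ({y} : Set G))) ↔ (h : G) ∈ (P : Subgroup G) := by
      intro h
      rw [hQ, Sylow.coe_subtype, Subgroup.mem_subgroupOf]
    obtain ⟨h₁, hh₁⟩ := Cfsg.Agent.H78.Klein.exists_conj_mem_sylow Q
      (⟨a, haH⟩ : ↥(Subgroup.centralizer ({y} : Set G))) 1 (by
        apply Subtype.ext
        show a ^ 2 ^ 1 = 1
        rw [pow_one, pow_two, ha2])
    obtain ⟨h₂, hh₂⟩ := Cfsg.Agent.H78.Klein.exists_conj_mem_sylow Q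
      (⟨b, hbH⟩ : ↥(Subgroup.centralizer ({y} : Set G))) 1 (by
        apply Subtype.ext
        show b ^ 2 ^ 1 = 1
        rw [pow_one, pow_two, hb2])
    rw [hmemQ] at hh₁ hh₂
    -- images in the quotient
    have hq1 : (QuotientGroup.mk (h₁ * ⟨a, haH⟩ * h₁⁻¹) :
        ↥(Subgroup.centralizer ({y} : Set G)) ⧸ K) = QuotientGroup.mk ⟨a, haH⟩ := by
      rw [QuotientGroup.mk_mul, QuotientGroup.mk_mul, hcommQ (QuotientGroup.mk h₁),
        QuotientGroup.mk_inv, mul_assoc, mul_inv_cancel, mul_one]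
    have hq2 : (QuotientGroup.mk (h₂ * ⟨b, hbH⟩ * h₂⁻¹) :
        ↥(Subgroup.centralizer ({y} : Set G)) ⧸ K) = QuotientGroup.mk ⟨b, hbH⟩ := by
      rw [QuotientGroup.mk_mul, QuotientGroup.mk_mul, hcommQ (QuotientGroup.mk h₂),
        QuotientGroup.mk_inv, mul_assoc, mul_inv_cancel, mul_one]
    have hwK : (⟨w', hwH⟩ : ↥(Subgroup.centralizer ({y} : Set G))) ∈ K := by
      rw [hKall, ← Subgroup.orderOf_coe]
      show (orderOf w').Coprime 2
      have h1 : orderOf w' = orderOf w := by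
        rw [hw']
        have := orderOf_injective (MulAut.conj d⁻¹).toMonoidHom (MulAut.conj d⁻¹).injective w
        rw [← this]
        simp
      rw [h1]
      exact (Nat.Prime.coprime_iff_not_dvd Nat.prime_two).mpr hw |>.symm
    have hprod : (QuotientGroup.mk ((h₂ * ⟨b, hbH⟩ * h₂⁻¹) * (h₁ * ⟨a, haH⟩ * h₁⁻¹)) :
        ↥(Subgroup.centralizer ({y} : Set G)) ⧸ K) = QuotientGroup.mk ⟨y, hyH⟩ := by
      rw [QuotientGroup.mk_mul, hq1, hq2, ← QuotientGroup.mk_mul]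
      have h1 : (⟨b, hbH⟩ * ⟨a, haH⟩ : ↥(Subgroup.centralizer ({y} : Set G))) =
          ⟨y, hyH⟩ * ⟨w', hwH⟩ := Subtype.ext hba
      rw [h1, QuotientGroup.mk_mul, (QuotientGroup.eq_one_iff _).mpr hwK, mul_one]
    have h1 := QuotientGroup.eq.mp hprod
    have h2 := hPK _ (by
      show ((h₂ * ⟨b, hbH⟩ * h₂⁻¹ * (h₁ * ⟨a, haH⟩ * h₁⁻¹) :
        ↥(Subgroup.centralizer ({y} : Set G))) : G)⁻¹ * y ∈ (P : Subgroup G)
      exact Subgroup.mul_mem _ (Subgroup.inv_mem _ (Subgroup.mul_mem _ hh₂ hh₁)) hy) h1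
    -- the two conjugates in `P`
    obtain ⟨g₁, hg₁⟩ : ∃ g₁ : G, g₁ = (h₁ : G) := ⟨_, rfl⟩
    obtain ⟨g₂, hg₂⟩ : ∃ g₂ : G, g₂ = (h₂ : G) := ⟨_, rfl⟩
    obtain ⟨p₁, hp₁⟩ : ∃ p₁ : G, p₁ = g₁ * a * g₁⁻¹ := ⟨_, rfl⟩
    obtain ⟨p₂, hp₂⟩ : ∃ p₂ : G, p₂ = g₂ * b * g₂⁻¹ := ⟨_, rfl⟩
    have hp₁P : p₁ ∈ (P : Subgroup G) := by rw [hp₁, hg₁]; exact hh₁
    have hp₂P : p₂ ∈ (P : Subgroup G) := by rw [hp₂, hg₂]; exact hh₂
    have hy12 : y = p₂ * p₁ := by
      have h3 : (p₂ * p₁)⁻¹ * y = 1 := by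
        rw [hp₁, hp₂, hg₁, hg₂]
        exact congrArg Subtype.val h2
      exact (inv_mul_eq_one.mp h3).symm
    have hp₁2 : p₁ * p₁ = 1 := by
      rw [hp₁]
      calc g₁ * a * g₁⁻¹ * (g₁ * a * g₁⁻¹)
          = g₁ * (a * a) * g₁⁻¹ := by group
        _ = 1 := by rw [ha2]; group
    -- `p₂` is a conjugate of `p₁`
    obtain ⟨e, he⟩ : ∃ e : G, p₂ = e * p₁ * e⁻¹ := by
      refine ⟨g₂ * d⁻¹ * c * x⁻¹ * c⁻¹ * d * g₁⁻¹, ?_⟩
      rw [hp₁, hp₂, ha, hb]
      group
    have h' : e⁻¹⁻¹ * p₁ * e⁻¹ ∈ (P : Subgroup G) := by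
      rw [inv_inv, ← he]
      exact hp₂P
    obtain ⟨n, hn, hn'⟩ := P.conj_eq_normalizer_conj_of_mem p₁ e⁻¹ hp₁P h'
    rw [inv_inv, ← he] at hn'
    have hmN : n⁻¹ ∈ Subgroup.normalizer ((P : Subgroup G) : Set G) := Subgroup.inv_mem _ hn
    have hp₂' : p₂ = n⁻¹ * p₁ * n⁻¹⁻¹ := by rw [inv_inv]; exact hn'
    by_cases hmC : n⁻¹ ∈ Subgroup.centralizer ((P : Subgroup G) : Set G)
    · have h5 : p₁ * n⁻¹ = n⁻¹ * p₁ := Subgroup.mem_centralizer_iff.mp hmC p₁ hp₁P
      have h6 : p₂ = p₁ := by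
        rw [hp₂', ← h5]
        group
      apply hy1
      rw [hy12, h6, hp₁2]
    · have h5 := mul_conj_conj_eq_one P hCN hfrob hmN hmC hp₁P
      rw [← hp₂'] at h5
      have hc : p₁ * p₂ = p₂ * p₁ := Subgroup.mem_centralizer_iff.mp (P.le_centralizer hp₂P) p₁ hp₁P
      rw [hc, ← hy12] at h5
      -- y = (n⁻¹ p₂ n)⁻¹, conjugate to t
      apply hyt rfl
      have h6 : y = (n⁻¹ * p₂ * n⁻¹⁻¹)⁻¹ := eq_inv_of_mul_eq_one_left h5
      have hp₂2 : p₂⁻¹ = p₂ := by
        rw [hp₂]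
        calc (g₂ * b * g₂⁻¹)⁻¹ = g₂ * b⁻¹ * g₂⁻¹ := by group
          _ = g₂ * b * g₂⁻¹ := by rw [hbinv]
      have h7 : y = n⁻¹ * p₂ * n := by
        rw [h6]
        calc (n⁻¹ * p₂ * n⁻¹⁻¹)⁻¹ = n⁻¹ * p₂⁻¹ * n := by group
          _ = n⁻¹ * p₂ * n := by rw [hp₂2]
      rw [isConj_iff]
      have h8 : (n⁻¹ * g₂ * d⁻¹ * c)⁻¹ * (n⁻¹ * p₂ * n) * (n⁻¹ * g₂ * d⁻¹ * c)⁻¹⁻¹ = t := by
        rw [hp₂, hb]
        group
      refine ⟨(n⁻¹ * g₂ * d⁻¹ * c)⁻¹, ?_⟩
      rw [← h7] at h8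
      exact h8

/-- `|P| ≡ 1 (mod 3)`. -/
theorem card_mod_three (P : Sylow p G) [IsMulCommutative P]
    (hCN : (Subgroup.centralizer ((P : Subgroup G) : Set G)).relIndex
      (Subgroup.normalizer ((P : Subgroup G) : Set G)) = 3)
    (hfrob : ∀ y : G, y ∈ (P : Subgroup G) → y ≠ 1 →
      Subgroup.centralizer ({y} : Set G) ⊓ Subgroup.normalizer ((P : Subgroup G) : Set G) =
        Subgroup.centralizer ((P : Subgroup G) : Set G)) :
    Nat.card (P : Subgroup G) % 3 = 1 := by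
  classical
  letI : Fintype ↥(P : Subgroup G) := Fintype.ofFinite _
  haveI : Fact (Nat.Prime 3) := ⟨Nat.prime_three⟩
  have hex : ∃ n₀ ∈ Subgroup.normalizer ((P : Subgroup G) : Set G),
      n₀ ∉ Subgroup.centralizer ((P : Subgroup G) : Set G) := by
    by_contra hall
    push Not at hall
    have h1 : Subgroup.normalizer ((P : Subgroup G) : Set G) ≤
        Subgroup.centralizer ((P : Subgroup G) : Set G) := fun n hn => hall n hn
    have h2 := Subgroup.relIndex_eq_one.mpr h1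
    omega
  obtain ⟨n₀, hn₀, hn₀C⟩ := hex
  obtain ⟨σ, hσ⟩ : ∃ σ : Equiv.Perm ↥(P : Subgroup G),
      σ = MulAut.toPerm _ ((P : Subgroup G).normalizerMonoidHom ⟨n₀, hn₀⟩) := ⟨_, rfl⟩
  have hσ3 : σ ^ 3 ^ 1 = 1 := by
    rw [pow_one, hσ, ← map_pow, ← map_pow]
    have h1 : (⟨n₀, hn₀⟩ : ↥(Subgroup.normalizer ((P : Subgroup G) : Set G))) ^ 3 ∈
        ((P : Subgroup G).normalizerMonoidHom).ker := by
      rw [Subgroup.normalizerMonoidHom_ker, Subgroup.mem_subgroupOf]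
      exact pow_three_mem P hCN hn₀
    rw [MonoidHom.mem_ker.mp h1, map_one]
  have hfix : σ.supportᶜ = {1} := by
    ext w
    rw [Finset.mem_compl, Equiv.Perm.notMem_support, Finset.mem_singleton]
    constructor
    · intro h
      by_contra hw
      apply hn₀C
      have h1 : n₀ * (w : G) * n₀⁻¹ = (w : G) := by
        have := congrArg Subtype.val h
        rw [hσ] at this
        exact this
      exact mem_centralizer_of_fix P hfrob hn₀ w.2 (fun h1 => hw (Subtype.ext h1)) h1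
    · rintro rfl
      rw [hσ]
      show ((P : Subgroup G).normalizerMonoidHom ⟨n₀, hn₀⟩) 1 = 1
      exact map_one _
  have h := Equiv.Perm.card_compl_support_modEq (p := 3) (n := 1) hσ3
  rw [hfix, Finset.card_singleton] at h
  rw [Nat.card_eq_fintype_card]
  exact h.symm

/-- For `p = 2` and `|P| > 4`, some `y ∈ P#` is not conjugate to `t`. -/
theorem exists_not_conj (P : Sylow 2 G) [IsMulCommutative P]
    (hCN : (Subgroup.centralizer ((P : Subgroup G) : Set G)).relIndex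
      (Subgroup.normalizer ((P : Subgroup G) : Set G)) = 3)
    (hcard : 4 < Nat.card (P : Subgroup G)) (t : G) :
    ∃ y ∈ (P : Subgroup G), y ≠ 1 ∧ ¬ IsConj y t := by
  classical
  by_contra hall
  push Not at hall
  -- some `q₁ ∈ P#`
  obtain ⟨q₁, hq₁, hq₁1⟩ : ∃ q₁ ∈ (P : Subgroup G), q₁ ≠ 1 := by
    by_contra hno
    push Not at hno
    have h1 : Nat.card (P : Subgroup G) = 1 := by
      rw [Nat.card_eq_one_iff_unique]
      exact ⟨⟨fun a b => Subtype.ext (by rw [hno a a.2, hno b b.2])⟩, ⟨1⟩⟩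
    omega
  have hsub : ((P : Subgroup G) : Set G) ⊆ {1} ∪
      (fun α : MulAut ↥(P : Subgroup G) => ((α ⟨q₁, hq₁⟩ : ↥(P : Subgroup G)) : G)) ''
        (((P : Subgroup G).normalizerMonoidHom).range : Set (MulAut ↥(P : Subgroup G))) := by
    intro y hy
    by_cases hy1 : y = 1
    · exact Or.inl hy1
    · right
      have h1 : IsConj q₁ y := (hall q₁ hq₁ hq₁1).trans (hall y hy hy1).symm
      obtain ⟨g, hg⟩ := isConj_iff.mp h1
      have h' : g⁻¹⁻¹ * q₁ * g⁻¹ ∈ (P : Subgroup G) := by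
        rw [inv_inv, hg]
        exact hy
      obtain ⟨n, hn, hn'⟩ := P.conj_eq_normalizer_conj_of_mem q₁ g⁻¹ hq₁ h'
      rw [inv_inv, hg] at hn'
      refine ⟨(P : Subgroup G).normalizerMonoidHom ⟨n⁻¹, Subgroup.inv_mem _ hn⟩,
        ⟨_, rfl⟩, ?_⟩
      show n⁻¹ * q₁ * n⁻¹⁻¹ = y
      rw [inv_inv, hn']
  have hfin : (((P : Subgroup G).normalizerMonoidHom).range :
      Set (MulAut ↥(P : Subgroup G))).Finite := Set.toFinite _
  have h3 : (((P : Subgroup G).normalizerMonoidHom).range :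
      Set (MulAut ↥(P : Subgroup G))).ncard = 3 := by
    have h4 := Subgroup.index_ker ((P : Subgroup G).normalizerMonoidHom)
    rw [Subgroup.normalizerMonoidHom_ker] at h4
    have h5 : Nat.card ↥(((P : Subgroup G).normalizerMonoidHom).range) = 3 := by
      rw [← h4]
      exact hCN
    rw [← h5]
    exact (Nat.card_coe_set_eq _).symm
  have h6 := Set.ncard_le_ncard hsub (Set.toFinite _)
  have h7 := Set.ncard_union_le ({1} : Set G)
    ((fun α : MulAut ↥(P : Subgroup G) => ((α ⟨q₁, hq₁⟩ : ↥(P : Subgroup G)) : G)) ''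
        (((P : Subgroup G).normalizerMonoidHom).range : Set (MulAut ↥(P : Subgroup G))))
  have h8 := Set.ncard_image_le (f := fun α : MulAut ↥(P : Subgroup G) =>
    ((α ⟨q₁, hq₁⟩ : ↥(P : Subgroup G)) : G)) hfin
  rw [Set.ncard_singleton] at h7
  have h9 : ((P : Subgroup G) : Set G).ncard = Nat.card (P : Subgroup G) :=
    (Nat.card_coe_set_eq _).symm
  omega

end Cfsg.Agent.H78.BM
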