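import Cfsg.Agent.H78.BM1
import Cfsg.Agent.H78.BM2
import Cfsg.Agent.H78.BL5

/-!
# Index-three Brauer–Leonard situation: the refined structure of the principal block (helper78)
-/

set_option autoImplicit false
set_option linter.style.haveILetI false
set_option linter.unusedSectionVars false
set_option linter.unusedVariables false

namespace Cfsg.Agent.H78.BM

open Cfsg Cfsg.Agent.H78.BL

universe u

section RelLemmas

variable {G : Type u} [Group G] [Finite G] {p : ℕ} [Fact p.Prime]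

theorem rel_symm (P : Sylow p G) {ψ ψ' : ↥(P : Subgroup G) →* ℂˣ} (h : Rel P ψ ψ') :
    Rel P ψ' ψ := by
  obtain ⟨n, hn, hw⟩ := h
  refine ⟨n⁻¹, Subgroup.inv_mem _ hn, fun w w' hw' => ?_⟩
  have h1 : (w : G) = n * w' * n⁻¹ := by rw [hw']; group
  exact (hw w' w h1).symm

theorem rel_trans (P : Sylow p G) {ψ₁ ψ₂ ψ₃ : ↥(P : Subgroup G) →* ℂˣ} (h₁ : Rel P ψ₁ ψ₂)
    (h₂ : Rel P ψ₂ ψ₃) : Rel P ψ₁ ψ₃ := by
  obtain ⟨n₁, hn₁, hw₁⟩ := h₁
  obtain ⟨n₂, hn₂, hw₂⟩ := h₂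
  refine ⟨n₂ * n₁, Subgroup.mul_mem _ hn₂ hn₁, fun w w' hw' => ?_⟩
  have hv : n₁ * w * n₁⁻¹ ∈ (P : Subgroup G) :=
    (Subgroup.mem_set_normalizer_iff.mp hn₁ w).mp w.2
  have e1 := hw₁ w ⟨_, hv⟩ rfl
  have e2 := hw₂ ⟨_, hv⟩ w' (by rw [hw']; group)
  rw [e2, e1]

theorem rel_inv (P : Sylow p G) {ψ ψ' : ↥(P : Subgroup G) →* ℂˣ} (h : Rel P ψ ψ') :
    Rel P ψ⁻¹ ψ'⁻¹ := by
  obtain ⟨n, hn, hw⟩ := h
  exact ⟨n, hn, fun w w' hw' => by rw [MonoidHom.inv_apply, MonoidHom.inv_apply, hw w w' hw']⟩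

theorem rel_ne_one (P : Sylow p G) {ψ ψ' : ↥(P : Subgroup G) →* ℂˣ} (hψ : ψ ≠ 1)
    (h : Rel P ψ ψ') : ψ' ≠ 1 := by
  obtain ⟨n, hn, hw⟩ := h
  intro h1
  apply hψ
  refine MonoidHom.ext fun w => ?_
  have := hw w ⟨n * w * n⁻¹, (Subgroup.mem_set_normalizer_iff.mp hn w).mp w.2⟩ rfl
  rw [← this, h1]
  rfl

/-- For `|P|` odd, a non-principal linear character is not conjugate to its inverse. -/
theorem not_rel_inv (P : Sylow p G) [IsMulCommutative P]
    (hCN : (Subgroup.centralizer ((P : Subgroup G) : Set G)).relIndex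
      (Subgroup.normalizer ((P : Subgroup G) : Set G)) = 3)
    (hfrob : ∀ y : G, y ∈ (P : Subgroup G) → y ≠ 1 →
      Subgroup.centralizer ({y} : Set G) ⊓ Subgroup.normalizer ((P : Subgroup G) : Set G) =
        Subgroup.centralizer ((P : Subgroup G) : Set G))
    (hodd : Odd (Nat.card (P : Subgroup G)))
    {ψ : ↥(P : Subgroup G) →* ℂˣ} (hψ : ψ ≠ 1) : ¬ Rel P ψ ψ⁻¹ := by
  rintro ⟨n, hn, hw⟩
  have key1 : ∀ w : ↥(P : Subgroup G),
      ψ ((P : Subgroup G).normalizerMonoidHom ⟨n, hn⟩ w) = (ψ w)⁻¹ := by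
    intro w
    have h1 := hw w ((P : Subgroup G).normalizerMonoidHom ⟨n, hn⟩ w) rfl
    rw [MonoidHom.inv_apply] at h1
    rw [← h1, inv_inv]
  have hfix : ψ.comp ((P : Subgroup G).normalizerMonoidHom
      ((⟨n, hn⟩ : ↥(Subgroup.normalizer ((P : Subgroup G) : Set G))) * ⟨n, hn⟩)).toMonoidHom =
      ψ := by
    refine MonoidHom.ext fun w => ?_
    show ψ ((P : Subgroup G).normalizerMonoidHom (⟨n, hn⟩ * ⟨n, hn⟩) w) = ψ w
    rw [map_mul, MulAut.mul_apply, key1, key1, inv_inv]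
  have h1 := free_on_chars P hfrob _ ψ hψ hfix
  have h2 : n * n ∈ Subgroup.centralizer ((P : Subgroup G) : Set G) := by
    have h3 : ((⟨n, hn⟩ : ↥(Subgroup.normalizer ((P : Subgroup G) : Set G))) * ⟨n, hn⟩) ∈
        ((P : Subgroup G).normalizerMonoidHom).ker := MonoidHom.mem_ker.mpr h1
    rw [Subgroup.normalizerMonoidHom_ker, Subgroup.mem_subgroupOf] at h3
    exact h3
  have h3 : n * n * n ∈ Subgroup.centralizer ((P : Subgroup G) : Set G) := by
    have := pow_three_mem P hCN hn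
    rwa [pow_succ, pow_two] at this
  have h4 : n ∈ Subgroup.centralizer ((P : Subgroup G) : Set G) := by
    have : n = n * n * n * (n * n)⁻¹ := by rw [mul_assoc n n n, mul_inv_cancel_right]
    rw [this]
    exact Subgroup.mul_mem _ h3 (Subgroup.inv_mem _ h2)
  apply hψ
  refine MonoidHom.ext fun w => ?_
  have h5 : (w : G) = n * w * n⁻¹ := by
    have := Subgroup.mem_centralizer_iff.mp h4 w w.2
    rw [← this, mul_inv_cancel_right]
  have h6 := hw w w h5
  rw [MonoidHom.inv_apply] at h6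
  have h7 : ψ w ^ 2 = 1 := by
    rw [pow_two]
    nth_rewrite 1 [← h6]
    exact inv_mul_cancel _
  have h8 : ψ w ^ Nat.card (P : Subgroup G) = 1 := by
    rw [← map_pow, pow_card_eq_one', map_one]
  have h9 : orderOf (ψ w) ∣ Nat.gcd 2 (Nat.card (P : Subgroup G)) :=
    Nat.dvd_gcd (orderOf_dvd_of_pow_eq_one h7) (orderOf_dvd_of_pow_eq_one h8)
  have h10 : Nat.gcd 2 (Nat.card (P : Subgroup G)) = 1 := Nat.coprime_two_left.mpr hodd
  rw [h10, Nat.dvd_one, orderOf_eq_one_iff] at h9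
  rw [h9]
  rfl

/-- For `|P| = 7` the two orbits of `ψ` and `ψ⁻¹` exhaust the non-principal characters. -/
theorem orbit_sum_seven (P : Sylow p G) [IsMulCommutative P]
    (hCN : (Subgroup.centralizer ((P : Subgroup G) : Set G)).relIndex
      (Subgroup.normalizer ((P : Subgroup G) : Set G)) = 3)
    (hfrob : ∀ y : G, y ∈ (P : Subgroup G) → y ≠ 1 →
      Subgroup.centralizer ({y} : Set G) ⊓ Subgroup.normalizer ((P : Subgroup G) : Set G) =
        Subgroup.centralizer ((P : Subgroup G) : Set G))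
    (h7 : Nat.card (P : Subgroup G) = 7)
    {ψ : ↥(P : Subgroup G) →* ℂˣ} (hψ : ψ ≠ 1) (y : ↥(P : Subgroup G)) (hy : y ≠ 1) :
    1 + ∑ᶠ ψ' ∈ {ψ' : ↥(P : Subgroup G) →* ℂˣ | Rel P ψ ψ'}, ((ψ' y : ℂˣ) : ℂ) +
      ∑ᶠ ψ' ∈ {ψ' : ↥(P : Subgroup G) →* ℂˣ | Rel P ψ⁻¹ ψ'}, ((ψ' y : ℂˣ) : ℂ) = 0 := by
  classical
  letI : Fintype (↥(P : Subgroup G) →* ℂˣ) := Fintype.ofFinite _
  have hcomm : ∀ a b : ↥(P : Subgroup G), a * b = b * a := fun a b => mul_comm' a b
  have hψ' : ψ⁻¹ ≠ 1 := by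
    intro h
    apply hψ
    refine MonoidHom.ext fun w => ?_
    have h1 := congrArg (fun g : ↥(P : Subgroup G) →* ℂˣ => g w) h
    simp only [MonoidHom.inv_apply, MonoidHom.one_apply] at h1
    rw [MonoidHom.one_apply]
    exact inv_eq_one.mp h1
  have hodd : Odd (Nat.card (P : Subgroup G)) := by rw [h7]; decide
  obtain ⟨A, hA⟩ : ∃ A : Finset (↥(P : Subgroup G) →* ℂˣ), A = Finset.univ.filter
      (fun ψ' => ψ' ∈ {ψ' : ↥(P : Subgroup G) →* ℂˣ | Rel P ψ ψ'}) := ⟨_, rfl⟩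
  obtain ⟨B, hB⟩ : ∃ B : Finset (↥(P : Subgroup G) →* ℂˣ), B = Finset.univ.filter
      (fun ψ' => ψ' ∈ {ψ' : ↥(P : Subgroup G) →* ℂˣ | Rel P ψ⁻¹ ψ'}) := ⟨_, rfl⟩
  have hmemA : ∀ ψ', ψ' ∈ A ↔ Rel P ψ ψ' := by
    intro ψ'
    rw [hA, Finset.mem_filter]
    simp
  have hmemB : ∀ ψ', ψ' ∈ B ↔ Rel P ψ⁻¹ ψ' := by
    intro ψ'
    rw [hB, Finset.mem_filter]
    simp
  have hAc : A.card = 3 := by
    rw [← hCN, ← card_orbit P hfrob ψ hψ, Nat.card_eq_fintype_card, Fintype.card_subtype, hA]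
    rfl
  have hBc : B.card = 3 := by
    rw [← hCN, ← card_orbit P hfrob ψ⁻¹ hψ', Nat.card_eq_fintype_card, Fintype.card_subtype, hB]
    rfl
  have hAB : Disjoint A B := by
    rw [Finset.disjoint_left]
    intro ψ' h1 h2
    rw [hmemA] at h1
    rw [hmemB] at h2
    exact not_rel_inv P hCN hfrob hodd hψ (rel_trans P h1 (rel_symm P h2))
  have h1A : (1 : ↥(P : Subgroup G) →* ℂˣ) ∉ A ∪ B := by
    rw [Finset.mem_union, hmemA, hmemB]
    rintro (h | h)
    · exact rel_ne_one P hψ h rfl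
    · exact rel_ne_one P hψ' h rfl
  have huniv : insert (1 : ↥(P : Subgroup G) →* ℂˣ) (A ∪ B) = Finset.univ := by
    apply Finset.eq_univ_of_card
    rw [Finset.card_insert_of_notMem h1A, Finset.card_union_of_disjoint hAB, hAc, hBc,
      ← Nat.card_eq_fintype_card, card_hom hcomm, h7]
  have h0 := sum_hom_apply hcomm y
  rw [if_neg hy, finsum_eq_sum_of_fintype, ← huniv, Finset.sum_insert h1A,
    Finset.sum_union hAB] at h0
  rw [finsum_mem_eq_sum_ite, finsum_mem_eq_sum_ite, ← Finset.sum_filter, ← Finset.sum_filter,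
    ← hA, ← hB]
  rw [← h0]
  simp only [MonoidHom.one_apply, Units.val_one]
  ring

end RelLemmas

/-- Case analysis of the norm equation for `m = 3`. -/
theorem norm_cases (d δ r S : ℤ) (hδ : δ = 1 ∨ δ = -1) (hr : 2 ≤ r) (hS : 1 ≤ S)
    (h : (d - δ) ^ 2 + (r - 1) * d ^ 2 + S = 4) :
    (d = 0 ∧ S = 3) ∨ (d = δ ∧ r + S = 5) := by
  have hd : d ≤ -2 ∨ d = -1 ∨ d = 0 ∨ d = 1 ∨ 2 ≤ d := by omega
  rcases hδ with rfl | rfl
  · rcases hd with hd | rfl | rfl | rfl | hd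
    · exfalso
      nlinarith [mul_nonneg (show (0 : ℤ) ≤ r - 1 by linarith) (sq_nonneg d)]
    · exfalso
      norm_num at h
      linarith
    · left
      norm_num at h
      exact ⟨rfl, by linarith⟩
    · right
      norm_num at h
      exact ⟨rfl, by linarith⟩
    · exfalso
      have h1 : 4 ≤ d ^ 2 := by nlinarith
      have h2 : 4 ≤ (r - 1) * d ^ 2 := by nlinarith
      nlinarith [sq_nonneg (d - 1)]
  · rcases hd with hd | rfl | rfl | rfl | hd
    · exfalso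
      have h1 : 4 ≤ d ^ 2 := by nlinarith
      have h2 : 4 ≤ (r - 1) * d ^ 2 := by nlinarith
      nlinarith [sq_nonneg (d + 1)]
    · right
      norm_num at h
      exact ⟨rfl, by linarith⟩
    · left
      norm_num at h
      exact ⟨rfl, by linarith⟩
    · exfalso
      norm_num at h
      linarith
    · exfalso
      nlinarith [mul_nonneg (show (0 : ℤ) ≤ r - 1 by linarith) (sq_nonneg d)]

/-- `10` is not a prime power. -/
theorem ten_ne_prime_pow (p k : ℕ) (hp : p.Prime) : p ^ k ≠ 10 := by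
  intro h
  have hk : k ≠ 0 := by
    rintro rfl
    norm_num at h
  have h1 : p ∣ 10 := h ▸ dvd_pow_self p hk
  have h2 : p ∣ 2 * 5 := h1
  rcases (Nat.Prime.dvd_mul hp).mp h2 with h3 | h3
  · have h4 := (Nat.prime_dvd_prime_iff_eq hp Nat.prime_two).mp h3
    subst h4
    rcases Nat.lt_or_ge k 4 with h5 | h5
    · interval_cases k <;> omega
    · have := Nat.pow_le_pow_right (show 0 < 2 by norm_num) h5
      omega
  · have h4 := (Nat.prime_dvd_prime_iff_eq hp Nat.prime_five).mp h3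
    subst h4
    rcases Nat.lt_or_ge k 2 with h5 | h5
    · interval_cases k <;> omega
    · have := Nat.pow_le_pow_right (show 0 < 5 by norm_num) h5
      omega

end Cfsg.Agent.H78.BM
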