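import Cfsg.Agent.H78.BM3

/-!
# Index-three Brauer–Leonard situation: the refined first half (helper78)

From the general Brauer–Leonard structure theorem with `m = 3`: the set `X` has exactly three
members with signs `±1` and the exceptional characters can be labelled with `d = 0`.
-/

set_option autoImplicit false
set_option linter.style.haveILetI false
set_option linter.unusedSectionVars false
set_option linter.unusedVariables false

namespace Cfsg.Agent.H78.BM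

open Cfsg Cfsg.Agent.H78.BL

universe u

theorem bl3_refined {G : Type u} [Group G] [Finite G] (p : ℕ) [Fact p.Prime]
    (M : Ideal Cfsg.AlgInt) (hM : Cfsg.IsPModular p M) (P : Sylow p G)
    (hab : IsMulCommutative P) (hP1 : Nat.card P ≠ 1)
    (hCN : (Subgroup.centralizer ((P : Subgroup G) : Set G)).relIndex
      (Subgroup.normalizer ((P : Subgroup G) : Set G)) = 3)
    (hcyc : ∃ g : G, g ∈ Subgroup.normalizer ((P : Subgroup G) : Set G) ∧
      Subgroup.centralizer ((P : Subgroup G) : Set G) ⊔ Subgroup.zpowers g =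
        Subgroup.normalizer ((P : Subgroup G) : Set G))
    (hm2 : 3 + 1 < Nat.card P)
    (hfrob : ∀ y : G, y ∈ (P : Subgroup G) → y ≠ 1 →
      Subgroup.centralizer ({y} : Set G) ⊓ Subgroup.normalizer ((P : Subgroup G) : Set G) =
        Subgroup.centralizer ((P : Subgroup G) : Set G)) :
    ∃ (X Y : Set (IrrCharacter G)), principalBlock M G = X ∪ Y ∧ Disjoint X Y ∧
      Nat.card X = 3 ∧ Nat.card Y = (Nat.card P - 1) / 3 ∧
      (∃ χ₁ ∈ X, (χ₁ : G → ℂ) = fun _ => 1) ∧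
      ∃ (a : IrrCharacter G → ℤ) (δ : ℤ) (ζ : (↥(P : Subgroup G) →* ℂˣ) → IrrCharacter G),
        (δ = 1 ∨ δ = -1) ∧
        (∀ χ ∈ X, (a χ = 1 ∨ a χ = -1) ∧ ∀ z y : G, IsPPart p z y → y ∈ (P : Subgroup G) →
          y ≠ 1 → (χ : G → ℂ) z = (a χ : ℂ)) ∧
        (∀ ψ : ↥(P : Subgroup G) →* ℂˣ, ψ ≠ 1 → ζ ψ ∈ Y) ∧
        (∀ η ∈ Y, ∃ ψ : ↥(P : Subgroup G) →* ℂˣ, ψ ≠ 1 ∧ ζ ψ = η) ∧
        (∀ ψ ψ' : ↥(P : Subgroup G) →* ℂˣ, ψ ≠ 1 → Rel P ψ ψ' → ζ ψ' = ζ ψ) ∧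
        (∀ ψ : ↥(P : Subgroup G) →* ℂˣ, ψ ≠ 1 → ∀ (z : G) (y : ↥(P : Subgroup G)),
          IsPPart p z (y : G) → (y : G) ≠ 1 → (ζ ψ : G → ℂ) z = (δ : ℂ) *
            ∑ᶠ ψ' ∈ {ψ' : ↥(P : Subgroup G) →* ℂˣ | Rel P ψ ψ'}, ((ψ' y : ℂˣ) : ℂ)) ∧
        (∀ η ∈ Y, ∀ η' ∈ Y, ∀ g : G, ¬ p ∣ orderOf g → (η : G → ℂ) g = (η' : G → ℂ) g) ∧
        (∀ η ∈ Y, ∀ g : G, ¬ p ∣ orderOf g →
          -(δ : ℂ) * (η : G → ℂ) g + ∑ᶠ χ ∈ X, (a χ : ℂ) * (χ : G → ℂ) g = 0) := by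
  classical
  haveI := hab
  haveI := Cfsg.Agent.H4.finite_irr G
  letI := Cfsg.Agent.H4.fintypeIrr G
  have hp : p.Prime := Fact.out
  obtain ⟨s, X, Y, hs, hB, hdisj, hXc, hYc, ⟨χ₁, hχ₁X, hχ₁⟩, a, d, δ, ζ, hδ, hX, hζY, hsurj,
    hconst, hval, hnorm, hYreg, hrel⟩ :=
    brauer_leonard p M hM P hab hP1 3 (by norm_num) hm2 hCN hcyc hfrob
  -- `|P| = 3 r + 1`
  have hmod := card_mod_three P hCN hfrob
  obtain ⟨r, hr⟩ : ∃ r : ℕ, Nat.card (P : Subgroup G) = 3 * r + 1 :=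
    ⟨Nat.card (P : Subgroup G) / 3, by omega⟩
  have hr2 : 2 ≤ r := by omega
  have hrdiv : (Nat.card (P : Subgroup G) - 1) / 3 = r := by omega
  -- an element of `P#`
  obtain ⟨y₁, hy₁P, hy₁⟩ : ∃ y₁ ∈ (P : Subgroup G), y₁ ≠ 1 := by
    by_contra hno
    push Not at hno
    apply hP1
    rw [Nat.card_eq_one_iff_unique]
    exact ⟨⟨fun a b => Subtype.ext (by rw [hno a a.2, hno b b.2])⟩, ⟨1⟩⟩
  have hpp : IsPPart p y₁ y₁ := Cfsg.Agent.H84.isPPart_self hp (orderOf_mem_sylow P hy₁P)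
  have ha1 : a χ₁ = 1 := by
    have h1 := (hX χ₁ hχ₁X).2 y₁ y₁ hpp hy₁P hy₁
    rw [hχ₁] at h1
    have h1' : (1 : ℂ) = (a χ₁ : ℂ) := h1
    exact_mod_cast h1'.symm
  -- the finset of `X`
  obtain ⟨Xf, hXf⟩ : ∃ Xf : Finset (IrrCharacter G),
      Xf = Finset.univ.filter (fun χ => χ ∈ X) := ⟨_, rfl⟩
  have hmemXf : ∀ χ, χ ∈ Xf ↔ χ ∈ X := by
    intro χ
    rw [hXf, Finset.mem_filter]
    simp
  have hXfc : Xf.card = s := by
    rw [← hXc, Nat.card_eq_fintype_card, Fintype.card_subtype, hXf]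
  have hsumX : ∀ f : IrrCharacter G → ℤ, ∑ᶠ χ ∈ X, f χ = ∑ χ ∈ Xf, f χ := by
    intro f
    rw [finsum_mem_eq_sum_ite, ← Finset.sum_filter, hXf]
  have hsumXC : ∀ f : IrrCharacter G → ℂ, ∑ᶠ χ ∈ X, f χ = ∑ χ ∈ Xf, f χ := by
    intro f
    rw [finsum_mem_eq_sum_ite, ← Finset.sum_filter, hXf]
  obtain ⟨S, hS⟩ : ∃ S : ℤ, S = ∑ χ ∈ Xf, a χ ^ 2 := ⟨_, rfl⟩
  have hS1 : 1 ≤ S := by
    rw [hS]
    have h1 := Finset.single_le_sum (f := fun χ => a χ ^ 2) (fun χ _ => sq_nonneg (a χ))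
      ((hmemXf χ₁).mpr hχ₁X)
    rw [ha1] at h1
    linarith
  have hnorm' : (d - δ) ^ 2 + ((r : ℤ) - 1) * d ^ 2 + S = 4 := by
    rw [hsumX, ← hS] at hnorm
    push_cast at hnorm
    have e : ((Nat.card (P : Subgroup G) : ℤ) - 1) / 3 = (r : ℤ) := by omega
    rw [e] at hnorm
    linarith
  have hanz : ∀ χ ∈ Xf, a χ ≠ 0 := fun χ hχ => (hX χ ((hmemXf χ).mp hχ)).1
  have hall_of : S ≤ 3 → ∀ χ ∈ Xf, a χ ^ 2 = 1 := by
    intro hS3 χ hχ
    by_contra hne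
    have h0 := hanz χ hχ
    have h4 : 4 ≤ a χ ^ 2 := by
      have h5 : a χ ≤ -2 ∨ a χ = -1 ∨ a χ = 1 ∨ 2 ≤ a χ := by omega
      rcases h5 with h | h | h | h
      · nlinarith
      · exfalso; apply hne; rw [h]; norm_num
      · exfalso; apply hne; rw [h]; norm_num
      · nlinarith
    have h6 := Finset.single_le_sum (f := fun χ => a χ ^ 2) (fun χ _ => sq_nonneg (a χ)) hχ
    rw [← hS] at h6
    linarith
  have hS_card : S ≤ 3 → S = (s : ℤ) := by
    intro hS3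
    rw [hS, Finset.sum_congr rfl (hall_of hS3), Finset.sum_const, hXfc]
    simp
  have hsign : S ≤ 3 → ∀ χ ∈ X, (a χ = 1 ∨ a χ = -1) ∧ ∀ z y : G, IsPPart p z y →
      y ∈ (P : Subgroup G) → y ≠ 1 → (χ : G → ℂ) z = (a χ : ℂ) := by
    intro hS3 χ hχ
    refine ⟨?_, (hX χ hχ).2⟩
    have h1 := hall_of hS3 χ ((hmemXf χ).mpr hχ)
    have h2 : (a χ - 1) * (a χ + 1) = 0 := by linear_combination h1
    rcases mul_eq_zero.mp h2 with h | h
    · left; linarith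
    · right; linarith
  rcases norm_cases d δ r S hδ (by exact_mod_cast hr2) hS1 hnorm' with ⟨hd0, hS3⟩ | ⟨hdδ, hrS⟩
  · -- `d = 0`
    have hs3 : s = 3 := by
      have h1 := hS_card (by omega)
      omega
    refine ⟨X, Y, hB, hdisj, by rw [hXc, hs3], hYc, ⟨χ₁, hχ₁X, hχ₁⟩, a, δ, ζ, hδ,
      hsign (by omega), hζY, hsurj, hconst, ?_, hYreg, ?_⟩
    · intro ψ hψ z y hz hy
      have h1 := hval ψ hψ z y hz hy
      rw [hd0, Int.cast_zero, zero_add] at h1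
      exact h1
    · intro η hη g hg
      have h1 := hrel η hη g hg
      rw [hd0, Int.cast_zero, mul_zero, zero_sub] at h1
      exact h1
  · -- `d = δ`
    have hr4 : r ≤ 4 := by omega
    interval_cases r
    · -- `r = 2`, `|P| = 7`: relabel by inversion
      have hS3 : S = 3 := by omega
      have hs3 : s = 3 := by
        have h1 := hS_card (by omega)
        omega
      have h7 : Nat.card (P : Subgroup G) = 7 := by omega
      have hinv : ∀ ψ : ↥(P : Subgroup G) →* ℂˣ, ψ ≠ 1 → ψ⁻¹ ≠ 1 := by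
        intro ψ hψ h
        apply hψ
        refine MonoidHom.ext fun w => ?_
        have h1 := congrArg (fun g : ↥(P : Subgroup G) →* ℂˣ => g w) h
        simp only [MonoidHom.inv_apply, MonoidHom.one_apply] at h1
        rw [MonoidHom.one_apply]
        exact inv_eq_one.mp h1
      refine ⟨X, Y, hB, hdisj, by rw [hXc, hs3], hYc, ⟨χ₁, hχ₁X, hχ₁⟩, a, -δ,
        fun ψ => ζ ψ⁻¹, ?_, hsign (by omega), ?_, ?_, ?_, ?_, hYreg, ?_⟩
      · rcases hδ with h | h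
        · right; rw [h]
        · left; rw [h]; norm_num
      · intro ψ hψ
        exact hζY ψ⁻¹ (hinv ψ hψ)
      · intro η hη
        obtain ⟨ψ, hψ, rfl⟩ := hsurj η hη
        refine ⟨ψ⁻¹, hinv ψ hψ, ?_⟩
        have h1 : ψ⁻¹⁻¹ = ψ := MonoidHom.ext fun w => by
          rw [MonoidHom.inv_apply, MonoidHom.inv_apply, inv_inv]
        show ζ ψ⁻¹⁻¹ = ζ ψ
        rw [h1]
      · intro ψ ψ' hψ hR
        exact hconst ψ⁻¹ ψ'⁻¹ (hinv ψ hψ) (rel_inv P hR)
      · intro ψ hψ z y hz hy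
        have h1 : (ζ ψ⁻¹ : G → ℂ) z = (d : ℂ) + (δ : ℂ) *
            ∑ᶠ ψ' ∈ {ψ' : ↥(P : Subgroup G) →* ℂˣ | Rel P ψ⁻¹ ψ'}, ((ψ' y : ℂˣ) : ℂ) :=
          hval ψ⁻¹ (hinv ψ hψ) z y hz hy
        have h2 := orbit_sum_seven P hCN hfrob h7 hψ y (fun h => hy (by rw [h]; rfl))
        show (ζ ψ⁻¹ : G → ℂ) z = _
        rw [h1, hdδ]
        push_cast
        linear_combination (δ : ℂ) * h2
      · intro η hη g hg
        have h1 := hrel η hη g hg
        rw [hrdiv, hdδ] at h1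
        push_cast at h1 ⊢
        linear_combination h1
    · -- `r = 3`: `|P| = 10`
      exfalso
      obtain ⟨k, hk⟩ := IsPGroup.iff_card.mp P.2
      exact ten_ne_prime_pow p k hp (by rw [← hk, hr])
    · -- `r = 4`: `X = {1}`, impossible by degrees
      exfalso
      have hS1' : S = 1 := by omega
      have hs1 : s = 1 := by
        have h1 := hS_card (by omega)
        omega
      rw [hs1] at hXfc
      obtain ⟨c, hc⟩ := Finset.card_eq_one.mp hXfc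
      have hc1 : χ₁ = c := by
        have := (hmemXf χ₁).mpr hχ₁X
        rw [hc, Finset.mem_singleton] at this
        exact this
      have hYpos : 0 < Nat.card ↥Y := by rw [hYc, hrdiv]; norm_num
      obtain ⟨⟨η, hη⟩⟩ := (Nat.card_pos_iff.mp hYpos).1
      have h1 := hrel η hη 1 (by rw [orderOf_one]; exact hp.not_dvd_one)
      rw [hsumXC, hc, Finset.sum_singleton, ← hc1, ha1, hχ₁, hrdiv, hdδ,
        (Cfsg.Agent.H81.irr_charDegree η).1] at h1
      have h2 : ((4 * δ - δ) * (charDegree (η : G → ℂ) : ℤ) + 1 : ℤ) = 0 := by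
        have h3 : (((4 * δ - δ) * (charDegree (η : G → ℂ) : ℤ) + 1 : ℤ) : ℂ) = 0 := by
          push_cast
          linear_combination h1
        exact_mod_cast h3
      rcases hδ with h | h
      · rw [h] at h2
        have : (0 : ℤ) ≤ (charDegree (η : G → ℂ) : ℤ) := Int.natCast_nonneg _
        omega
      · rw [h] at h2
        have : (0 : ℤ) ≤ (charDegree (η : G → ℂ) : ℤ) := Int.natCast_nonneg _
        omega

end Cfsg.Agent.H78.BM
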