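import Cfsg.Agent.H78.BM4
import Cfsg.Agent.S0925
import Cfsg.Agent.S0944
import Cfsg.Agent.H20.SubgroupIdem

/-!
# Index-three Brauer–Leonard situation: relations from an involution (helper78)
-/

set_option autoImplicit false
set_option linter.style.haveILetI false
set_option linter.unusedSectionVars false
set_option linter.unusedVariables false

namespace Cfsg.Agent.H78.BM

open Cfsg Cfsg.Agent.H78.BL Cfsg.Agent.H4 Cfsg.Agent.H20

open scoped ComplexConjugate

universe u

variable {G : Type u} [Group G] [Finite G] {p : ℕ} [Fact p.Prime]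

/-- The principal-block relation `∑ χ(y) χ(t)² / χ(1) = 0`. -/
theorem rel_sq {M : Ideal AlgInt} (hM : IsPModular p M) (P : Sylow p G) [IsMulCommutative P]
    (hCN : (Subgroup.centralizer ((P : Subgroup G) : Set G)).relIndex
      (Subgroup.normalizer ((P : Subgroup G) : Set G)) = 3)
    (hfrob : ∀ y : G, y ∈ (P : Subgroup G) → y ≠ 1 →
      Subgroup.centralizer ({y} : Set G) ⊓ Subgroup.normalizer ((P : Subgroup G) : Set G) =
        Subgroup.centralizer ((P : Subgroup G) : Set G))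
    (t : G) (ht : orderOf t = 2) {y : G} (hy : y ∈ (P : Subgroup G)) (hy1 : y ≠ 1)
    (hyt : p = 2 → ¬ IsConj y t) :
    ∑ᶠ χ ∈ principalBlock M G, (χ : G → ℂ) y * ((χ : G → ℂ) t ^ 2 / (χ : G → ℂ) 1) = 0 := by
  classical
  letI := Fintype.ofFinite G
  letI := fintypeIrr G
  have hp : p.Prime := Fact.out
  have hB0 : IsPBlock M (principalBlock M G) := ⟨Cfsg.Agent.H80.trivChar G, rfl⟩
  have hproj := (Cfsg.Agent.S0925.result (G := G) p M hM).1
  have hsec : ∀ u z : G, IsPPart p u z → IsConj y z →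
      (∑ᶠ χ : IrrCharacter G, ((χ : G → ℂ) t ^ 2 / (χ : G → ℂ) 1) • (χ : G → ℂ)) u = 0 := by
    intro u z hu hz
    have heval : (∑ᶠ χ : IrrCharacter G, ((χ : G → ℂ) t ^ 2 / (χ : G → ℂ) 1) • (χ : G → ℂ)) u =
        ∑ᶠ χ : IrrCharacter G, ((χ : G → ℂ) t ^ 2 / (χ : G → ℂ) 1) * (χ : G → ℂ) u := by
      rw [finsum_irr_eq_sum, finsum_irr_eq_sum, Finset.sum_apply]
      rfl
    rw [heval]
    apply Cfsg.Agent.H84.sum_sq_div_mul_eq_zero
    exact no_products P hCN hfrob t ht hy hy1 hyt u z hu hz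
  have h := hproj _ (isClassFunction_finsum_irr
    (fun χ : IrrCharacter G => (χ : G → ℂ) t ^ 2 / (χ : G → ℂ) 1)) y (orderOf_mem_sylow P hy)
    hsec (principalBlock M G) hB0 y y
    (Cfsg.Agent.H84.isPPart_self hp (orderOf_mem_sylow P hy)) (IsConj.refl _)
  have h' : ∑ᶠ χ ∈ principalBlock M G,
      classInner (∑ᶠ χ : IrrCharacter G, ((χ : G → ℂ) t ^ 2 / (χ : G → ℂ) 1) • (χ : G → ℂ))
        (χ : G → ℂ) * (χ : G → ℂ) y = 0 := h
  rw [← h']
  apply finsum_mem_congr rfl
  intro χ _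
  rw [classInner_finsum_irr (fun χ : IrrCharacter G => (χ : G → ℂ) t ^ 2 / (χ : G → ℂ) 1) χ,
    mul_comm]

/-- An integer value at `t` of a non-principal irreducible character is smaller than the
degree, when `t` lies in no proper normal subgroup. -/
theorem val_lt_degree (χ : IrrCharacter G) (hχ : (χ : G → ℂ) ≠ fun _ => 1) (t : G)
    (htop : ∀ K : Subgroup G, K.Normal → t ∈ K → K = ⊤) (n : ℤ)
    (hn : (χ : G → ℂ) t = (n : ℂ)) : n < (charDegree (χ : G → ℂ) : ℤ) := by
  classical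
  letI := Fintype.ofFinite G
  obtain ⟨hd, hdpos⟩ := Cfsg.Agent.H81.irr_charDegree χ
  have hle := Cfsg.Agent.H20.irr_norm_le χ t
  rw [hn, hd] at hle
  have h1 : (n : ℝ) ≤ (charDegree (χ : G → ℂ) : ℝ) := by
    have h2 : ‖(n : ℂ)‖ = |(n : ℝ)| := by
      rw [← Complex.ofReal_intCast, Complex.norm_real, Real.norm_eq_abs]
    rw [h2, Complex.natCast_re] at hle
    exact (le_abs_self _).trans hle
  have h3 : n ≤ (charDegree (χ : G → ℂ) : ℤ) := by exact_mod_cast h1
  rcases lt_or_eq_of_le h3 with h | h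
  · exact h
  · exfalso
    have htk : t ∈ Cfsg.Agent.H82.irrKer χ := by
      rw [Cfsg.Agent.H82.mem_irrKer, hn, hd, h]
      push_cast
      rfl
    have hK := htop _ (Cfsg.Agent.H82.irrKer_normal χ) htk
    have hall : ∀ g : G, (χ : G → ℂ) g = (χ : G → ℂ) 1 := by
      intro g
      have : g ∈ Cfsg.Agent.H82.irrKer χ := by rw [hK]; exact Subgroup.mem_top g
      exact (Cfsg.Agent.H82.mem_irrKer χ g).mp this
    have hχne : χ ≠ Cfsg.Agent.H80.trivChar G := by
      rintro rfl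
      exact hχ rfl
    have h4 := irr_inner_ne hχne
    have hG : (Nat.card G : ℂ) ≠ 0 := by exact_mod_cast (Nat.card_pos (α := G)).ne'
    unfold classInner at h4
    have h5 : ∀ g : G, (χ : G → ℂ) g *
        conj (((Cfsg.Agent.H80.trivChar G : IrrCharacter G) : G → ℂ) g) = (χ : G → ℂ) 1 := by
      intro g
      rw [Cfsg.Agent.H80.trivChar_apply, map_one, mul_one, hall g]
    rw [Finset.sum_congr rfl (fun g _ => h5 g), Finset.sum_const, Finset.card_univ,
      nsmul_eq_mul, ← Nat.card_eq_fintype_card, ← mul_assoc, inv_mul_cancel₀ hG, one_mul] at h4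
    exact Cfsg.Agent.H4.irr_one_ne_zero χ h4

end Cfsg.Agent.H78.BM
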