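import Cfsg.Agent.H78.BM5

/-!
# Index-three Brauer–Leonard situation: orbit sums at an involution for `p = 2` (helper78)
-/

set_option autoImplicit false
set_option linter.style.haveILetI false
set_option linter.unusedSectionVars false
set_option linter.unusedVariables false

namespace Cfsg.Agent.H78.BM

open Cfsg Cfsg.Agent.H78.BL Cfsg.Agent.H4 Cfsg.Agent.H20

open scoped ComplexConjugate

universe u

variable {G : Type u} [Group G] [Finite G]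

/-- For `p = 2`: a character given on `P#` by `δ` times orbit sums takes the value `3δ` or `-δ`
at an involution of `P`. -/
theorem orbit_val_two (P : Sylow 2 G) [IsMulCommutative P]
    (hCN : (Subgroup.centralizer ((P : Subgroup G) : Set G)).relIndex
      (Subgroup.normalizer ((P : Subgroup G) : Set G)) = 3)
    (hfrob : ∀ y : G, y ∈ (P : Subgroup G) → y ≠ 1 →
      Subgroup.centralizer ({y} : Set G) ⊓ Subgroup.normalizer ((P : Subgroup G) : Set G) =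
        Subgroup.centralizer ((P : Subgroup G) : Set G))
    {t₀ : G} (ht₀P : t₀ ∈ (P : Subgroup G)) (ht₀ : orderOf t₀ = 2)
    {ψ : ↥(P : Subgroup G) →* ℂˣ} (hψ : ψ ≠ 1) (η : IrrCharacter G) (δ : ℤ)
    (hδ : δ = 1 ∨ δ = -1)
    (hval : ∀ y : ↥(P : Subgroup G), (y : G) ≠ 1 → (η : G → ℂ) (y : G) = (δ : ℂ) *
      ∑ᶠ ψ' ∈ {ψ' : ↥(P : Subgroup G) →* ℂˣ | Rel P ψ ψ'}, ((ψ' y : ℂˣ) : ℂ)) :
    ((η : G → ℂ) t₀ - 3 * (δ : ℂ)) * ((η : G → ℂ) t₀ + (δ : ℂ)) = 0 := by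
  classical
  letI : Fintype (↥(P : Subgroup G) →* ℂˣ) := Fintype.ofFinite _
  have htt : t₀ * t₀ = 1 := by rw [← pow_two, ← ht₀, pow_orderOf_eq_one]
  have ht₀1 : t₀ ≠ 1 := by
    rintro rfl
    rw [orderOf_one] at ht₀
    omega
  obtain ⟨n₀, hn₀, hn₀C⟩ : ∃ n₀ ∈ Subgroup.normalizer ((P : Subgroup G) : Set G),
      n₀ ∉ Subgroup.centralizer ((P : Subgroup G) : Set G) := by
    by_contra hall
    push Not at hall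
    have h1 : Subgroup.normalizer ((P : Subgroup G) : Set G) ≤
        Subgroup.centralizer ((P : Subgroup G) : Set G) := fun n hn => hall n hn
    have h2 := Subgroup.relIndex_eq_one.mpr h1
    omega
  obtain ⟨t₁, ht₁⟩ : ∃ t₁ : G, t₁ = n₀ * t₀ * n₀⁻¹ := ⟨_, rfl⟩
  obtain ⟨t₂, ht₂⟩ : ∃ t₂ : G, t₂ = n₀ * t₁ * n₀⁻¹ := ⟨_, rfl⟩
  have ht₁P : t₁ ∈ (P : Subgroup G) := by
    rw [ht₁]; exact (Subgroup.mem_set_normalizer_iff.mp hn₀ t₀).mp ht₀P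
  have ht₂P : t₂ ∈ (P : Subgroup G) := by
    rw [ht₂]; exact (Subgroup.mem_set_normalizer_iff.mp hn₀ t₁).mp ht₁P
  have hprod : t₀ * t₁ * t₂ = 1 := by
    rw [ht₂, ht₁]
    exact mul_conj_conj_eq_one P hCN hfrob hn₀ hn₀C ht₀P
  have ht₁1 : t₁ ≠ 1 := by
    rw [ht₁]
    intro h
    exact ht₀1 (conj_eq_one_iff.mp h)
  have ht₂1 : t₂ ≠ 1 := by
    rw [ht₂]
    intro h
    exact ht₁1 (conj_eq_one_iff.mp h)
  have ht₁t : t₁ * t₁ = 1 := by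
    rw [ht₁]
    calc n₀ * t₀ * n₀⁻¹ * (n₀ * t₀ * n₀⁻¹) = n₀ * (t₀ * t₀) * n₀⁻¹ := by group
      _ = 1 := by rw [htt]; group
  have ht₂t : t₂ * t₂ = 1 := by
    rw [ht₂]
    calc n₀ * t₁ * n₀⁻¹ * (n₀ * t₁ * n₀⁻¹) = n₀ * (t₁ * t₁) * n₀⁻¹ := by group
      _ = 1 := by rw [ht₁t]; group
  -- the integer value
  obtain ⟨n, hn, -⟩ := Cfsg.Agent.S0944.result η t₀ ht₀
  have hη1 : (η : G → ℂ) t₁ = (n : ℂ) := by rw [ht₁, Cfsg.Agent.H82.irr_conj, hn]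
  have hη2 : (η : G → ℂ) t₂ = (n : ℂ) := by rw [ht₂, Cfsg.Agent.H82.irr_conj, hη1]
  -- the orbit
  obtain ⟨O, hO⟩ : ∃ O : Finset (↥(P : Subgroup G) →* ℂˣ), O = Finset.univ.filter
      (fun ψ' => ψ' ∈ {ψ' : ↥(P : Subgroup G) →* ℂˣ | Rel P ψ ψ'}) := ⟨_, rfl⟩
  have hOc : O.card = 3 := by
    rw [← hCN, ← card_orbit P hfrob ψ hψ, Nat.card_eq_fintype_card, Fintype.card_subtype, hO]
    rfl
  have hθ : ∀ y : ↥(P : Subgroup G),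
      ∑ᶠ ψ' ∈ {ψ' : ↥(P : Subgroup G) →* ℂˣ | Rel P ψ ψ'}, ((ψ' y : ℂˣ) : ℂ) =
        ∑ ψ' ∈ O, ((ψ' y : ℂˣ) : ℂ) := by
    intro y
    rw [finsum_mem_eq_sum_ite, ← Finset.sum_filter, hO]
  have hδ2 : (δ : ℂ) * (δ : ℂ) = 1 := by rcases hδ with h | h <;> rw [h] <;> norm_num
  have hθval : ∀ y : ↥(P : Subgroup G), (y : G) ≠ 1 → (η : G → ℂ) (y : G) = (n : ℂ) →
      ∑ ψ' ∈ O, ((ψ' y : ℂˣ) : ℂ) = (δ : ℂ) * (n : ℂ) := by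
    intro y hy hyn
    have h1 := hval y hy
    rw [hθ y, hyn] at h1
    calc ∑ ψ' ∈ O, ((ψ' y : ℂˣ) : ℂ) = ((δ : ℂ) * (δ : ℂ)) * ∑ ψ' ∈ O, ((ψ' y : ℂˣ) : ℂ) := by
          rw [hδ2, one_mul]
      _ = (δ : ℂ) * ((δ : ℂ) * ∑ ψ' ∈ O, ((ψ' y : ℂˣ) : ℂ)) := by ring
      _ = (δ : ℂ) * (n : ℂ) := by rw [← h1]
  -- the three elements of `P`
  obtain ⟨s₀, hs₀⟩ : ∃ s₀ : ↥(P : Subgroup G), (s₀ : G) = t₀ := ⟨⟨t₀, ht₀P⟩, rfl⟩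
  obtain ⟨s₁, hs₁⟩ : ∃ s₁ : ↥(P : Subgroup G), (s₁ : G) = t₁ := ⟨⟨t₁, ht₁P⟩, rfl⟩
  obtain ⟨s₂, hs₂⟩ : ∃ s₂ : ↥(P : Subgroup G), (s₂ : G) = t₂ := ⟨⟨t₂, ht₂P⟩, rfl⟩
  have hsq : ∀ (ψ' : ↥(P : Subgroup G) →* ℂˣ) (s : ↥(P : Subgroup G)), s * s = 1 →
      ((ψ' s : ℂˣ) : ℂ) = 1 ∨ ((ψ' s : ℂˣ) : ℂ) = -1 := by
    intro ψ' s hs
    have h1 : ((ψ' s : ℂˣ) : ℂ) * ((ψ' s : ℂˣ) : ℂ) = 1 := by
      rw [← Units.val_mul, ← map_mul, hs, map_one, Units.val_one]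
    have h2 : (((ψ' s : ℂˣ) : ℂ) - 1) * (((ψ' s : ℂˣ) : ℂ) + 1) = 0 := by linear_combination h1
    rcases mul_eq_zero.mp h2 with h | h
    · left; linear_combination h
    · right; linear_combination h
  have hs₀s : s₀ * s₀ = 1 := Subtype.ext (by rw [Subgroup.coe_mul, hs₀, htt]; rfl)
  have hs₁s : s₁ * s₁ = 1 := Subtype.ext (by rw [Subgroup.coe_mul, hs₁, ht₁t]; rfl)
  have hs₂s : s₂ * s₂ = 1 := Subtype.ext (by rw [Subgroup.coe_mul, hs₂, ht₂t]; rfl)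
  have hs012 : s₀ * s₁ * s₂ = 1 :=
    Subtype.ext (by rw [Subgroup.coe_mul, Subgroup.coe_mul, hs₀, hs₁, hs₂, hprod]; rfl)
  have hprod' : ∀ ψ' : ↥(P : Subgroup G) →* ℂˣ,
      ((ψ' s₀ : ℂˣ) : ℂ) * ((ψ' s₁ : ℂˣ) : ℂ) * ((ψ' s₂ : ℂˣ) : ℂ) = 1 := by
    intro ψ'
    rw [← Units.val_mul, ← Units.val_mul, ← map_mul, ← map_mul, hs012, map_one, Units.val_one]
  have hb : ∀ ψ' : ↥(P : Subgroup G) →* ℂˣ, ∃ b : ℤ, (b = 0 ∨ b = 1) ∧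
      (1 + ((ψ' s₀ : ℂˣ) : ℂ) + ((ψ' s₁ : ℂˣ) : ℂ) + ((ψ' s₂ : ℂˣ) : ℂ) : ℂ) = 4 * (b : ℂ) := by
    intro ψ'
    have hp := hprod' ψ'
    rcases hsq ψ' s₀ hs₀s with h0 | h0 <;> rcases hsq ψ' s₁ hs₁s with h1 | h1 <;>
      rcases hsq ψ' s₂ hs₂s with h2 | h2 <;> rw [h0, h1, h2] at hp ⊢
    · exact ⟨1, Or.inr rfl, by norm_num⟩
    · norm_num at hp
    · norm_num at hp
    · exact ⟨0, Or.inl rfl, by norm_num⟩
    · norm_num at hp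
    · exact ⟨0, Or.inl rfl, by norm_num⟩
    · exact ⟨0, Or.inl rfl, by norm_num⟩
    · norm_num at hp
  choose b hb01 hbsum using hb
  have hsum : ∑ ψ' ∈ O, (1 + ((ψ' s₀ : ℂˣ) : ℂ) + ((ψ' s₁ : ℂˣ) : ℂ) + ((ψ' s₂ : ℂˣ) : ℂ) : ℂ) =
      3 + 3 * ((δ : ℂ) * (n : ℂ)) := by
    rw [Finset.sum_add_distrib, Finset.sum_add_distrib, Finset.sum_add_distrib, Finset.sum_const,
      hOc, hθval s₀ (by rw [hs₀]; exact ht₀1) (by rw [hs₀]; exact hn),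
      hθval s₁ (by rw [hs₁]; exact ht₁1) (by rw [hs₁]; exact hη1),
      hθval s₂ (by rw [hs₂]; exact ht₂1) (by rw [hs₂]; exact hη2)]
    simp only [nsmul_eq_mul, Nat.cast_ofNat, mul_one]
    ring
  have hsum' : ∑ ψ' ∈ O, (1 + ((ψ' s₀ : ℂˣ) : ℂ) + ((ψ' s₁ : ℂˣ) : ℂ) + ((ψ' s₂ : ℂˣ) : ℂ) : ℂ) =
      4 * ((∑ ψ' ∈ O, b ψ' : ℤ) : ℂ) := by
    rw [Finset.sum_congr rfl (fun ψ' _ => hbsum ψ'), ← Finset.mul_sum]
    push_cast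
    rfl
  have hB0 : 0 ≤ ∑ ψ' ∈ O, b ψ' :=
    Finset.sum_nonneg (fun ψ' _ => by rcases hb01 ψ' with h | h <;> omega)
  have hB3 : ∑ ψ' ∈ O, b ψ' ≤ 3 := by
    have h1 := Finset.sum_le_card_nsmul O b 1
      (fun ψ' _ => by rcases hb01 ψ' with h | h <;> omega)
    rw [hOc] at h1
    simpa using h1
  have hint : 3 + 3 * (δ * n) = 4 * ∑ ψ' ∈ O, b ψ' := by
    have h1 : ((3 + 3 * (δ * n) : ℤ) : ℂ) = ((4 * ∑ ψ' ∈ O, b ψ' : ℤ) : ℂ) := by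
      have h2 := hsum.symm.trans hsum'
      push_cast at h2 ⊢
      exact h2
    exact_mod_cast h1
  rw [hn]
  rcases hδ with h | h
  · subst h
    have h1 : n = -1 ∨ n = 3 := by omega
    rcases h1 with h | h <;> rw [h] <;> push_cast <;> ring
  · subst h
    have h1 : n = 1 ∨ n = -3 := by omega
    rcases h1 with h | h <;> rw [h] <;> push_cast <;> ring

end Cfsg.Agent.H78.BM
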