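import Cfsg.Agent.H78.BM6

/-!
# Index-three Brauer–Leonard situation: the involution part (helper78)
-/

set_option autoImplicit false
set_option linter.style.haveILetI false
set_option linter.unusedSectionVars false
set_option linter.unusedVariables false
set_option maxHeartbeats 800000

namespace Cfsg.Agent.H78.BM

open Cfsg Cfsg.Agent.H78.BL Cfsg.Agent.H4 Cfsg.Agent.H20

open scoped ComplexConjugate

universe u

variable {G : Type u} [Group G] [Finite G] {p : ℕ} [Fact p.Prime]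

/-- The data extracted from an involution lying in no proper normal subgroup. -/
theorem involution_core {M : Ideal AlgInt} (hM : IsPModular p M) (P : Sylow p G)
    [IsMulCommutative P]
    (hCN : (Subgroup.centralizer ((P : Subgroup G) : Set G)).relIndex
      (Subgroup.normalizer ((P : Subgroup G) : Set G)) = 3)
    (hm2 : 3 + 1 < Nat.card P)
    (hfrob : ∀ y : G, y ∈ (P : Subgroup G) → y ≠ 1 →
      Subgroup.centralizer ({y} : Set G) ⊓ Subgroup.normalizer ((P : Subgroup G) : Set G) =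
        Subgroup.centralizer ((P : Subgroup G) : Set G))
    (χ₁ χ₂ χ₃ : IrrCharacter G) (Y : Set (IrrCharacter G))
    (hB : principalBlock M G = {χ₁, χ₂, χ₃} ∪ Y)
    (hdisj : Disjoint ({χ₁, χ₂, χ₃} : Set (IrrCharacter G)) Y)
    (h12 : χ₁ ≠ χ₂) (h13 : χ₁ ≠ χ₃) (h23 : χ₂ ≠ χ₃)
    (hχ₁ : (χ₁ : G → ℂ) = fun _ => 1)
    (a₂ a₃ δ : ℤ) (ha₂ : a₂ = 1 ∨ a₂ = -1) (ha₃ : a₃ = 1 ∨ a₃ = -1) (hδ : δ = 1 ∨ δ = -1)
    (hv2 : ∀ y : G, y ∈ (P : Subgroup G) → y ≠ 1 → (χ₂ : G → ℂ) y = (a₂ : ℂ))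
    (hv3 : ∀ y : G, y ∈ (P : Subgroup G) → y ≠ 1 → (χ₃ : G → ℂ) y = (a₃ : ℂ))
    (ζ : (↥(P : Subgroup G) →* ℂˣ) → IrrCharacter G)
    (hsurj : ∀ η ∈ Y, ∃ ψ : ↥(P : Subgroup G) →* ℂˣ, ψ ≠ 1 ∧ ζ ψ = η)
    (hval : ∀ ψ : ↥(P : Subgroup G) →* ℂˣ, ψ ≠ 1 → ∀ (z : G) (y : ↥(P : Subgroup G)),
      IsPPart p z (y : G) → (y : G) ≠ 1 → (ζ ψ : G → ℂ) z = (δ : ℂ) *
        ∑ᶠ ψ' ∈ {ψ' : ↥(P : Subgroup G) →* ℂˣ | Rel P ψ ψ'}, ((ψ' y : ℂˣ) : ℂ))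
    (x₂ x₃ z₀ : ℕ) (hx₂ : (χ₂ : G → ℂ) 1 = (x₂ : ℂ)) (hx₃ : (χ₃ : G → ℂ) 1 = (x₃ : ℂ))
    (hz₀ : ∀ η ∈ Y, (η : G → ℂ) 1 = (z₀ : ℂ)) (hz₀pos : 0 < z₀) (hx₂pos : 0 < x₂)
    (hx₃pos : 0 < x₃)
    (η₀ : IrrCharacter G) (hη₀ : η₀ ∈ Y)
    (hYreg : ∀ η ∈ Y, ∀ η' ∈ Y, ∀ g : G, ¬ p ∣ orderOf g → (η : G → ℂ) g = (η' : G → ℂ) g)
    (hrel : ∀ η ∈ Y, ∀ g : G, ¬ p ∣ orderOf g →
      -(δ : ℂ) * (η : G → ℂ) g + (1 + (a₂ : ℂ) * (χ₂ : G → ℂ) g + (a₃ : ℂ) * (χ₃ : G → ℂ) g) = 0)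
    (t : G) (ht : orderOf t = 2) :
    ∃ η ∈ Y, ∃ n₂ n₃ n₄ : ℤ, (χ₂ : G → ℂ) t = (n₂ : ℂ) ∧ (χ₃ : G → ℂ) t = (n₃ : ℂ) ∧
      (η : G → ℂ) t = (n₄ : ℂ) ∧ 1 + a₂ * n₂ + a₃ * n₃ - δ * n₄ = 0 ∧
      (x₂ : ℤ) * x₃ * z₀ + a₂ * n₂ ^ 2 * x₃ * z₀ + a₃ * n₃ ^ 2 * x₂ * z₀ -
        δ * n₄ ^ 2 * x₂ * x₃ = 0 := by
  classical
  haveI := Cfsg.Agent.H4.finite_irr G
  letI := Cfsg.Agent.H4.fintypeIrr G
  have hp : p.Prime := Fact.out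
  have hB0 : IsPBlock M (principalBlock M G) := ⟨Cfsg.Agent.H80.trivChar G, rfl⟩
  have horth := (Cfsg.Agent.S0925.result (G := G) p M hM).2
  have htt : t * t = 1 := by rw [← pow_two, ← ht, pow_orderOf_eq_one]
  have htinv : t⁻¹ = t := inv_eq_of_mul_eq_one_left htt
  have ha₂2 : (a₂ : ℂ) * (a₂ : ℂ) = 1 := by rcases ha₂ with h | h <;> rw [h] <;> norm_num
  have ha₃2 : (a₃ : ℂ) * (a₃ : ℂ) = 1 := by rcases ha₃ with h | h <;> rw [h] <;> norm_num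
  have hδ2 : (δ : ℂ) * (δ : ℂ) = 1 := by rcases hδ with h | h <;> rw [h] <;> norm_num
  have hx₂0 : (x₂ : ℂ) ≠ 0 := by exact_mod_cast hx₂pos.ne'
  have hx₃0 : (x₃ : ℂ) ≠ 0 := by exact_mod_cast hx₃pos.ne'
  have hz₀0 : (z₀ : ℂ) ≠ 0 := by exact_mod_cast hz₀pos.ne'
  -- splitting sums over the principal block
  obtain ⟨Yf, hYf⟩ : ∃ Yf : Finset (IrrCharacter G),
      Yf = Finset.univ.filter (fun χ => χ ∈ Y) := ⟨_, rfl⟩
  have hmemYf : ∀ χ, χ ∈ Yf ↔ χ ∈ Y := by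
    intro χ
    rw [hYf, Finset.mem_filter]
    simp
  have hsplit : ∀ F : IrrCharacter G → ℂ, ∑ᶠ χ ∈ principalBlock M G, F χ =
      F χ₁ + F χ₂ + F χ₃ + ∑ η ∈ Yf, F η := by
    intro F
    rw [hB, finsum_mem_union hdisj (Set.toFinite _) (Set.toFinite _),
      finsum_mem_insert _ (by
        intro h
        rcases h with h | h
        · exact h12 h
        · exact h13 h) (Set.toFinite _), finsum_mem_pair h23, finsum_mem_eq_sum_ite,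
      ← Finset.sum_filter, hYf]
    ring
  -- the element `y₀`
  obtain ⟨y₁, hy₁P, hy₁⟩ : ∃ y₁ ∈ (P : Subgroup G), y₁ ≠ 1 := by
    by_contra hno
    push Not at hno
    have h1 : Nat.card (P : Subgroup G) = 1 := by
      rw [Nat.card_eq_one_iff_unique]
      exact ⟨⟨fun a b => Subtype.ext (by rw [hno a a.2, hno b b.2])⟩, ⟨1⟩⟩
    omega
  obtain ⟨y₀, hy₀P, hy₀1, hy₀t⟩ : ∃ y₀ ∈ (P : Subgroup G), y₀ ≠ 1 ∧ (p = 2 → ¬ IsConj y₀ t) := by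
    by_cases hp2 : p = 2
    · subst hp2
      obtain ⟨y, hy, hy1, hyt⟩ := exists_not_conj P hCN (by omega) t
      exact ⟨y, hy, hy1, fun _ => hyt⟩
    · exact ⟨y₁, hy₁P, hy₁, fun h => absurd h hp2⟩
  have hpp₀ : IsPPart p y₀ y₀ := Cfsg.Agent.H84.isPPart_self hp (orderOf_mem_sylow P hy₀P)
  have hpp1 : IsPPart p (1 : G) 1 := Cfsg.Agent.H84.isPPart_self hp ⟨0, by simp⟩
  have hχ₁v : ∀ g : G, (χ₁ : G → ℂ) g = 1 := fun g => by rw [hχ₁]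
  -- orthogonality with the identity
  have hσ : ∑ η ∈ Yf, (η : G → ℂ) y₀ = -(δ : ℂ) := by
    have h1 := horth y₀ 1 y₀ 1 hpp₀ hpp1 (fun h => hy₀1 (isConj_one_left.mp h))
      (principalBlock M G) hB0
    rw [inv_one, hsplit, hχ₁v, hχ₁v, hv2 y₀ hy₀P hy₀1, hv3 y₀ hy₀P hy₀1, hx₂, hx₃] at h1
    have h2 : ∑ η ∈ Yf, (η : G → ℂ) y₀ * (η : G → ℂ) 1 =
        (∑ η ∈ Yf, (η : G → ℂ) y₀) * (z₀ : ℂ) := by
      rw [Finset.sum_mul]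
      apply Finset.sum_congr rfl
      intro η hη
      rw [hz₀ η ((hmemYf η).mp hη)]
    rw [h2] at h1
    have h3 := hrel η₀ hη₀ 1 (by rw [orderOf_one]; exact hp.not_dvd_one)
    rw [hz₀ η₀ hη₀, hx₂, hx₃] at h3
    have h4 : ((∑ η ∈ Yf, (η : G → ℂ) y₀) + (δ : ℂ)) * (z₀ : ℂ) = 0 := by
      linear_combination h1 - h3
    rcases mul_eq_zero.mp h4 with h | h
    · linear_combination h
    · exact absurd h hz₀0
  -- the relation with squares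
  have hR := rel_sq hM P hCN hfrob t ht hy₀P hy₀1 hy₀t
  rw [hsplit, hχ₁v, hχ₁v, hχ₁v, hv2 y₀ hy₀P hy₀1, hv3 y₀ hy₀P hy₀1, hx₂, hx₃] at hR
  obtain ⟨n₂, hn₂, -⟩ := Cfsg.Agent.S0944.result χ₂ t ht
  obtain ⟨n₃, hn₃, -⟩ := Cfsg.Agent.S0944.result χ₃ t ht
  by_cases hp2 : p = 2
  swap
  · -- `p` odd
    have htreg : ¬ p ∣ orderOf t := by
      rw [ht]
      intro h
      exact hp2 ((Nat.prime_dvd_prime_iff_eq hp Nat.prime_two).mp h)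
    obtain ⟨n₄, hn₄, -⟩ := Cfsg.Agent.S0944.result η₀ t ht
    have hYt : ∀ η ∈ Yf, (η : G → ℂ) t = (n₄ : ℂ) := by
      intro η hη
      rw [hYreg η ((hmemYf η).mp hη) η₀ hη₀ t htreg, hn₄]
    have h2 : ∑ η ∈ Yf, (η : G → ℂ) y₀ * ((η : G → ℂ) t ^ 2 / (η : G → ℂ) 1) =
        (∑ η ∈ Yf, (η : G → ℂ) y₀) * ((n₄ : ℂ) ^ 2 / (z₀ : ℂ)) := by
      rw [Finset.sum_mul]
      apply Finset.sum_congr rfl
      intro η hη
      rw [hz₀ η ((hmemYf η).mp hη), hYt η hη]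
    rw [h2, hσ, hn₂, hn₃] at hR
    have h3 := hrel η₀ hη₀ t htreg
    rw [hn₄, hn₂, hn₃] at h3
    refine ⟨η₀, hη₀, n₂, n₃, n₄, hn₂, hn₃, hn₄, ?_, ?_⟩
    · have h4 : ((1 + a₂ * n₂ + a₃ * n₃ - δ * n₄ : ℤ) : ℂ) = 0 := by
        push_cast
        linear_combination h3
      exact_mod_cast h4
    · have h4 : (((x₂ : ℤ) * x₃ * z₀ + a₂ * n₂ ^ 2 * x₃ * z₀ + a₃ * n₃ ^ 2 * x₂ * z₀ -
          δ * n₄ ^ 2 * x₂ * x₃ : ℤ) : ℂ) = 0 := by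
        push_cast
        have h5 : (x₂ : ℂ) * x₃ * z₀ * (1 * (1 ^ 2 / 1) + (a₂ : ℂ) * ((n₂ : ℂ) ^ 2 / (x₂ : ℂ)) +
            (a₃ : ℂ) * ((n₃ : ℂ) ^ 2 / (x₃ : ℂ)) + -(δ : ℂ) * ((n₄ : ℂ) ^ 2 / (z₀ : ℂ))) = 0 := by
          rw [hR, mul_zero]
        rw [← h5]
        field_simp
        ring
      exact_mod_cast h4
  · -- `p = 2`
    subst hp2
    obtain ⟨g, hg⟩ := Cfsg.Agent.H78.Klein.exists_conj_mem_sylow P t 1
      (by rw [pow_one, pow_two, htt])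
    obtain ⟨t₀, ht₀⟩ : ∃ t₀ : G, t₀ = g * t * g⁻¹ := ⟨_, rfl⟩
    rw [← ht₀] at hg
    have ht₀o : orderOf t₀ = 2 := by
      rw [ht₀, ← ht]
      have := orderOf_injective (MulAut.conj g).toMonoidHom (MulAut.conj g).injective t
      rw [← this]
      simp
    have ht₀1 : t₀ ≠ 1 := by
      rintro h
      rw [h, orderOf_one] at ht₀o
      omega
    have hconj : ∀ χ : IrrCharacter G, (χ : G → ℂ) t₀ = (χ : G → ℂ) t := by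
      intro χ
      rw [ht₀, Cfsg.Agent.H82.irr_conj]
    have hpp₂ : IsPPart 2 t₀ t₀ := Cfsg.Agent.H84.isPPart_self hp (orderOf_mem_sylow P hg)
    have hχ₂t : (χ₂ : G → ℂ) t = (a₂ : ℂ) := by rw [← hconj, hv2 t₀ hg ht₀1]
    have hχ₃t : (χ₃ : G → ℂ) t = (a₃ : ℂ) := by rw [← hconj, hv3 t₀ hg ht₀1]
    -- values of the members of `Y`
    have hYt : ∀ η ∈ Yf, ((η : G → ℂ) t - 3 * (δ : ℂ)) * ((η : G → ℂ) t + (δ : ℂ)) = 0 := by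
      intro η hη
      obtain ⟨ψ, hψ, rfl⟩ := hsurj η ((hmemYf η).mp hη)
      rw [← hconj]
      apply orbit_val_two P hCN hfrob hg ht₀o hψ (ζ ψ) δ hδ
      intro y hy
      exact hval ψ hψ (y : G) y
        (Cfsg.Agent.H84.isPPart_self hp (orderOf_mem_sylow P y.2)) hy
    -- orthogonality with `t`
    have hpt : IsPPart 2 t t := Cfsg.Agent.H84.isPPart_self hp ⟨1, by rw [ht, pow_one]⟩
    have hO2 := horth y₀ t y₀ t hpp₀ hpt (hy₀t rfl) (principalBlock M G) hB0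
    rw [htinv, hsplit, hχ₁v, hχ₁v, hv2 y₀ hy₀P hy₀1, hv3 y₀ hy₀P hy₀1, hχ₂t, hχ₃t, ha₂2,
      ha₃2] at hO2
    have hτ : ∑ η ∈ Yf, (η : G → ℂ) y₀ * (η : G → ℂ) t = -3 := by linear_combination hO2
    have hsqY : ∀ η ∈ Yf, (η : G → ℂ) t ^ 2 = 2 * (δ : ℂ) * (η : G → ℂ) t + 3 := by
      intro η hη
      linear_combination hYt η hη + 3 * hδ2
    have h2 : ∑ η ∈ Yf, (η : G → ℂ) y₀ * ((η : G → ℂ) t ^ 2 / (η : G → ℂ) 1) =
        -9 * (δ : ℂ) / (z₀ : ℂ) := by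
      have e : ∀ η ∈ Yf, (η : G → ℂ) y₀ * ((η : G → ℂ) t ^ 2 / (η : G → ℂ) 1) =
          (2 * (δ : ℂ) / (z₀ : ℂ)) * ((η : G → ℂ) y₀ * (η : G → ℂ) t) +
            (3 / (z₀ : ℂ)) * (η : G → ℂ) y₀ := by
        intro η hη
        rw [hz₀ η ((hmemYf η).mp hη), hsqY η hη]
        field_simp
      rw [Finset.sum_congr rfl e, Finset.sum_add_distrib, ← Finset.mul_sum, ← Finset.mul_sum,
        hτ, hσ]
      field_simp
      ring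
    rw [h2, hχ₂t, hχ₃t] at hR
    -- a member of `Y` with value `3δ`
    obtain ⟨ηs, hηs, hηsv⟩ : ∃ η ∈ Yf, (η : G → ℂ) t = 3 * (δ : ℂ) := by
      by_contra hno
      push Not at hno
      have h3 : ∀ η ∈ Yf, (η : G → ℂ) t = -(δ : ℂ) := by
        intro η hη
        rcases mul_eq_zero.mp (hYt η hη) with h | h
        · exact absurd (by linear_combination h) (hno η hη)
        · linear_combination h
      have h4 : ∑ η ∈ Yf, (η : G → ℂ) y₀ * (η : G → ℂ) t = 1 := by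
        have e : ∀ η ∈ Yf, (η : G → ℂ) y₀ * (η : G → ℂ) t = -(δ : ℂ) * (η : G → ℂ) y₀ := by
          intro η hη
          rw [h3 η hη]
          ring
        rw [Finset.sum_congr rfl e, ← Finset.mul_sum, hσ]
        linear_combination hδ2
      rw [hτ] at h4
      norm_num at h4
    refine ⟨ηs, (hmemYf ηs).mp hηs, a₂, a₃, 3 * δ, hχ₂t, hχ₃t, ?_, ?_, ?_⟩
    · rw [hηsv]
      push_cast
      ring
    · have h4 : ((1 + a₂ * a₂ + a₃ * a₃ - δ * (3 * δ) : ℤ) : ℂ) = 0 := by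
        push_cast
        linear_combination ha₂2 + ha₃2 - 3 * hδ2
      exact_mod_cast h4
    · have h4 : (((x₂ : ℤ) * x₃ * z₀ + a₂ * a₂ ^ 2 * x₃ * z₀ + a₃ * a₃ ^ 2 * x₂ * z₀ -
          δ * (3 * δ) ^ 2 * x₂ * x₃ : ℤ) : ℂ) = 0 := by
        push_cast
        have h5 : (x₂ : ℂ) * x₃ * z₀ * (1 * (1 ^ 2 / 1) + (a₂ : ℂ) * ((a₂ : ℂ) ^ 2 / (x₂ : ℂ)) +
            (a₃ : ℂ) * ((a₃ : ℂ) ^ 2 / (x₃ : ℂ)) + -9 * (δ : ℂ) / (z₀ : ℂ)) = 0 := by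
          rw [hR, mul_zero]
        have h6 : (δ : ℂ) * (3 * (δ : ℂ)) ^ 2 = 9 * (δ : ℂ) := by
          linear_combination 9 * (δ : ℂ) * hδ2
        rw [mul_assoc ((δ : ℂ) * (3 * (δ : ℂ)) ^ 2), h6, ← h5]
        field_simp
        ring
      exact_mod_cast h4

end Cfsg.Agent.H78.BM
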