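import Cfsg.Agent.H78.BM7

/-!
# Index-three Brauer–Leonard situation: signs and the square (helper78)
-/

set_option autoImplicit false
set_option linter.style.haveILetI false
set_option linter.unusedSectionVars false
set_option linter.unusedVariables false
set_option maxHeartbeats 800000

namespace Cfsg.Agent.H78.BM

open Cfsg Cfsg.Agent.H78.BL Cfsg.Agent.H4 Cfsg.Agent.H20

open scoped ComplexConjugate

universe u

variable {G : Type u} [Group G] [Finite G] {p : ℕ} [Fact p.Prime]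

theorem sign_of_neg {e x : ℤ} (hx : 0 < x) (he : e = 1 ∨ e = -1) (h : e * x < 0) : e = -1 := by
  rcases he with rfl | rfl
  · exfalso; linarith
  · rfl

theorem sign_of_pos {e x : ℤ} (hx : 0 < x) (he : e = 1 ∨ e = -1) (h : 0 < e * x) : e = 1 := by
  rcases he with rfl | rfl
  · rfl
  · exfalso; linarith

/-- The involution part of the index-three theorem. -/
theorem involution_part {M : Ideal AlgInt} (hM : IsPModular p M) (P : Sylow p G)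
    [IsMulCommutative P]
    (hCN : (Subgroup.centralizer ((P : Subgroup G) : Set G)).relIndex
      (Subgroup.normalizer ((P : Subgroup G) : Set G)) = 3)
    (hm2 : 3 + 1 < Nat.card P)
    (hfrob : ∀ y : G, y ∈ (P : Subgroup G) → y ≠ 1 →
      Subgroup.centralizer ({y} : Set G) ⊓ Subgroup.normalizer ((P : Subgroup G) : Set G) =
        Subgroup.centralizer ((P : Subgroup G) : Set G))
    (X Y : Set (IrrCharacter G)) (hB : principalBlock M G = X ∪ Y) (hdisj : Disjoint X Y)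
    (hXc : Nat.card X = 3) (χ₁ : IrrCharacter G) (hχ₁X : χ₁ ∈ X)
    (hχ₁ : (χ₁ : G → ℂ) = fun _ => 1)
    (a : IrrCharacter G → ℤ) (δ : ℤ) (ζ : (↥(P : Subgroup G) →* ℂˣ) → IrrCharacter G)
    (hδ : δ = 1 ∨ δ = -1)
    (hX : ∀ χ ∈ X, (a χ = 1 ∨ a χ = -1) ∧ ∀ z y : G, IsPPart p z y → y ∈ (P : Subgroup G) →
      y ≠ 1 → (χ : G → ℂ) z = (a χ : ℂ))
    (hζY : ∀ ψ : ↥(P : Subgroup G) →* ℂˣ, ψ ≠ 1 → ζ ψ ∈ Y)
    (hsurj : ∀ η ∈ Y, ∃ ψ : ↥(P : Subgroup G) →* ℂˣ, ψ ≠ 1 ∧ ζ ψ = η)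
    (hval : ∀ ψ : ↥(P : Subgroup G) →* ℂˣ, ψ ≠ 1 → ∀ (z : G) (y : ↥(P : Subgroup G)),
      IsPPart p z (y : G) → (y : G) ≠ 1 → (ζ ψ : G → ℂ) z = (δ : ℂ) *
        ∑ᶠ ψ' ∈ {ψ' : ↥(P : Subgroup G) →* ℂˣ | Rel P ψ ψ'}, ((ψ' y : ℂˣ) : ℂ))
    (hYreg : ∀ η ∈ Y, ∀ η' ∈ Y, ∀ g : G, ¬ p ∣ orderOf g → (η : G → ℂ) g = (η' : G → ℂ) g)
    (hrel : ∀ η ∈ Y, ∀ g : G, ¬ p ∣ orderOf g →
      -(δ : ℂ) * (η : G → ℂ) g + ∑ᶠ χ ∈ X, (a χ : ℂ) * (χ : G → ℂ) g = 0)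
    (t : G) (ht : orderOf t = 2) (htop : ∀ K : Subgroup G, K.Normal → t ∈ K → K = ⊤) :
    Nat.card {χ : IrrCharacter G // χ ∈ X ∧ (χ : G → ℂ) ≠ (fun _ => 1) ∧ a χ = -1} +
        (if δ = 1 then 1 else 0) = 2 ∧
      ∀ η ∈ Y, IsSquare (charDegree (η : G → ℂ) *
        ∏ᶠ χ ∈ {χ : IrrCharacter G | χ ∈ X ∧ (χ : G → ℂ) ≠ fun _ => 1},
          charDegree (χ : G → ℂ)) := by
  classical
  have hp : p.Prime := Fact.out
  -- `X = {χ₁, χ₂, χ₃}`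
  have hXn : X.ncard = 3 := by rw [← Nat.card_coe_set_eq]; exact hXc
  obtain ⟨χ₂, χ₃, h12, h13, h23, hXe⟩ : ∃ χ₂ χ₃ : IrrCharacter G,
      χ₁ ≠ χ₂ ∧ χ₁ ≠ χ₃ ∧ χ₂ ≠ χ₃ ∧ X = {χ₁, χ₂, χ₃} := by
    obtain ⟨x, y, z, hxy, hxz, hyz, hXe⟩ := Set.ncard_eq_three.mp hXn
    have hmem : χ₁ = x ∨ χ₁ = y ∨ χ₁ = z := by
      have h1 := hχ₁X
      rw [hXe] at h1
      simpa using h1
    rcases hmem with rfl | rfl | rfl
    · exact ⟨y, z, hxy, hxz, hyz, hXe⟩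
    · refine ⟨x, z, hxy.symm, hyz, hxz, ?_⟩
      rw [hXe]
      ext w
      simp only [Set.mem_insert_iff, Set.mem_singleton_iff]
      tauto
    · refine ⟨x, y, hxz.symm, hyz.symm, hxy, ?_⟩
      rw [hXe]
      ext w
      simp only [Set.mem_insert_iff, Set.mem_singleton_iff]
      tauto
  have hχ₂X : χ₂ ∈ X := by rw [hXe]; simp
  have hχ₃X : χ₃ ∈ X := by rw [hXe]; simp
  -- an element of `P#`
  obtain ⟨y₁, hy₁P, hy₁⟩ : ∃ y₁ ∈ (P : Subgroup G), y₁ ≠ 1 := by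
    by_contra hno
    push Not at hno
    have h1 : Nat.card (P : Subgroup G) = 1 := by
      rw [Nat.card_eq_one_iff_unique]
      exact ⟨⟨fun a b => Subtype.ext (by rw [hno a a.2, hno b b.2])⟩, ⟨1⟩⟩
    omega
  have hpp : IsPPart p y₁ y₁ := Cfsg.Agent.H84.isPPart_self hp (orderOf_mem_sylow P hy₁P)
  have ha1 : a χ₁ = 1 := by
    have h1 := (hX χ₁ hχ₁X).2 y₁ y₁ hpp hy₁P hy₁
    rw [hχ₁] at h1
    have h1' : (1 : ℂ) = (a χ₁ : ℂ) := h1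
    exact_mod_cast h1'.symm
  obtain ⟨a₂, ha₂def⟩ : ∃ a₂ : ℤ, a₂ = a χ₂ := ⟨_, rfl⟩
  obtain ⟨a₃, ha₃def⟩ : ∃ a₃ : ℤ, a₃ = a χ₃ := ⟨_, rfl⟩
  have ha₂ : a₂ = 1 ∨ a₂ = -1 := by rw [ha₂def]; exact (hX χ₂ hχ₂X).1
  have ha₃ : a₃ = 1 ∨ a₃ = -1 := by rw [ha₃def]; exact (hX χ₃ hχ₃X).1
  have hv2 : ∀ y : G, y ∈ (P : Subgroup G) → y ≠ 1 → (χ₂ : G → ℂ) y = (a₂ : ℂ) := by
    intro y hy hy1
    rw [ha₂def]
    exact (hX χ₂ hχ₂X).2 y y (Cfsg.Agent.H84.isPPart_self hp (orderOf_mem_sylow P hy)) hy hy1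
  have hv3 : ∀ y : G, y ∈ (P : Subgroup G) → y ≠ 1 → (χ₃ : G → ℂ) y = (a₃ : ℂ) := by
    intro y hy hy1
    rw [ha₃def]
    exact (hX χ₃ hχ₃X).2 y y (Cfsg.Agent.H84.isPPart_self hp (orderOf_mem_sylow P hy)) hy hy1
  -- non-triviality
  have hχ₂ne : (χ₂ : G → ℂ) ≠ fun _ => 1 := fun h => h12 (Subtype.ext (hχ₁.trans h.symm))
  have hχ₃ne : (χ₃ : G → ℂ) ≠ fun _ => 1 := fun h => h13 (Subtype.ext (hχ₁.trans h.symm))
  have hYne : ∀ η ∈ Y, (η : G → ℂ) ≠ fun _ => 1 := by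
    intro η hη h
    have h1 : η = χ₁ := Subtype.ext (h.trans hχ₁.symm)
    rw [h1] at hη
    exact Set.disjoint_left.mp hdisj hχ₁X hη
  -- a member of `Y`
  obtain ⟨ψ₀, hψ₀⟩ : ∃ ψ₀ : ↥(P : Subgroup G) →* ℂˣ, ψ₀ ≠ 1 := by
    by_contra hno
    push Not at hno
    have h1 : Nat.card (↥(P : Subgroup G) →* ℂˣ) = 1 := by
      rw [Nat.card_eq_one_iff_unique]
      exact ⟨⟨fun a b => by rw [hno a, hno b]⟩, ⟨1⟩⟩
    rw [card_hom (fun a b => mul_comm' a b)] at h1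
    omega
  obtain ⟨η₀, hη₀⟩ : ∃ η₀, η₀ ∈ Y := ⟨ζ ψ₀, hζY ψ₀ hψ₀⟩
  -- degrees
  obtain ⟨hx₂, hx₂pos⟩ := Cfsg.Agent.H81.irr_charDegree χ₂
  obtain ⟨hx₃, hx₃pos⟩ := Cfsg.Agent.H81.irr_charDegree χ₃
  obtain ⟨hz₀', hz₀pos⟩ := Cfsg.Agent.H81.irr_charDegree η₀
  have hreg1 : ¬ p ∣ orderOf (1 : G) := by rw [orderOf_one]; exact hp.not_dvd_one
  have hz₀ : ∀ η ∈ Y, (η : G → ℂ) 1 = (charDegree (η₀ : G → ℂ) : ℂ) := by
    intro η hη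
    rw [hYreg η hη η₀ hη₀ 1 hreg1, hz₀']
  have hdegY : ∀ η ∈ Y, charDegree (η : G → ℂ) = charDegree (η₀ : G → ℂ) := by
    intro η hη
    have h1 := (Cfsg.Agent.H81.irr_charDegree η).1
    rw [hz₀ η hη] at h1
    exact_mod_cast h1.symm
  -- sums over `X`
  have hsumX : ∀ F : IrrCharacter G → ℂ, ∑ᶠ χ ∈ X, F χ = F χ₁ + F χ₂ + F χ₃ := by
    intro F
    rw [hXe, finsum_mem_insert _ (by
      intro h
      rcases h with h | h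
      · exact h12 h
      · exact h13 h) (Set.toFinite _), finsum_mem_pair h23]
    ring
  have hrel' : ∀ η ∈ Y, ∀ g : G, ¬ p ∣ orderOf g → -(δ : ℂ) * (η : G → ℂ) g +
      (1 + (a₂ : ℂ) * (χ₂ : G → ℂ) g + (a₃ : ℂ) * (χ₃ : G → ℂ) g) = 0 := by
    intro η hη g hg
    have h1 := hrel η hη g hg
    rw [hsumX, ha1, ← ha₂def, ← ha₃def] at h1
    have h2 : (χ₁ : G → ℂ) g = 1 := by rw [hχ₁]
    rw [h2] at h1
    push_cast at h1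
    linear_combination h1
  have hB' : principalBlock M G = {χ₁, χ₂, χ₃} ∪ Y := by rw [hB, hXe]
  have hdisj' : Disjoint ({χ₁, χ₂, χ₃} : Set (IrrCharacter G)) Y := by rw [← hXe]; exact hdisj
  obtain ⟨ηs, hηs, n₂, n₃, n₄, hn₂, hn₃, hn₄, hv, hR⟩ := involution_core hM P hCN hm2 hfrob
    χ₁ χ₂ χ₃ Y hB' hdisj' h12 h13 h23 hχ₁ a₂ a₃ δ ha₂ ha₃ hδ hv2 hv3 ζ hsurj hval
    (charDegree (χ₂ : G → ℂ)) (charDegree (χ₃ : G → ℂ)) (charDegree (η₀ : G → ℂ)) hx₂ hx₃ hz₀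
    hz₀pos hx₂pos hx₃pos η₀ hη₀ hYreg hrel' t ht
  -- abbreviations
  obtain ⟨x₂, hx₂def⟩ : ∃ x₂ : ℤ, x₂ = (charDegree (χ₂ : G → ℂ) : ℤ) := ⟨_, rfl⟩
  obtain ⟨x₃, hx₃def⟩ : ∃ x₃ : ℤ, x₃ = (charDegree (χ₃ : G → ℂ) : ℤ) := ⟨_, rfl⟩
  obtain ⟨z₀, hz₀def⟩ : ∃ z₀ : ℤ, z₀ = (charDegree (η₀ : G → ℂ) : ℤ) := ⟨_, rfl⟩
  have hx₂p : 0 < x₂ := by rw [hx₂def]; exact_mod_cast hx₂pos
  have hx₃p : 0 < x₃ := by rw [hx₃def]; exact_mod_cast hx₃pos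
  have hz₀p : 0 < z₀ := by rw [hz₀def]; exact_mod_cast hz₀pos
  rw [← hx₂def, ← hx₃def, ← hz₀def] at hR
  have hE1 : 1 + a₂ * x₂ + a₃ * x₃ - δ * z₀ = 0 := by
    have h1 := hrel' η₀ hη₀ 1 hreg1
    rw [hz₀', hx₂, hx₃] at h1
    have h2 : ((1 + a₂ * x₂ + a₃ * x₃ - δ * z₀ : ℤ) : ℂ) = 0 := by
      rw [hx₂def, hx₃def, hz₀def]
      push_cast
      linear_combination h1
    exact_mod_cast h2
  -- strict inequalities
  have hlt2 : n₂ < x₂ := by rw [hx₂def]; exact val_lt_degree χ₂ hχ₂ne t htop n₂ hn₂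
  have hlt3 : n₃ < x₃ := by rw [hx₃def]; exact val_lt_degree χ₃ hχ₃ne t htop n₃ hn₃
  have hlt4 : n₄ < z₀ := by
    have h1 := val_lt_degree ηs (hYne ηs hηs) t htop n₄ hn₄
    rw [hdegY ηs hηs] at h1
    rw [hz₀def]
    exact h1
  -- arithmetic
  have ha₂sq : a₂ ^ 2 = 1 := by rcases ha₂ with h | h <;> rw [h] <;> norm_num
  have ha₃sq : a₃ ^ 2 = 1 := by rcases ha₃ with h | h <;> rw [h] <;> norm_num
  have hδsq : δ ^ 2 = 1 := by rcases hδ with h | h <;> rw [h] <;> norm_num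
  have hδ' : -δ = 1 ∨ -δ = -1 := by rcases hδ with h | h <;> rw [h] <;> norm_num
  have hu : 1 + a₂ * x₂ + a₃ * x₃ + (-δ * z₀) = 0 := by linarith
  have hv' : 1 + a₂ * n₂ + a₃ * n₃ + (-δ * n₄) = 0 := by linarith
  have hE : (a₂ * x₂) * (a₃ * x₃) * (-δ * z₀) + (a₂ * n₂) ^ 2 * (a₃ * x₃) * (-δ * z₀) +
      (a₃ * n₃) ^ 2 * (a₂ * x₂) * (-δ * z₀) + (-δ * n₄) ^ 2 * (a₂ * x₂) * (a₃ * x₃) = 0 := by
    linear_combination (-(a₂ * a₃ * δ)) * hR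
  have hs2 : 0 < (a₂ * x₂ - a₂ * n₂) * (a₂ * x₂) := by
    have h1 : (a₂ * x₂ - a₂ * n₂) * (a₂ * x₂) = a₂ ^ 2 * ((x₂ - n₂) * x₂) := by ring
    rw [h1, ha₂sq, one_mul]
    exact mul_pos (by linarith) hx₂p
  have hs3 : 0 < (a₃ * x₃ - a₃ * n₃) * (a₃ * x₃) := by
    have h1 : (a₃ * x₃ - a₃ * n₃) * (a₃ * x₃) = a₃ ^ 2 * ((x₃ - n₃) * x₃) := by ring
    rw [h1, ha₃sq, one_mul]
    exact mul_pos (by linarith) hx₃p
  have hs4 : 0 < (-δ * z₀ - -δ * n₄) * (-δ * z₀) := by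
    have h1 : (-δ * z₀ - -δ * n₄) * (-δ * z₀) = δ ^ 2 * ((z₀ - n₄) * z₀) := by ring
    rw [h1, hδsq, one_mul]
    exact mul_pos (by linarith) hz₀p
  have hsigns := arith_signs (a₂ * x₂) (a₃ * x₃) (-δ * z₀) (a₂ * n₂) (a₃ * n₃) (-δ * n₄)
    hu hv' hE hs2 hs3 hs4
  have hsqr := arith_square (a₂ * x₂) (a₃ * x₃) (-δ * z₀) (a₂ * n₂) (a₃ * n₃) (-δ * n₄)
    hu hv' hE (by
      intro h
      rw [h, zero_mul] at hs4
      exact lt_irrefl _ hs4)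
  have hcases : (a₂ = -1 ∧ a₃ = -1 ∧ δ = -1) ∨ (a₂ = -1 ∧ a₃ = 1 ∧ δ = 1) ∨
      (a₂ = 1 ∧ a₃ = -1 ∧ δ = 1) := by
    rcases hsigns with ⟨h2, h3, h4⟩ | ⟨h2, h3, h4⟩ | ⟨h2, h3, h4⟩
    · refine Or.inl ⟨sign_of_neg hx₂p ha₂ h2, sign_of_neg hx₃p ha₃ h3, ?_⟩
      have := sign_of_pos hz₀p hδ' h4
      linarith
    · refine Or.inr (Or.inl ⟨sign_of_neg hx₂p ha₂ h2, sign_of_pos hx₃p ha₃ h3, ?_⟩)
      have := sign_of_neg hz₀p hδ' h4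
      linarith
    · refine Or.inr (Or.inr ⟨sign_of_pos hx₂p ha₂ h2, sign_of_neg hx₃p ha₃ h3, ?_⟩)
      have := sign_of_neg hz₀p hδ' h4
      linarith
  -- the sets
  have hT : {χ : IrrCharacter G | χ ∈ X ∧ (χ : G → ℂ) ≠ fun _ => 1} = {χ₂, χ₃} := by
    ext χ
    simp only [Set.mem_setOf_eq, Set.mem_insert_iff, Set.mem_singleton_iff]
    rw [hXe]
    constructor
    · rintro ⟨h | h | h, hne⟩
      · exact absurd (h ▸ hχ₁) hne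
      · exact Or.inl h
      · exact Or.inr h
    · rintro (h | h)
      · rw [h]; exact ⟨by simp, hχ₂ne⟩
      · rw [h]; exact ⟨by simp, hχ₃ne⟩
  have hset : ∀ χ : IrrCharacter G, (χ ∈ X ∧ (χ : G → ℂ) ≠ (fun _ => 1) ∧ a χ = -1) ↔
      ((χ = χ₂ ∧ a₂ = -1) ∨ (χ = χ₃ ∧ a₃ = -1)) := by
    intro χ
    constructor
    · rintro ⟨hx, hne, ha⟩
      have h1 : χ ∈ ({χ₂, χ₃} : Set (IrrCharacter G)) := by rw [← hT]; exact ⟨hx, hne⟩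
      rcases h1 with h | h
      · left; exact ⟨h, by rw [ha₂def, ← h]; exact ha⟩
      · right
        have h' : χ = χ₃ := h
        exact ⟨h', by rw [ha₃def, ← h']; exact ha⟩
    · rintro (⟨h, ha⟩ | ⟨h, ha⟩)
      · rw [h]; exact ⟨hχ₂X, hχ₂ne, by rw [← ha₂def]; exact ha⟩
      · rw [h]; exact ⟨hχ₃X, hχ₃ne, by rw [← ha₃def]; exact ha⟩
  constructor
  · have hcard : Nat.card {χ : IrrCharacter G // χ ∈ X ∧ (χ : G → ℂ) ≠ (fun _ => 1) ∧ a χ = -1} =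
        ({χ : IrrCharacter G | χ ∈ X ∧ (χ : G → ℂ) ≠ (fun _ => 1) ∧ a χ = -1} :
          Set (IrrCharacter G)).ncard := Nat.card_coe_set_eq _
    rw [hcard]
    rcases hcases with ⟨e2, e3, e4⟩ | ⟨e2, e3, e4⟩ | ⟨e2, e3, e4⟩
    · have hs : {χ : IrrCharacter G | χ ∈ X ∧ (χ : G → ℂ) ≠ (fun _ => 1) ∧ a χ = -1} =
          {χ₂, χ₃} := by
        ext χ
        rw [Set.mem_setOf_eq, hset]
        simp only [Set.mem_insert_iff, Set.mem_singleton_iff]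
        constructor
        · rintro (⟨h, -⟩ | ⟨h, -⟩)
          · exact Or.inl h
          · exact Or.inr h
        · rintro (h | h)
          · exact Or.inl ⟨h, e2⟩
          · exact Or.inr ⟨h, e3⟩
      rw [hs, Set.ncard_pair h23, if_neg (by rw [e4]; norm_num)]
    · have hs : {χ : IrrCharacter G | χ ∈ X ∧ (χ : G → ℂ) ≠ (fun _ => 1) ∧ a χ = -1} =
          {χ₂} := by
        ext χ
        rw [Set.mem_setOf_eq, hset]
        simp only [Set.mem_singleton_iff]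
        constructor
        · rintro (⟨h, -⟩ | ⟨-, h⟩)
          · exact h
          · rw [e3] at h; norm_num at h
        · intro h
          exact Or.inl ⟨h, e2⟩
      rw [hs, Set.ncard_singleton, if_pos e4]
    · have hs : {χ : IrrCharacter G | χ ∈ X ∧ (χ : G → ℂ) ≠ (fun _ => 1) ∧ a χ = -1} =
          {χ₃} := by
        ext χ
        rw [Set.mem_setOf_eq, hset]
        simp only [Set.mem_singleton_iff]
        constructor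
        · rintro (⟨-, h⟩ | ⟨h, -⟩)
          · rw [e2] at h; norm_num at h
          · exact h
        · intro h
          exact Or.inr ⟨h, e3⟩
      rw [hs, Set.ncard_singleton, if_pos e4]
  · intro η hη
    rw [hT, finprod_mem_pair h23, hdegY η hη, ← Int.isSquare_natCast_iff]
    have h1 : ((charDegree (η₀ : G → ℂ) * (charDegree (χ₂ : G → ℂ) * charDegree (χ₃ : G → ℂ)) : ℕ) :
        ℤ) = (a₂ * x₂) * (a₃ * x₃) * (-δ * z₀) := by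
      rw [hx₂def, hx₃def, hz₀def]
      rcases hcases with ⟨e2, e3, e4⟩ | ⟨e2, e3, e4⟩ | ⟨e2, e3, e4⟩ <;> rw [e2, e3, e4] <;>
        push_cast <;> ring
    rw [h1]
    exact hsqr

end Cfsg.Agent.H78.BM
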