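import Cfsg.Agent.H74.BTDefs
import Cfsg.Agent.H21.BRSplit
import Cfsg.Agent.H40.BRTBG2
import Cfsg.Agent.H81.Counting
import Cfsg.Agent.H81.Reg
import Cfsg.Agent.H4.Irr

/-!
# S0997-B1ORD (helper78, for helper74's team project S0997): the order formula
`p (p - 2) |C(τ₀)|² = |G| (p - 1)` (class multiplication count of `τ₀` at `x ∈ P \ 1`).
-/

set_option autoImplicit false

universe u

namespace Cfsg.Agent.H78.BT

open Cfsg Cfsg.Agent.H21.BR Cfsg.Agent.H74.BT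

theorem b1Ord : StB1Ord.{u} := by
  intro G _ _ p _ P hPc hC X Y δ h hdegY hcolY τ hτ hinv hX0 hYτ
  classical
  have : Fintype G := Fintype.ofFinite G
  let _ := Cfsg.Agent.H4.fintypeIrr G
  have hp : p.Prime := Fact.out
  have hp2 : p ≠ 2 := by
    intro h2
    have := h.cardY
    rw [h2] at this
    omega
  have hp3 : 3 ≤ p := by
    have := hp.two_le
    omega
  -- a non-identity element of `P`
  have hPne : (P : Subgroup G) ≠ ⊥ := by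
    intro hbot
    rw [hbot] at hPc
    simp at hPc
    omega
  obtain ⟨x, hx, hx1⟩ : ∃ x ∈ (P : Subgroup G), x ≠ 1 := by
    by_contra hcon
    push Not at hcon
    exact hPne ((Subgroup.eq_bot_iff_forall _).2 hcon)
  have hxinv : x⁻¹ ∈ (P : Subgroup G) := inv_mem hx
  have hxinv1 : x⁻¹ ≠ 1 := by simpa using hx1
  have hτinv : τ⁻¹ = τ := by
    have h2 : τ ^ 2 = 1 := by rw [← hτ]; exact pow_orderOf_eq_one τ
    rw [inv_eq_iff_mul_eq_one, ← sq]; exact h2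
  set c : ℕ := Nat.card (Subgroup.centralizer ({τ} : Set G)) with hc
  have hcount := Cfsg.Agent.H40.BRG2.card_pairs_eq p hp2 P hPc hC τ hτ hinv x hx hx1
  have h1 := Cfsg.Agent.H81.card_conj_pairs (Cfsg.Agent.H81.regIdentity G) τ x
  have h2 : (Finset.univ.filter (fun ab : G × G =>
      ab.1 * τ * ab.1⁻¹ * (ab.2 * τ⁻¹ * ab.2⁻¹) = x)).card = p * c ^ 2 := by
    rw [hc, ← hcount, Nat.card_eq_fintype_card, Fintype.card_subtype]
  set Z : Finset (IrrCharacter G) := Finset.univ.filter (fun ψ => ψ ∉ X ∧ ψ ∉ Y) with hZdef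
  have hZ : ∀ ψ, ψ ∈ Z ↔ ψ ∉ X ∧ ψ ∉ Y := by
    intro ψ
    rw [hZdef, Finset.mem_filter]
    simp
  rw [h2, sum_split h Z hZ] at h1
  push_cast at h1
  have hp2C : ((p : ℂ) - 2) ≠ 0 := by
    have : ((p - 2 : ℕ) : ℂ) ≠ 0 := by exact_mod_cast (by omega : p - 2 ≠ 0)
    rwa [Nat.cast_sub (by omega), Nat.cast_ofNat] at this
  have e1 : ((one G : G → ℂ) τ * (one G : G → ℂ) τ⁻¹ * (one G : G → ℂ) x⁻¹ /
      (one G : G → ℂ) 1) = 1 := by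
    simp [Cfsg.Agent.H21.E2Block.triv_apply]
  have e2 : ∑ χ ∈ plusSet X δ, ((χ : G → ℂ) τ * (χ : G → ℂ) τ⁻¹ * (χ : G → ℂ) x⁻¹ /
      (χ : G → ℂ) 1) = 0 := by
    apply Finset.sum_eq_zero
    intro χ hχ
    have hχX := mem_plusSet.1 hχ
    rw [hX0 χ hχX.1 hχX.2.1]; simp
  have e3 : ∑ χ ∈ minusSet X δ, ((χ : G → ℂ) τ * (χ : G → ℂ) τ⁻¹ * (χ : G → ℂ) x⁻¹ /
      (χ : G → ℂ) 1) = 0 := by
    apply Finset.sum_eq_zero
    intro χ hχ
    have hχX := mem_minusSet.1 hχ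
    have hne : χ ≠ one G := by
      intro heq
      have := h.δ_one
      rw [← heq, hχX.2] at this
      omega
    rw [hX0 χ hχX.1 hne]; simp
  have e4 : ∑ θ ∈ Y, ((θ : G → ℂ) τ * (θ : G → ℂ) τ⁻¹ * (θ : G → ℂ) x⁻¹ /
      (θ : G → ℂ) 1) = 1 / ((p : ℂ) - 2) := by
    have h3 : ∀ θ ∈ Y, ((θ : G → ℂ) τ * (θ : G → ℂ) τ⁻¹ * (θ : G → ℂ) x⁻¹ /
        (θ : G → ℂ) 1) = 1 / ((p : ℂ) - 2) * (θ : G → ℂ) x⁻¹ := by
      intro θ hθ
      rw [hτinv, hYτ θ hθ, (Cfsg.Agent.H81.irr_charDegree θ).1, hdegY θ hθ,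
        Nat.cast_sub (by omega : 2 ≤ p)]
      push_cast
      ring
    rw [Finset.sum_congr rfl h3, ← Finset.mul_sum, hcolY x⁻¹ hxinv hxinv1]
    ring
  have e5 : ∑ ψ ∈ Z, ((ψ : G → ℂ) τ * (ψ : G → ℂ) τ⁻¹ * (ψ : G → ℂ) x⁻¹ /
      (ψ : G → ℂ) 1) = 0 := by
    apply Finset.sum_eq_zero
    intro ψ hψ
    rw [h.out_van ψ ((hZ ψ).1 hψ).1 ((hZ ψ).1 hψ).2 x⁻¹ hxinv hxinv1]; simp
  rw [e1, e2, e3, e4, e5] at h1
  have h4 : ((p * (p - 2) * c ^ 2 : ℕ) : ℂ) = ((Nat.card G * (p - 1) : ℕ) : ℂ) := by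
    push_cast [Nat.cast_sub (by omega : 2 ≤ p), Nat.cast_sub (by omega : 1 ≤ p)]
    have : (p : ℂ) * ((p : ℂ) - 2) * (c : ℂ) ^ 2 = ((p : ℂ) - 2) * ((p : ℂ) * (c : ℂ) ^ 2) := by
      ring
    rw [this, h1]
    field_simp
    ring
  exact_mod_cast h4

example : StB1Ord.{u} := b1Ord

end Cfsg.Agent.H78.BT
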