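import Cfsg.Agent.H78.IcStepK

set_option autoImplicit false

/-!
# IC (S5751): the piece STEP0 (assembly of the first step of the upper bound)
-/

namespace Cfsg.Agent.H78.Ic

open Cfsg.Lie Cfsg.Agent.H23 Cfsg.Agent.H23.Ic

/-- The coordinates of weight-equal indices separated by the 30 gradings. -/
theorem wdiag_of_sep
    (hTsep : ∀ a < 248, ∀ c < 248, wN levC a = wN levC c → (∀ cr ∈ crs, wN cr c ≤ wN cr a) →
      a = c ∨ (240 ≤ a ∧ 240 ≤ c))
    (a c : chevE8.Idx) (h1 : wt levC a = wt levC c) (h2 : ∀ cr ∈ crs, wt cr c ≤ wt cr a) :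
    a = c ∨ ∃ i j, a = Sum.inl i ∧ c = Sum.inl j := by
  rcases hTsep (ix chevE8 a) (ix_lt248 a) (ix chevE8 c) (ix_lt248 c) h1 h2 with h | ⟨ha, hc⟩
  · exact Or.inl (ix_injective chevE8 h)
  · right
    rcases a with i | r
    · rcases c with j | s
      · exact ⟨i, j, rfl, rfl⟩
      · exfalso
        have h3 : s.val < 240 := s.isLt
        have h4 : ix chevE8 (Sum.inr s : chevE8.Idx) = s.val := rfl
        omega
    · exfalso
      have h3 : r.val < 240 := r.isLt
      have h4 : ix chevE8 (Sum.inr r : chevE8.Idx) = r.val := rfl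
      omega

theorem adm_levC : Adm chevE8 (wN levC) := adm_zRl chevE8 levC ctblE8 chk_E8.admZ

/-- A root element of level at least `2` lies in `raisGroupM (wt levC) 1`. -/
theorem xU_mem_rais1 (r : ℕ) (hr : r < 240) (h2 : 2 ≤ wN levC r) (t : ZMod 2) :
    xU hS r t ∈ raisGroupM (ZMod 2) (wt levC) ((1 : ℕ) : ℤ) (Int.natCast_nonneg 1) := by
  have hm : ((1 : ℕ) : ℤ) < wN levC r := by
    have : ((1 : ℕ) : ℤ) = 1 := rfl
    omega
  refine ⟨?_, ?_⟩
  · rw [xU_val]
    exact x_raisM (wN levC) adm_levC r hr _ (Int.natCast_nonneg 1) hm t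
  · rw [xU_inv, xU_val]
    exact x_raisM (wN levC) adm_levC r hr _ (Int.natCast_nonneg 1) hm (-t)

theorem tailW_val (t : ℕ → ZMod 2) :
    ((tailW hS 0 t : GLE) : Matrix chevE8.Idx chevE8.Idx (ZMod 2)) =
      chevE8.wordMat (ZMod 2) (chevE8.posRoots.map fun r => (r, t r)) := by
  unfold tailW
  rw [wordU_val, tailL_zero]

/-- STEP0. -/
theorem step0 : StStep0 := by
  classical
  intro hB hFP hLevi hGrad hTab hWD hLT N hNP hNnorm _ hNconj
  obtain ⟨hB1, hB2, -, -, -⟩ := hB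
  obtain ⟨⟨-, hT0, -, hpar⟩, -, hTsep, hTneg, -, -, hTwpos, hTmin⟩ := hTab
  -- `N` preserves the filtrations of all the gradings
  have h0 : N ≤ filtGroup (wt (crs.getD 0 [])) := by
    intro x hx
    obtain ⟨y, hy, rfl⟩ := Subgroup.mem_map.mp (hNconj hx)
    rw [hT0]
    exact filt_conj_mem hB1 hGrad levC (List.mem_cons_self ..) 3 (by norm_num) y (hFP hy)
  have hall := transport hB1 hB2 hpar (fun cr => filtGroup (wt cr))
    (fun cr hcr j hj y hy => filt_conj_mem hB1 hGrad cr hcr j hj y hy) N hNnorm h0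
  intro u hu
  obtain ⟨v, hv, l, hl, hvU, hlG, huvl⟩ := hLevi u (hNP hu)
  obtain ⟨hv1, hv2⟩ := hv
  obtain ⟨hl1, hl2⟩ := hl
  -- the Levi part is weight-diagonal
  have hWl : WDiag (l : Matrix chevE8.Idx chevE8.Idx (ZMod 2)) := by
    intro a c hac
    have e1 : wt levC a = wt levC c := hl1 a c hac
    have e2 : (u : Matrix chevE8.Idx chevE8.Idx (ZMod 2)) a c ≠ 0 := by
      have e3 : (u : Matrix chevE8.Idx chevE8.Idx (ZMod 2)) =
          ((v : Matrix chevE8.Idx chevE8.Idx (ZMod 2)) - 1) * (l : Matrix chevE8.Idx chevE8.Idx (ZMod 2)) +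
            (l : Matrix chevE8.Idx chevE8.Idx (ZMod 2)) := by
        rw [huvl, Units.val_mul, sub_mul, one_mul, sub_add_cancel]
      have e4 : (((v : Matrix chevE8.Idx chevE8.Idx (ZMod 2)) - 1) *
          (l : Matrix chevE8.Idx chevE8.Idx (ZMod 2))) a c = 0 := by
        by_contra hne
        obtain ⟨b, hb1, hb2⟩ := exists_of_mul_ne_zero hne
        have f1 : wt levC b < wt levC a := hv1 a b hb1
        have f2 : wt levC b = wt levC c := hl1 b c hb2
        omega
      rw [e3, Matrix.add_apply, e4, zero_add]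
      exact hac
    exact wdiag_of_sep hTsep a c e1 (fun cr hcr => (hall cr hcr hu).1 a c e2)
  have hWl' : WDiag ((l⁻¹ : GLE) : Matrix chevE8.Idx chevE8.Idx (ZMod 2)) := by
    intro a c hac
    have e1 : wt levC a = wt levC c := hl2 a c hac
    have e2 : ((u⁻¹ : GLE) : Matrix chevE8.Idx chevE8.Idx (ZMod 2)) a c ≠ 0 := by
      have e3 : ((u⁻¹ : GLE) : Matrix chevE8.Idx chevE8.Idx (ZMod 2)) =
          ((l⁻¹ : GLE) : Matrix chevE8.Idx chevE8.Idx (ZMod 2)) *
            (((v⁻¹ : GLE) : Matrix chevE8.Idx chevE8.Idx (ZMod 2)) - 1) +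
            ((l⁻¹ : GLE) : Matrix chevE8.Idx chevE8.Idx (ZMod 2)) := by
        rw [huvl, _root_.mul_inv_rev, Units.val_mul, mul_sub, mul_one, sub_add_cancel]
      have e4 : (((l⁻¹ : GLE) : Matrix chevE8.Idx chevE8.Idx (ZMod 2)) *
          (((v⁻¹ : GLE) : Matrix chevE8.Idx chevE8.Idx (ZMod 2)) - 1)) a c = 0 := by
        by_contra hne
        obtain ⟨b, hb1, hb2⟩ := exists_of_mul_ne_zero hne
        have f1 : wt levC c < wt levC b := hv2 b c hb2
        have f2 : wt levC a = wt levC b := hl2 a b hb1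
        omega
      rw [e3, Matrix.add_apply, e4, zero_add]
      exact hac
    exact wdiag_of_sep hTsep a c e1 (fun cr hcr => (hall cr hcr hu).2 a c e2)
  have hl1' : l = 1 := hWD l hlG hWl hWl'
  have huv : u = v := by rw [huvl, hl1', mul_one]
  have huU : u ∈ Up := huv ▸ hvU
  refine ⟨huU, ?_⟩
  -- the factorisation of `u`
  obtain ⟨t, ⟨-, ht2⟩, -⟩ := (factor_E8 (F := ZMod 2)).1 u huU
  have hut : u = tailW hS 0 t := Units.ext (ht2.trans (tailW_val t).symm)
  -- every root in the support has level at least 2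
  have hsupp : ∀ s, chevE8.IsPosRoot s → t s ≠ 0 → 2 ≤ wN levC s := by
    by_contra hcon
    push_neg at hcon
    obtain ⟨s₀, hs₀, hts₀, hlev₀⟩ := hcon
    have hs₀lt : s₀ < 240 := hs₀.1
    let S : Finset ℕ := (Finset.range 240).filter (fun s => chevE8.IsPosRoot s ∧ t s ≠ 0)
    have hS0 : s₀ ∈ S := Finset.mem_filter.mpr ⟨Finset.mem_range.mpr hs₀lt, hs₀, hts₀⟩
    obtain ⟨r, hrS, hrmin⟩ := Finset.exists_min_image S (fun s => wN wsC s) ⟨s₀, hS0⟩
    obtain ⟨hr1, hrpos, htr⟩ := Finset.mem_filter.mp hrS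
    have hrlt : r < 240 := Finset.mem_range.mp hr1
    obtain ⟨i, c, hc, hne⟩ := hLT wsC hTwpos t r hrpos htr (fun s hs hts =>
      hrmin s (Finset.mem_filter.mpr ⟨Finset.mem_range.mpr hs.1, hs, hts⟩))
    rw [← hut] at hne
    -- so `wN cr (neg r) ≤ 0` for all the gradings
    have hle : ∀ cr ∈ crs, wN cr (chevE8.neg r) ≤ 0 := by
      intro cr hcr
      have f1 := (hall cr hcr hu).1 (Sum.inl i) (Sum.inr c) hne
      have f2 : wt cr (Sum.inr c : chevE8.Idx) = wN cr (chevE8.neg r) := by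
        show wN cr (ix chevE8 (Sum.inr c : chevE8.Idx)) = _
        have : ix chevE8 (Sum.inr c : chevE8.Idx) = c.val := rfl
        rw [this, hc]
      have f3 : wt cr (Sum.inl i : chevE8.Idx) = 0 := by
        show wN cr (ix chevE8 (Sum.inl i : chevE8.Idx)) = 0
        exact zRl_ge _ _ _ _ (by show chevE8.nroots ≤ chevE8.nroots + i.val; omega)
      rw [f2, f3] at f1
      exact f1
    have hlevr : ¬ wN levC r ≤ 1 := by
      intro h1
      obtain ⟨cr, hcr, hpos⟩ := hTneg r hrlt hrpos h1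
      have := hle cr hcr
      omega
    exact hlevr (hTmin s₀ hs₀lt hs₀ (by omega) r hrlt hrpos (hrmin s₀ hS0))
  rw [hut]
  unfold tailW
  apply wordU_mem
  intro p hp
  simp only [List.mem_map] at hp
  obtain ⟨r, hr, rfl⟩ := hp
  have hrpos : chevE8.IsPosRoot r := (mem_tailL 0 r hr).1
  by_cases htr : t r = 0
  · show xU hS r (t r) ∈ _
    rw [htr, xU_zero]
    exact Subgroup.one_mem _
  · exact xU_mem_rais1 r hrpos.1 (hsupp r hrpos htr) (t r)

example : Cfsg.Agent.H23.Ic.StStep0 := step0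

end Cfsg.Agent.H78.Ic
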