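import Cfsg.Agent.H23.IcDefs

set_option autoImplicit false

/-!
# IC (S5751): the pieces STEP0 and STEPK (assembly of the upper bound steps)
-/

namespace Cfsg.Agent.H78.Ic

open Cfsg.Lie Cfsg.Agent.H23 Cfsg.Agent.H23.Ic

/-- Conjugation by a graded-monomial involution carries the filtration of `w` to that of `w'`. -/
theorem fil_conj {w w' : chevE8.Idx → ℤ} {n M : Matrix chevE8.Idx chevE8.Idx (ZMod 2)}
    (hn : ∀ a c, n a c ≠ 0 → w' a = w c ∧ w a = w' c) (hM : Fil w M) : Fil w' (n * M * n) := by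
  intro a c h
  obtain ⟨d, h1, h2⟩ := exists_of_mul_ne_zero h
  obtain ⟨b, h3, h4⟩ := exists_of_mul_ne_zero h1
  have e1 := hn a b h3
  have e2 := hn d c h2
  have e3 := hM b d h4
  omega

/-- The same for matrices raising the weights by more than `m`. -/
theorem raisM_conj {w w' : chevE8.Idx → ℤ} {m : ℤ} {n M : Matrix chevE8.Idx chevE8.Idx (ZMod 2)}
    (hn : ∀ a c, n a c ≠ 0 → w' a = w c ∧ w a = w' c) (hM : RaisM w m M) : RaisM w' m (n * M * n) := by
  intro a c h
  obtain ⟨d, h1, h2⟩ := exists_of_mul_ne_zero h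
  obtain ⟨b, h3, h4⟩ := exists_of_mul_ne_zero h1
  have e1 := hn a b h3
  have e2 := hn d c h2
  have e3 := hM b d h4
  omega

theorem nn_inv (hB1 : ∀ j < 8, nn j * nn j = 1) (j : ℕ) (hj : j < 8) : (nn j)⁻¹ = nn j :=
  inv_eq_of_mul_eq_one_right (hB1 j hj)

/-- `n_j (filtGroup (wt cr)) n_j⁻¹ ≤ filtGroup (wt (reflC j cr))`. -/
theorem filt_conj_mem (hB1 : ∀ j < 8, nn j * nn j = 1) (hGrad : StGrad) (cr : List ℤ)
    (hcr : cr ∈ levC :: crs) (j : ℕ) (hj : j < 8) (y : GLE) (hy : y ∈ filtGroup (wt cr)) :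
    nn j * y * (nn j)⁻¹ ∈ filtGroup (wt (reflC j cr)) := by
  have hinv := nn_inv hB1 j hj
  have hn := hGrad cr hcr j hj
  obtain ⟨hy1, hy2⟩ := hy
  rw [hinv]
  refine ⟨?_, ?_⟩
  · rw [Units.val_mul, Units.val_mul]
    exact fil_conj hn hy1
  · have e : (nn j * y * nn j)⁻¹ = nn j * y⁻¹ * nn j := by
      rw [_root_.mul_inv_rev, _root_.mul_inv_rev, hinv, mul_assoc]
    rw [e, Units.val_mul, Units.val_mul]
    exact fil_conj hn hy2

/-- `n_j (raisGroupM (wt cr) m) n_j⁻¹ ≤ raisGroupM (wt (reflC j cr)) m`. -/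
theorem raisM_conj_mem (hB1 : ∀ j < 8, nn j * nn j = 1) (hGrad : StGrad) (cr : List ℤ)
    (hcr : cr ∈ levC :: crs) (j : ℕ) (hj : j < 8) (m : ℤ) (hm : 0 ≤ m) (y : GLE)
    (hy : y ∈ raisGroupM (ZMod 2) (wt cr) m hm) :
    nn j * y * (nn j)⁻¹ ∈ raisGroupM (ZMod 2) (wt (reflC j cr)) m hm := by
  have hinv := nn_inv hB1 j hj
  have hn := hGrad cr hcr j hj
  have hnn : ((nn j : GLE) : Matrix chevE8.Idx chevE8.Idx (ZMod 2)) *
      ((nn j : GLE) : Matrix chevE8.Idx chevE8.Idx (ZMod 2)) = 1 := by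
    rw [← Units.val_mul, hB1 j hj, Units.val_one]
  have key : ∀ A : Matrix chevE8.Idx chevE8.Idx (ZMod 2),
      ((nn j : GLE) : Matrix chevE8.Idx chevE8.Idx (ZMod 2)) * A *
        ((nn j : GLE) : Matrix chevE8.Idx chevE8.Idx (ZMod 2)) - 1 =
      ((nn j : GLE) : Matrix chevE8.Idx chevE8.Idx (ZMod 2)) * (A - 1) *
        ((nn j : GLE) : Matrix chevE8.Idx chevE8.Idx (ZMod 2)) := by
    intro A
    rw [mul_sub, sub_mul, mul_one, hnn]
  obtain ⟨hy1, hy2⟩ := hy
  rw [hinv]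
  refine ⟨?_, ?_⟩
  · rw [Units.val_mul, Units.val_mul, key]
    exact raisM_conj hn hy1
  · have e : (nn j * y * nn j)⁻¹ = nn j * y⁻¹ * nn j := by
      rw [_root_.mul_inv_rev, _root_.mul_inv_rev, hinv, mul_assoc]
    rw [e, Units.val_mul, Units.val_mul, key]
    exact raisM_conj hn hy2

theorem getD_mem_crs (i : ℕ) (hi : i < 30) : crs.getD i [] ∈ crs := by
  have hlen : crs.length = 30 := rfl
  rw [List.getD_eq_getElem _ _ (by rw [hlen]; exact hi)]
  exact List.getElem_mem _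

/-- Transport along the parent pointers: a family of subgroups `K cr` with
`n_j (K cr) n_j⁻¹ ≤ K (reflC j cr)` contains `N` for every `cr ∈ crs` as soon as it does for
`reflC 3 levC`, when `N` is normalized by the `n_j`, `j ≠ 3`. -/
theorem transport (hB1 : ∀ j < 8, nn j * nn j = 1) (hB2 : ∀ j < 8, j ≠ 3 → nn j ∈ Pj)
    (hpar : ∀ i < 29, (par.getD i (0, 0)).1 < i + 1 ∧ (par.getD i (0, 0)).2 < 8 ∧
      (par.getD i (0, 0)).2 ≠ 3 ∧
      crs.getD (i + 1) [] = reflC (par.getD i (0, 0)).2 (crs.getD (par.getD i (0, 0)).1 []))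
    (K : List ℤ → Subgroup GLE)
    (hK : ∀ cr ∈ levC :: crs, ∀ j < 8, ∀ y ∈ K cr, nn j * y * (nn j)⁻¹ ∈ K (reflC j cr))
    (N : Subgroup GLE) (hNnorm : ∀ p ∈ Pj, ∀ x ∈ N, p * x * p⁻¹ ∈ N)
    (h0 : N ≤ K (crs.getD 0 [])) : ∀ cr ∈ crs, N ≤ K cr := by
  have main : ∀ i, i < 30 → N ≤ K (crs.getD i []) := by
    intro i
    induction i using Nat.strong_induction_on with
    | _ i ih =>
      intro hi
      rcases Nat.eq_zero_or_pos i with h | h
      · rw [h]; exact h0
      · obtain ⟨i', rfl⟩ : ∃ i', i = i' + 1 := ⟨i - 1, by omega⟩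
        obtain ⟨hp1, hp2, hp3, hp4⟩ := hpar i' (by omega)
        have ihp := ih _ hp1 (by omega)
        intro x hx
        have hinv := nn_inv hB1 _ hp2
        have hy : nn (par.getD i' (0, 0)).2 * x * (nn (par.getD i' (0, 0)).2)⁻¹ ∈ N :=
          hNnorm _ (hB2 _ hp2 hp3) x hx
        have h1 := hK _ (List.mem_cons_of_mem _ (getD_mem_crs _ (by omega))) _ hp2 _ (ihp hy)
        rw [hp4]
        have e : nn (par.getD i' (0, 0)).2 * (nn (par.getD i' (0, 0)).2 * x *
            (nn (par.getD i' (0, 0)).2)⁻¹) * (nn (par.getD i' (0, 0)).2)⁻¹ = x := by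
          rw [hinv]
          have h2 := hB1 _ hp2
          calc nn (par.getD i' (0, 0)).2 * (nn (par.getD i' (0, 0)).2 * x * nn (par.getD i' (0, 0)).2) *
                nn (par.getD i' (0, 0)).2
              = (nn (par.getD i' (0, 0)).2 * nn (par.getD i' (0, 0)).2) * x *
                (nn (par.getD i' (0, 0)).2 * nn (par.getD i' (0, 0)).2) := by group
            _ = x := by rw [h2, one_mul, mul_one]
        rw [e] at h1
        exact h1
  intro cr hcr
  obtain ⟨i, hi, rfl⟩ := List.getElem_of_mem hcr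
  have hlen : crs.length = 30 := rfl
  have := main i (by rw [hlen] at hi; exact hi)
  rwa [List.getD_eq_getElem _ _ hi] at this

theorem ix_lt248 (k : chevE8.Idx) : ix chevE8 k < 248 := ix_lt chevE8 k

/-- STEPK. -/
theorem stepK : StStepK := by
  intro hB hGrad hTab k hk N hNP hNnorm hNR hNconj
  obtain ⟨hB1, hB2, -, -, -⟩ := hB
  obtain ⟨⟨-, hT0, -, hpar⟩, hTsum, -⟩ := hTab
  have hk0 : (0 : ℤ) ≤ (k : ℤ) := Int.natCast_nonneg k
  -- `N` lies in `raisGroupM (wt cr) k` for all the gradings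
  have h0 : N ≤ raisGroupM (ZMod 2) (wt (crs.getD 0 [])) (k : ℤ) hk0 := by
    intro x hx
    obtain ⟨y, hy, rfl⟩ := Subgroup.mem_map.mp (hNconj hx)
    rw [hT0]
    exact raisM_conj_mem hB1 hGrad levC (List.mem_cons_self ..) 3 (by norm_num) _ hk0 y hy.2
  have hall := transport hB1 hB2 hpar (fun cr => raisGroupM (ZMod 2) (wt cr) (k : ℤ) hk0)
    (fun cr hcr j hj y hy => raisM_conj_mem hB1 hGrad cr hcr j hj _ hk0 y hy) N hNnorm h0
  have hlen : crs.length = 30 := rfl
  -- the sum of the 30 gradings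
  have hsum : ∀ (M : Matrix chevE8.Idx chevE8.Idx (ZMod 2)),
      (∀ cr ∈ crs, RaisM (wt cr) (k : ℤ) M) → RaisM (wt levC) ((k + 1 : ℕ) : ℤ) M := by
    intro M hM a c hac
    have h1 := hTsum (ix chevE8 a) (ix_lt248 a)
    have h2 := hTsum (ix chevE8 c) (ix_lt248 c)
    have h3 : ∀ L : List (List ℤ), (∀ cr ∈ L, wN cr (ix chevE8 c) + ((k : ℤ) + 1) ≤ wN cr (ix chevE8 a)) →
        (L.map fun cr => wN cr (ix chevE8 c)).sum + (L.length : ℤ) * ((k : ℤ) + 1) ≤
          (L.map fun cr => wN cr (ix chevE8 a)).sum := by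
      intro L
      induction L with
      | nil => intro _; simp
      | cons cr L ih =>
        intro hL
        have e1 := hL cr (List.mem_cons_self ..)
        have e2 := ih (fun cr' hcr' => hL cr' (List.mem_cons_of_mem _ hcr'))
        simp only [List.map_cons, List.sum_cons, List.length_cons, Nat.cast_add, Nat.cast_one]
        nlinarith
    have h4 := h3 crs (fun cr hcr => by
      have := hM cr hcr a c hac
      show wN cr (ix chevE8 c) + ((k : ℤ) + 1) ≤ wN cr (ix chevE8 a)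
      have e : wt cr c + (k : ℤ) < wt cr a := this
      unfold wt at e
      omega)
    rw [h1, h2, hlen] at h4
    show wN levC (ix chevE8 c) + ((k + 1 : ℕ) : ℤ) < wN levC (ix chevE8 a)
    push_cast at h4 ⊢
    have hk1 : (1 : ℤ) ≤ (k : ℤ) := by exact_mod_cast hk
    nlinarith
  intro x hx
  have hxR := hNR hx
  refine ⟨hxR.1, ?_, ?_⟩
  · exact hsum _ (fun cr hcr => (hall cr hcr hx).1)
  · exact hsum _ (fun cr hcr => (hall cr hcr hx).2)

example : Cfsg.Agent.H23.Ic.StStepK := stepK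

end Cfsg.Agent.H78.Ic
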