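import Cfsg.Agent.H78.RealOdd2
import Cfsg.Agent.H78.AFT3
import Cfsg.Agent.Lib.Gallagher
import Cfsg.Agent.H4.RealClasses
import Cfsg.Agent.H82.Irr

/-!
# Real odd-degree characters of a normal subgroup: an extension in the principal 2-block
(helper78)
-/

set_option autoImplicit false
set_option linter.unusedSectionVars false
set_option linter.style.haveILetI false

namespace Cfsg.Agent.H78

open Cfsg Cfsg.Agent.H20 Cfsg.Agent.H4

open scoped ComplexConjugate

universe u

variable {G : Type u} [Group G] [Fintype G]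

attribute [local instance] Cfsg.Agent.H4.fintypeIrr

open Classical in
/-- If `∑_{x 2-regular} ψ(x) ≠ 0` then `ψ` lies in the principal `2`-block (any prime `p`). -/
theorem mem_principalBlock_of_sum_regular_ne_zero {p : ℕ} {M : Ideal AlgInt}
    (hM : IsPModular p M) (ψ : IrrCharacter G)
    (h : ∑ x : G, (if ¬ p ∣ orderOf x then (ψ : G → ℂ) x else 0) ≠ 0) :
    ψ ∈ principalBlock M G := by
  by_contra hnot
  have hnot' : ψ ∉ blockOf M ((trivIrr G : IrrCharacter G) : G → ℂ) := hnot
  have h0 := sum_regular_eq_zero_of_not_mem_block hM (trivIrr G) ψ hnot'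
  apply h
  have h1 := congrArg conj h0
  rw [map_zero, map_sum] at h1
  refine Eq.trans (Finset.sum_congr rfl fun x _ => ?_) h1
  split_ifs
  · rw [map_zero]
  · rw [trivIrr_apply, one_mul, Complex.conj_conj]

open Classical in
/-- **A real-valued odd-degree irreducible character of a normal subgroup that extends to `G`
has an extension in the principal `2`-block.** -/
theorem exists_real_odd_ext_mem_principalBlock {M : Ideal AlgInt} (hM : IsPModular 2 M)
    (N : Subgroup G) [hN : N.Normal] [Fintype N] (θ : IrrCharacter N)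
    (hreal : ∀ n : N, ((θ : N → ℂ) n).im = 0) (hodd : Odd (charDegree (θ : N → ℂ)))
    (η₀ : IrrCharacter G) (hη₀ : ∀ n : N, (η₀ : G → ℂ) n = (θ : N → ℂ) n) :
    ∃ η : IrrCharacter G, (∀ n : N, (η : G → ℂ) n = (θ : N → ℂ) n) ∧
      η ∈ principalBlock M G := by
  have hMp := isPrime_of_isPModular hM
  -- Gallagher: `conj η₀ = β * η₀`
  have hφ : IsIrrCharacter N (fun _ => (1 : ℂ)) := (trivIrr N).2
  have hinvθ : ∀ g : G, Cfsg.Agent.Clifford.conjChar N (θ : N → ℂ) g = (θ : N → ℂ) := by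
    intro g; funext n
    rw [Cfsg.Agent.Clifford.conjChar_apply, ← hη₀, ← hη₀]
    exact irr_isClassFunction η₀ n g
  have hone : ((fun _ => (1 : ℂ)) * (θ : N → ℂ) : N → ℂ) = (θ : N → ℂ) := by
    funext n; simp
  have hprod : IsIrrCharacter N ((fun _ => (1 : ℂ)) * (θ : N → ℂ)) := by
    rw [hone]; exact θ.2
  obtain ⟨-, -, h3⟩ := Cfsg.Agent.Clifford.gallagher (N := N) hφ θ.2 (fun g => rfl) hinvθ hprod
    (isCharacter_of_isIrrCharacter η₀.2) hη₀
  have hθθ : classInner (θ : N → ℂ) (fun n : N => conj ((η₀ : G → ℂ) n)) = 1 := by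
    rw [← irr_inner_self θ]
    unfold classInner
    congr 1
    refine Finset.sum_congr rfl fun n _ => ?_
    simp only
    rw [hη₀, irr_real_conj hreal, irr_real_conj hreal]
  obtain ⟨β, hβirr, -, hβ⟩ := h3 (fun g => conj ((η₀ : G → ℂ) g)) (isIrrCharacter_conj η₀.2) (by
    have hcf : IsClassFunction G (fun g => conj ((η₀ : G → ℂ) g)) :=
      irr_isClassFunction (irrConj η₀)
    rw [frobenius_reciprocity N _ _ hcf, hone, hθθ]
    exact one_ne_zero)
  have hd := Cfsg.Agent.H81.irr_charDegree η₀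
  have hη1 : (η₀ : G → ℂ) 1 ≠ 0 := Cfsg.Agent.H81.irr_one_ne_zero η₀
  have hβ1 : β 1 = 1 := by
    have h := congrFun hβ 1
    rw [Pi.mul_apply, hd.1, Complex.conj_natCast] at h
    have hd0 : ((charDegree (η₀ : G → ℂ) : ℕ) : ℂ) ≠ 0 := by rw [← hd.1]; exact hη1
    exact mul_right_cancel₀ hd0 (by rw [h, one_mul])
  set f : G →* ℂˣ := Cfsg.Agent.H82.irrLinearHom ⟨β, hβirr⟩ hβ1 with hf
  have hfβ : ∀ x : G, ((f x : ℂˣ) : ℂ) = β x := fun x => rfl
  have k1 : ∀ x : G, ((f x : ℂˣ) : ℂ) * (η₀ : G → ℂ) x = conj ((η₀ : G → ℂ) x) := by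
    intro x
    rw [hfβ]
    exact congrFun hβ x
  -- the candidates
  have hψ : ∀ (j : ℕ) (x : G), ((twist (f ^ j) η₀ : IrrCharacter G) : G → ℂ) x
      = ((f x : ℂˣ) : ℂ) ^ j * (η₀ : G → ℂ) x := by
    intro j x
    rw [twist_apply, MonoidHom.pow_apply, Units.val_pow_eq_pow_val]
  have k2 : ∀ (j : ℕ) (n : N), ((twist (f ^ j) η₀ : IrrCharacter G) : G → ℂ) n
      = (θ : N → ℂ) n := by
    intro j n
    rw [hψ, hη₀]
    by_cases h0 : (θ : N → ℂ) n = 0
    · rw [h0, mul_zero]
    · have h1 := k1 (n : G)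
      rw [hη₀, irr_real_conj hreal] at h1
      have h2 : ((f (n : G) : ℂˣ) : ℂ) = 1 := by
        have := mul_right_cancel₀ h0 (h1.trans (one_mul _).symm)
        exact this
      rw [h2, one_pow, one_mul]
  -- the function `F`
  set F : G → ℂ := fun x => if f x = 1 then (η₀ : G → ℂ) x else 0 with hF
  have hFint : ∀ x, IsIntegral ℤ (F x) := by
    intro x
    simp only [hF]
    split_ifs
    · exact Cfsg.Agent.H81.irr_isIntegral η₀ x
    · exact isIntegral_zero
  have hFinv : ∀ x, F x⁻¹ = F x := by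
    intro x
    simp only [hF]
    have e1 : f x⁻¹ = 1 ↔ f x = 1 := by rw [map_inv, inv_eq_one]
    by_cases hx : f x = 1
    · rw [if_pos (e1.mpr hx), if_pos hx, ← irr_conj η₀ x, ← k1 x, hx, Units.val_one, one_mul]
    · rw [if_neg (fun h => hx (e1.mp h)), if_neg hx]
  have hpar := sum_regular_sub_memLocalIdeal hM F hFint hFinv
  have hF1 : F 1 = ((charDegree (θ : N → ℂ) : ℕ) : ℂ) := by
    simp only [hF]
    rw [if_pos (map_one f)]
    have := hη₀ 1
    rw [Subgroup.coe_one] at this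
    rw [this, (Cfsg.Agent.H81.irr_charDegree θ).1]
  have hSF : ∑ x : G, (if ¬ 2 ∣ orderOf x then F x else 0) ≠ 0 := by
    intro h0
    rw [h0, zero_sub, hF1] at hpar
    have h2 := memLocalIdeal_neg hpar
    rw [neg_neg, memLocalIdeal_natCast_iff hM] at h2
    exact (Nat.not_even_iff_odd.mpr hodd) (even_iff_two_dvd.mpr h2)
  -- sum over the candidates
  have hgeom : ∀ x : G, ∑ j ∈ Finset.range (Nat.card G), ((f x : ℂˣ) : ℂ) ^ j
      = if f x = 1 then (Nat.card G : ℂ) else 0 := by
    intro x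
    by_cases hx : f x = 1
    · rw [if_pos hx, hx, Units.val_one]
      simp
    · rw [if_neg hx]
      have hne : ((f x : ℂˣ) : ℂ) ≠ 1 := by
        intro h
        exact hx (Units.ext (by rw [h, Units.val_one]))
      rw [geom_sum_eq hne]
      have hpow : ((f x : ℂˣ) : ℂ) ^ (Nat.card G) = 1 := by
        rw [← Units.val_pow_eq_pow_val, ← map_pow, pow_card_eq_one', map_one, Units.val_one]
      rw [hpow, sub_self, zero_div]
  have htotal : ∑ j ∈ Finset.range (Nat.card G), ∑ x : G, (if ¬ 2 ∣ orderOf x then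
      ((twist (f ^ j) η₀ : IrrCharacter G) : G → ℂ) x else 0)
      = (Nat.card G : ℂ) * ∑ x : G, (if ¬ 2 ∣ orderOf x then F x else 0) := by
    rw [Finset.sum_comm, Finset.mul_sum]
    refine Finset.sum_congr rfl fun x _ => ?_
    by_cases hx : 2 ∣ orderOf x
    · simp only [hx, not_true_eq_false, if_false, Finset.sum_const_zero, mul_zero]
    · simp only [hx, not_false_eq_true, if_true]
      simp only [hψ]
      rw [← Finset.sum_mul, hgeom x]
      simp only [hF]
      split_ifs
      · rfl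
      · rw [zero_mul, mul_zero]
  have hex : ∃ j ∈ Finset.range (Nat.card G), ∑ x : G, (if ¬ 2 ∣ orderOf x then
      ((twist (f ^ j) η₀ : IrrCharacter G) : G → ℂ) x else 0) ≠ 0 := by
    by_contra hcon
    push Not at hcon
    rw [Finset.sum_eq_zero hcon] at htotal
    have hG : (Nat.card G : ℂ) ≠ 0 := Nat.cast_ne_zero.mpr Nat.card_pos.ne'
    exact (mul_ne_zero hG hSF) htotal.symm
  obtain ⟨j, -, hj⟩ := hex
  exact ⟨twist (f ^ j) η₀, k2 j, mem_principalBlock_of_sum_regular_ne_zero hM _ hj⟩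

end Cfsg.Agent.H78
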