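import Cfsg.Agent.H4.Brauer
import Cfsg.Agent.H78.FrobSchur4

/-!
# `|G|_p · 1_{p-regular}` is a generalized character (helper78)

Via Brauer's characterization of characters (helper4): an elementary group has a normal
`p`-complement `K`, and the restriction of the function is a multiple of the permutation
character on the cosets of `K`.
-/

set_option autoImplicit false
set_option linter.unusedSectionVars false
set_option linter.style.haveILetI false

namespace Cfsg.Agent.H78

open Cfsg Cfsg.Agent.H4

universe u

/-- If `K` is a normal subgroup of order prime to `p` and `p`-power index, then the elements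
of `K` are exactly the `p`-regular elements. -/
theorem mem_iff_regular_of_normal_complement {E : Type*} [Group E] [Finite E] (p : ℕ)
    (hp : p.Prime) (K : Subgroup E) [K.Normal] (hK : Nat.Coprime (Nat.card K) p) (k : ℕ)
    (hk : K.index = p ^ k) (e : E) : e ∈ K ↔ ¬ p ∣ orderOf e := by
  constructor
  · intro he hdvd
    have h1 : p ∣ Nat.card K := hdvd.trans (Subgroup.orderOf_dvd_natCard K he)
    have h2 : p ∣ Nat.gcd (Nat.card K) p := Nat.dvd_gcd h1 dvd_rfl
    rw [hK] at h2
    exact hp.one_lt.ne' (Nat.dvd_one.mp h2)
  · intro he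
    have h1 : e ^ K.index ∈ K := Subgroup.pow_index_mem K e
    have hcop : Nat.Coprime (K.index) (orderOf e) := by
      rw [hk]
      exact Nat.Coprime.pow_left k ((Nat.Prime.coprime_iff_not_dvd hp).mpr he)
    obtain ⟨m, hm⟩ := exists_pow_eq_self_of_coprime hcop
    rw [← hm]
    exact K.pow_mem h1 m

open Classical in
/-- The function induced from the trivial character of a normal subgroup. -/
theorem indFun_one_of_normal {E : Type u} [Group E] [Fintype E] (K : Subgroup E) [hK : K.Normal]
    (e : E) : indFun K (fun _ => (1 : ℂ)) e = if e ∈ K then (K.index : ℂ) else 0 := by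
  rw [indFun_apply]
  by_cases he : e ∈ K
  · simp only [he, if_true]
    have h1 : ∀ x : E, extendByZero K (fun _ => (1 : ℂ)) (x⁻¹ * e * x) = 1 := by
      intro x
      have hx : x⁻¹ * e * x ∈ K := by
        have := hK.conj_mem e he x⁻¹
        rwa [inv_inv] at this
      rw [extendByZero_of_mem K _ hx]
    rw [Finset.sum_congr rfl fun x _ => h1 x, Finset.sum_const, Finset.card_univ, nsmul_eq_mul,
      mul_one, ← Nat.card_eq_fintype_card, ← Subgroup.card_mul_index K]
    have hK0 : (Nat.card K : ℂ) ≠ 0 := Nat.cast_ne_zero.mpr Nat.card_pos.ne'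
    push_cast
    field_simp
  · simp only [he, if_false]
    have h1 : ∀ x : E, extendByZero K (fun _ => (1 : ℂ)) (x⁻¹ * e * x) = 0 := by
      intro x
      have hx : x⁻¹ * e * x ∉ K := by
        intro hx
        apply he
        have := hK.conj_mem _ hx x
        have e2 : x * (x⁻¹ * e * x) * x⁻¹ = e := by group
        rwa [e2] at this
      rw [extendByZero_of_not_mem K _ hx]
    rw [Finset.sum_congr rfl fun x _ => h1 x, Finset.sum_const_zero, mul_zero]

/-- An elementary group has a normal `p`-complement, for every prime `p`. -/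
theorem exists_normal_complement_of_isElementary {E : Type*} [Group E] [Finite E] (p q : ℕ)
    (hp : p.Prime) (hq : q.Prime) (hE : IsElementary q E) :
    ∃ K : Subgroup E, K.Normal ∧ Nat.Coprime (Nat.card K) p ∧ ∃ k : ℕ, K.index = p ^ k := by
  obtain ⟨x, hxc, hcop, k, hk⟩ := hE
  have hZc : Subgroup.zpowers x ≤ Subgroup.center E := by
    rw [Subgroup.zpowers_le]; exact hxc
  have hnormal : ∀ H : Subgroup E, H ≤ Subgroup.center E → H.Normal := by
    intro H hH
    refine ⟨fun n hn g => ?_⟩
    have h1 := Subgroup.mem_center_iff.mp (hH hn) g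
    have e1 : g * n * g⁻¹ = n := by rw [h1]; group
    rw [e1]; exact hn
  by_cases hqp : q = p
  · subst hqp
    refine ⟨Subgroup.zpowers x, hnormal _ hZc, ?_, k, hk⟩
    rw [Nat.card_zpowers]; exact hcop
  · haveI : Fact p.Prime := ⟨hp⟩
    haveI hZn : (Subgroup.zpowers x).Normal := hnormal _ hZc
    have hcpq : Nat.Coprime q p := (Nat.coprime_primes hq hp).mpr hqp
    let P : Sylow p E := default
    have hPZ : (P : Subgroup E) ≤ Subgroup.zpowers x := by
      intro g hg
      have h1 : g ^ (Subgroup.zpowers x).index ∈ Subgroup.zpowers x :=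
        Subgroup.pow_index_mem _ g
      obtain ⟨j, hj⟩ := (IsPGroup.iff_orderOf.mp P.isPGroup') ⟨g, hg⟩
      have hj' : orderOf g = p ^ j := by
        rw [← hj]; exact (Subgroup.orderOf_mk g hg).symm
      have hc : Nat.Coprime ((Subgroup.zpowers x).index) (orderOf g) := by
        rw [hk, hj']
        exact Nat.Coprime.pow k j hcpq
      obtain ⟨m, hm⟩ := exists_pow_eq_self_of_coprime hc
      rw [← hm]
      exact (Subgroup.zpowers x).pow_mem h1 m
    have hPc : (P : Subgroup E) ≤ Subgroup.center E := hPZ.trans hZc
    haveI hPn : (P : Subgroup E).Normal := hnormal _ hPc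
    obtain ⟨H, hH⟩ := Subgroup.exists_right_complement'_of_coprime (P.card_coprime_index)
    have hcard : Nat.card H = (P : Subgroup E).index := hH.symm.index_eq_card.symm
    have hidx : H.index = Nat.card (P : Subgroup E) := hH.index_eq_card
    refine ⟨H, ⟨fun n hn g => ?_⟩, ?_, ?_⟩
    · obtain ⟨⟨a, b⟩, hab, -⟩ := hH.existsUnique g
      simp only at hab
      have ha := Subgroup.mem_center_iff.mp (hPc a.2)
      have e1 : g * n * g⁻¹ = (b : E) * n * (b : E)⁻¹ := by
        rw [← hab]
        have h2 := ha ((b : E) * n * (b : E)⁻¹)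
        calc (a : E) * (b : E) * n * ((a : E) * (b : E))⁻¹
            = (a : E) * ((b : E) * n * (b : E)⁻¹) * (a : E)⁻¹ := by group
          _ = ((b : E) * n * (b : E)⁻¹) * (a : E) * (a : E)⁻¹ := by rw [h2]
          _ = (b : E) * n * (b : E)⁻¹ := by group
      rw [e1]
      exact H.mul_mem (H.mul_mem b.2 hn) (H.inv_mem b.2)
    · rw [hcard]
      exact ((Nat.Prime.coprime_iff_not_dvd hp).mpr P.not_dvd_index).symm
    · obtain ⟨a, ha⟩ := IsPGroup.exists_card_eq P.isPGroup'
      exact ⟨a, by rw [hidx]; exact ha⟩

/-- **`|G|_p · 1_{p-regular}` is a generalized character.** -/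
theorem isGeneralizedCharacter_regular {G : Type u} [Group G] [Finite G] (p : ℕ)
    (hp : p.Prime) :
    IsGeneralizedCharacter G (fun g =>
      if ¬ p ∣ orderOf g then ((p ^ (Nat.card G).factorization p : ℕ) : ℂ) else 0) := by
  classical
  apply brauer_characterization
  · intro g h
    have e : orderOf (h * g * h⁻¹) = orderOf g := (MulAut.conj h).orderOf_eq g
    simp only [e]
  · intro E q hq hE
    letI : Fintype E := Fintype.ofFinite E
    obtain ⟨K, hKn, hKc, k, hk⟩ := exists_normal_complement_of_isElementary p q hp hq hE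
    haveI := hKn
    have hkn : k ≤ (Nat.card G).factorization p := by
      have h1 : p ^ k ∣ Nat.card G := by
        rw [← hk]
        exact (Subgroup.index_dvd_card K).trans (Subgroup.card_subgroup_dvd_card E)
      exact (hp.pow_dvd_iff_le_factorization Nat.card_pos.ne').mp h1
    have h1 : IsCharacter E (((p ^ ((Nat.card G).factorization p - k) : ℕ) : ℂ) •
        indFun K (fun _ => (1 : ℂ))) :=
      isCharacter_nsmul _ (isCharacter_indFun K _
        (isCharacter_of_isIrrCharacter (trivIrr K).2))
    refine ⟨_, 0, h1, isCharacter_zero, ?_⟩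
    funext e
    rw [sub_zero, Pi.smul_apply, smul_eq_mul, indFun_one_of_normal K e, Subgroup.orderOf_coe]
    by_cases he : e ∈ K
    · have hr := (mem_iff_regular_of_normal_complement p hp K hKc k hk e).mp he
      simp only [hr, not_false_eq_true, if_true, he]
      rw [hk, ← Nat.cast_mul, ← pow_add, Nat.sub_add_cancel hkn]
    · have hr : ¬ ¬ p ∣ orderOf e := fun h =>
        he ((mem_iff_regular_of_normal_complement p hp K hKc k hk e).mpr h)
      simp only [hr, if_false, he, mul_zero]

end Cfsg.Agent.H78
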