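import Cfsg.Agent.H78.RealOdd
import Cfsg.Agent.H78.RegChar
import Cfsg.Agent.Lib.Clifford

/-!
# Real-valued irreducible characters of odd degree (helper78)

* `real_odd_mem_principalBlock` : they lie in the principal `2`-block.
* `card_real_odd_le` : there are at most `|G|_2 ^ 2` of them (Brauer–Feit type argument on the
  truncated inner products `(1/|G|) ∑_{x 2-regular} χ(x) ψ(x)`).
-/

set_option autoImplicit false
set_option linter.unusedSectionVars false
set_option linter.style.haveILetI false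

namespace Cfsg.Agent.H78

open Cfsg Cfsg.Agent.H20 Cfsg.Agent.H4

open scoped ComplexConjugate

universe u

variable {G : Type u} [Group G] [Fintype G]

attribute [local instance] Cfsg.Agent.H4.fintypeIrr

omit [Fintype G] in
theorem irr_real_conj {χ : IrrCharacter G} (hχ : ∀ g : G, ((χ : G → ℂ) g).im = 0) (g : G) :
    conj ((χ : G → ℂ) g) = (χ : G → ℂ) g :=
  Complex.conj_eq_iff_im.mpr (hχ g)

open Classical in
/-- For real-valued irreducible characters `χ`, `ψ` of odd degree,
`∑_{x 2-regular} χ(x) ψ(x) ≠ 0`. -/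
theorem sum_regular_real_odd_ne_zero {M : Ideal AlgInt} (hM : IsPModular 2 M)
    (χ ψ : IrrCharacter G) (hχ : ∀ g : G, ((χ : G → ℂ) g).im = 0)
    (hψ : ∀ g : G, ((ψ : G → ℂ) g).im = 0) (hχo : Odd (charDegree (χ : G → ℂ)))
    (hψo : Odd (charDegree (ψ : G → ℂ))) :
    ∑ x : G, (if ¬ 2 ∣ orderOf x then (χ : G → ℂ) x * (ψ : G → ℂ) x else 0) ≠ 0 := by
  intro h0
  have h := sum_regular_sub_memLocalIdeal hM (fun x => (χ : G → ℂ) x * (ψ : G → ℂ) x)
    (fun x => (Cfsg.Agent.H81.irr_isIntegral χ x).mul (Cfsg.Agent.H81.irr_isIntegral ψ x))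
    (fun x => by
      rw [← irr_conj χ x, ← irr_conj ψ x, irr_real_conj hχ, irr_real_conj hψ])
  rw [h0, zero_sub] at h
  have h2 := memLocalIdeal_neg h
  rw [neg_neg] at h2
  rw [(Cfsg.Agent.H81.irr_charDegree χ).1, (Cfsg.Agent.H81.irr_charDegree ψ).1,
    ← Nat.cast_mul, memLocalIdeal_natCast_iff hM] at h2
  have hodd : Odd (charDegree (χ : G → ℂ) * charDegree (ψ : G → ℂ)) := hχo.mul hψo
  exact (Nat.not_even_iff_odd.mpr hodd) (even_iff_two_dvd.mpr h2)

/-- **Real-valued irreducible characters of odd degree lie in the principal `2`-block.** -/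
theorem real_odd_mem_principalBlock {M : Ideal AlgInt} (hM : IsPModular 2 M)
    (χ : IrrCharacter G) (hχ : ∀ g : G, ((χ : G → ℂ) g).im = 0)
    (hχo : Odd (charDegree (χ : G → ℂ))) : χ ∈ principalBlock M G := by
  classical
  by_contra hnot
  have hnot' : χ ∉ blockOf M ((trivIrr G : IrrCharacter G) : G → ℂ) := hnot
  have h := sum_regular_eq_zero_of_not_mem_block hM (trivIrr G) χ hnot'
  have hne := sum_regular_real_odd_ne_zero hM (trivIrr G) χ
    (fun g => by rw [trivIrr_apply]; rfl) hχ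
    (by
      have h1 := (Cfsg.Agent.H81.irr_charDegree (trivIrr G)).1
      rw [trivIrr_apply] at h1
      have h2 : charDegree ((trivIrr G : IrrCharacter G) : G → ℂ) = 1 := by
        exact_mod_cast h1.symm
      rw [h2]; exact odd_one) hχo
  apply hne
  refine Eq.trans (Finset.sum_congr rfl fun x _ => ?_) h
  rw [irr_real_conj hχ]

open Classical in
/-- `|G|_p` times a `p`-regular truncated inner product of two irreducible characters is an
integer. -/
theorem exists_int_regular_inner (p : ℕ) (hp : p.Prime) (χ ψ : IrrCharacter G) :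
    ∃ z : ℤ, ((p ^ (Nat.card G).factorization p : ℕ) : ℂ) *
      classInner (fun x => if ¬ p ∣ orderOf x then (χ : G → ℂ) x else 0) (ψ : G → ℂ) = z := by
  obtain ⟨α, β, hα, hβ, hαβ⟩ := isGeneralizedCharacter_regular (G := G) p hp
  have hχc := isCharacter_of_isIrrCharacter χ.2
  have hψc := isCharacter_of_isIrrCharacter ψ.2
  obtain ⟨n₁, hn₁⟩ := classInner_isCharacter_nat (isCharacter_mul hα hχc) hψc
  obtain ⟨n₂, hn₂⟩ := classInner_isCharacter_nat (isCharacter_mul hβ hχc) hψc
  refine ⟨(n₁ : ℤ) - n₂, ?_⟩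
  have e : ((p ^ (Nat.card G).factorization p : ℕ) : ℂ) *
      classInner (fun x => if ¬ p ∣ orderOf x then (χ : G → ℂ) x else 0) (ψ : G → ℂ)
      = classInner ((α - β) * (χ : G → ℂ)) (ψ : G → ℂ) := by
    rw [← hαβ]
    unfold classInner
    rw [mul_left_comm, Finset.mul_sum]
    congr 1
    refine Finset.sum_congr rfl fun x _ => ?_
    simp only [Pi.mul_apply]
    split_ifs <;> ring
  rw [e, sub_mul, classInner_sub_left, hn₁, hn₂]
  push_cast
  ring

open Classical in
/-- Bessel: the squared norms of the `p`-regular truncated inner products of `χ` with all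
irreducible characters sum to at most `1`. -/
theorem sum_normSq_regular_inner_le_one (p : ℕ) (χ : IrrCharacter G) :
    ∑ ψ : IrrCharacter G, Complex.normSq
      (classInner (fun x => if ¬ p ∣ orderOf x then (χ : G → ℂ) x else 0) (ψ : G → ℂ)) ≤ 1 := by
  set f : G → ℂ := fun x => if ¬ p ∣ orderOf x then (χ : G → ℂ) x else 0 with hf
  have hfc : IsClassFunction G f := by
    intro g h
    have e : orderOf (h * g * h⁻¹) = orderOf g := (MulAut.conj h).orderOf_eq g
    simp only [hf, e, irr_isClassFunction χ g h]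
  have h1 := Cfsg.Agent.Clifford.classInner_eq_sum_irr hfc f
  rw [finsum_irr_eq_sum] at h1
  have h2 : ∀ ψ : IrrCharacter G, classInner f (ψ : G → ℂ) * classInner (ψ : G → ℂ) f
      = ((Complex.normSq (classInner f (ψ : G → ℂ)) : ℝ) : ℂ) := by
    intro ψ
    rw [← classInner_conj_symm (ψ : G → ℂ) f, Complex.mul_conj]
  rw [Finset.sum_congr rfl fun ψ _ => h2 ψ, ← Complex.ofReal_sum] at h1
  have hG : (0 : ℝ) < (Nat.card G : ℝ) := Nat.cast_pos.mpr Nat.card_pos
  have h3 : classInner f f = (((Nat.card G : ℝ)⁻¹ *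
      ∑ x : G, (if ¬ p ∣ orderOf x then Complex.normSq ((χ : G → ℂ) x) else 0) : ℝ) : ℂ) := by
    unfold classInner
    push_cast
    congr 1
    refine Finset.sum_congr rfl fun x _ => ?_
    simp only [hf]
    split_ifs
    · rw [zero_mul, Complex.ofReal_zero]
    · rw [Complex.mul_conj]
  rw [h3] at h1
  have h4 := Complex.ofReal_injective h1
  rw [← h4]
  have h5 : classInner (χ : G → ℂ) (χ : G → ℂ) = (((Nat.card G : ℝ)⁻¹ *
      ∑ x : G, Complex.normSq ((χ : G → ℂ) x) : ℝ) : ℂ) := by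
    unfold classInner
    push_cast
    congr 1
    refine Finset.sum_congr rfl fun x _ => ?_
    rw [Complex.mul_conj]
  rw [irr_inner_self] at h5
  have h6 : (Nat.card G : ℝ)⁻¹ * ∑ x : G, Complex.normSq ((χ : G → ℂ) x) = 1 := by
    have := Complex.ofReal_injective (h5.symm.trans Complex.ofReal_one.symm)
    exact this
  rw [← h6]
  apply mul_le_mul_of_nonneg_left _ (inv_nonneg.mpr hG.le)
  refine Finset.sum_le_sum fun x _ => ?_
  split_ifs
  · exact Complex.normSq_nonneg _
  · exact le_refl _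

open Classical in
/-- **At most `|G|_2 ^ 2` real-valued irreducible characters of odd degree.** -/
theorem card_real_odd_le {M : Ideal AlgInt} (hM : IsPModular 2 M) :
    (Finset.univ.filter (fun χ : IrrCharacter G => (∀ g : G, ((χ : G → ℂ) g).im = 0) ∧
      Odd (charDegree (χ : G → ℂ)))).card ≤ 2 ^ (2 * (Nat.card G).factorization 2) := by
  set R := Finset.univ.filter (fun χ : IrrCharacter G => (∀ g : G, ((χ : G → ℂ) g).im = 0) ∧
      Odd (charDegree (χ : G → ℂ))) with hR
  rcases R.eq_empty_or_nonempty with hemp | ⟨χ₀, hχ₀⟩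
  · rw [hemp]; simp
  rw [hR, Finset.mem_filter] at hχ₀
  obtain ⟨-, hχr, hχo⟩ := hχ₀
  set n := (Nat.card G).factorization 2 with hn
  set m : IrrCharacter G → ℂ := fun ψ =>
    classInner (fun x => if ¬ 2 ∣ orderOf x then (χ₀ : G → ℂ) x else 0) (ψ : G → ℂ) with hm
  have hbessel : ∑ ψ : IrrCharacter G, Complex.normSq (m ψ) ≤ 1 :=
    sum_normSq_regular_inner_le_one 2 χ₀
  have hlow : ∀ ψ ∈ R, ((2 : ℝ) ^ (2 * n))⁻¹ ≤ Complex.normSq (m ψ) := by
    intro ψ hψ
    rw [hR, Finset.mem_filter] at hψ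
    obtain ⟨-, hψr, hψo⟩ := hψ
    obtain ⟨z, hz⟩ := exists_int_regular_inner 2 Nat.prime_two χ₀ ψ
    have hz0 : z ≠ 0 := by
      intro hz0
      rw [hz0, Int.cast_zero] at hz
      have h2n : ((2 ^ (Nat.card G).factorization 2 : ℕ) : ℂ) ≠ 0 := by
        exact_mod_cast (pow_pos (by norm_num : 0 < 2) _).ne'
      have h3 := (mul_eq_zero.mp hz).resolve_left h2n
      unfold classInner at h3
      have hG : (Nat.card G : ℂ) ≠ 0 := Nat.cast_ne_zero.mpr Nat.card_pos.ne'
      have h4 := (mul_eq_zero.mp h3).resolve_left (inv_ne_zero hG)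
      apply sum_regular_real_odd_ne_zero hM χ₀ ψ hχr hψr hχo hψo
      refine Eq.trans (Finset.sum_congr rfl fun x _ => ?_) h4
      rw [irr_real_conj hψr]
      by_cases hx : 2 ∣ orderOf x
      · simp only [hx, not_true_eq_false, if_false, zero_mul]
      · simp only [hx, not_false_eq_true, if_true]
    have hmz : m ψ = (z : ℂ) / ((2 : ℂ) ^ n) := by
      rw [eq_div_iff (pow_ne_zero _ (by norm_num : (2 : ℂ) ≠ 0)), mul_comm]
      rw [← hz]
      push_cast
      rfl
    rw [hmz, Complex.normSq_div]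
    have e1 : Complex.normSq (z : ℂ) = (z : ℝ) ^ 2 := by
      rw [← Complex.ofReal_intCast, Complex.normSq_ofReal]; ring
    have e2 : Complex.normSq ((2 : ℂ) ^ n) = (2 : ℝ) ^ (2 * n) := by
      rw [map_pow]
      have : Complex.normSq (2 : ℂ) = (2 : ℝ) ^ 2 := by
        rw [show (2 : ℂ) = ((2 : ℝ) : ℂ) by norm_num, Complex.normSq_ofReal]; ring
      rw [this, ← pow_mul]
    rw [e1, e2, inv_eq_one_div]
    apply div_le_div_of_nonneg_right _ (by positivity)
    have h1 : (1 : ℤ) ≤ z ^ 2 := by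
      have := sq_nonneg z
      have h0 : z ^ 2 ≠ 0 := pow_ne_zero 2 hz0
      omega
    exact_mod_cast h1
  have h1 : (R.card : ℝ) * ((2 : ℝ) ^ (2 * n))⁻¹ ≤ ∑ ψ ∈ R, Complex.normSq (m ψ) := by
    rw [← nsmul_eq_mul, ← Finset.sum_const]
    exact Finset.sum_le_sum hlow
  have h2 : ∑ ψ ∈ R, Complex.normSq (m ψ) ≤ ∑ ψ : IrrCharacter G, Complex.normSq (m ψ) :=
    Finset.sum_le_sum_of_subset_of_nonneg (Finset.subset_univ _)
      (fun ψ _ _ => Complex.normSq_nonneg _)
  have h3 : (R.card : ℝ) * ((2 : ℝ) ^ (2 * n))⁻¹ ≤ 1 := h1.trans (h2.trans hbessel)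
  have hpos : (0 : ℝ) < (2 : ℝ) ^ (2 * n) := by positivity
  have h4 : (R.card : ℝ) ≤ (2 : ℝ) ^ (2 * n) := by
    rw [← div_eq_mul_inv, div_le_one hpos] at h3
    exact h3
  exact_mod_cast h4

end Cfsg.Agent.H78
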