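import Cfsg.Agent.H78.StM1

/-!
# Abstract Steinberg module: irreducibility (helper78)
-/

set_option autoImplicit false

namespace Cfsg.Agent.H78.StM

open scoped Classical

variable {G : Type*} [Group G] {Ω : Type*} [MulAction G Ω] {W : Type*} [Fintype W]

/-- The sum of all `U`-translates of the apartment element. -/
noncomputable def stV0 (U : Subgroup G) [Fintype U] (a : W → Ω) (sg : W → ℂ) : Ω → ℂ :=
  ∑ u : U, trep G Ω (u : G) (stE a sg)

theorem stV_support (U : Subgroup G) (a : W → Ω) (sg : W → ℂ) (ω₀ : Ω)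
    (horb : ∀ w, ∃ g : G, g • ω₀ = a w) :
    ∀ v ∈ stV U a sg, ∀ ω, v ω ≠ 0 → ∃ g : G, g • ω₀ = ω := by
  intro v hv
  unfold stV at hv
  induction hv using Submodule.span_induction with
  | mem x hx =>
    obtain ⟨u, rfl⟩ := hx
    intro ω hω
    beta_reduce at hω
    rw [trep_stE, Finset.sum_apply] at hω
    obtain ⟨w, -, hw⟩ := Finset.exists_ne_zero_of_sum_ne_zero hω
    rw [Pi.smul_apply, smul_eq_mul] at hw
    have h1 : dl ((u : G) • a w) ω ≠ 0 := right_ne_zero_of_mul hw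
    unfold dl at h1
    have h2 : ω = (u : G) • a w := by
      by_contra h
      exact h1 (if_neg h)
    obtain ⟨g, hg⟩ := horb w
    exact ⟨u * g, by rw [mul_smul, hg, h2]⟩
  | zero => intro ω hω; exact absurd rfl hω
  | add x y _ _ hx hy =>
    intro ω hω
    by_cases h : x ω = 0
    · apply hy ω
      intro h'
      apply hω
      rw [Pi.add_apply, h, h', add_zero]
    · exact hx ω h
  | smul c x _ hx =>
    intro ω hω
    apply hx ω
    intro h'
    apply hω
    rw [Pi.smul_apply, h', smul_zero]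

/-- Every nonzero `G`-stable subspace of the Steinberg module contains the `U`-fixed vector. -/
theorem key_contains (U : Subgroup G) [Fintype U] (a : W → Ω) (sg : W → ℂ) (ω₀ : Ω)
    (hU : ∀ u ∈ U, u • ω₀ = ω₀) (horb : ∀ w, ∃ g : G, g • ω₀ = a w)
    (w₀ : W) (hw₀ : sg w₀ ≠ 0)
    (hind : ∀ v ∈ U, ∀ w, v • a w₀ = a w → v = 1 ∧ w = w₀)
    (S : Submodule ℂ (Ω → ℂ)) (hSV : S ≤ stV U a sg)
    (hS : ∀ g : G, ∀ v ∈ S, trep G Ω g v ∈ S) (hne : S ≠ ⊥) : stV0 U a sg ∈ S := by
  obtain ⟨f, hfS, hf0⟩ := (Submodule.ne_bot_iff S).mp hne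
  obtain ⟨ω, hω⟩ : ∃ ω, f ω ≠ 0 := by
    by_contra hcon
    push Not at hcon
    exact hf0 (funext hcon)
  obtain ⟨g, hg⟩ := stV_support U a sg ω₀ horb f (hSV hfS) ω hω
  obtain ⟨f', hf'⟩ : ∃ f', f' = trep G Ω g⁻¹ f := ⟨_, rfl⟩
  have hf'S : f' ∈ S := hf' ▸ hS _ _ hfS
  have hf'0 : f' ω₀ ≠ 0 := by
    rw [hf', trep_apply, inv_inv, hg]
    exact hω
  obtain ⟨F, hF⟩ : ∃ F, F = ∑ u : U, trep G Ω (u : G) f' := ⟨_, rfl⟩
  have hFS : F ∈ S := by
    rw [hF]
    exact Submodule.sum_mem _ fun u _ => hS _ _ hf'S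
  have hF0 : F ω₀ = (Fintype.card U : ℂ) * f' ω₀ := by
    rw [hF, Finset.sum_apply]
    have : ∀ u : U, trep G Ω (u : G) f' ω₀ = f' ω₀ := by
      intro u
      rw [trep_apply, hU _ (U.inv_mem u.2)]
    simp only [this]
    rw [Finset.sum_const, Finset.card_univ, nsmul_eq_mul]
  have hFU : ∀ u₁ : U, trep G Ω (u₁ : G) F = F := by
    intro u₁
    rw [hF, map_sum]
    apply Fintype.sum_equiv (Equiv.mulLeft u₁)
    intro u
    rw [← trep_mul_apply]
    rfl
  have hFV : F ∈ stV U a sg := hSV hFS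
  unfold stV at hFV
  rw [Submodule.mem_span_range_iff_exists_fun] at hFV
  obtain ⟨c, hc⟩ := hFV
  have hli := linIndep U a sg w₀ hw₀ hind
  have hcc : ∀ u₁ u : U, c (u₁⁻¹ * u) = c u := by
    intro u₁ u
    have h1 : trep G Ω (u₁ : G) F = ∑ u : U, c (u₁⁻¹ * u) • trep G Ω (u : G) (stE a sg) := by
      rw [← hc, map_sum]
      apply Fintype.sum_equiv (Equiv.mulLeft u₁)
      intro u
      rw [map_smul, ← trep_mul_apply]
      simp
    have h2 : ∑ u : U, (c (u₁⁻¹ * u) - c u) • trep G Ω (u : G) (stE a sg) = 0 := by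
      simp only [sub_smul]
      rw [Finset.sum_sub_distrib, ← h1, hc, hFU, sub_self]
    have := (Fintype.linearIndependent_iff.mp hli) _ h2 u
    exact sub_eq_zero.mp this
  have hc1 : ∀ u : U, c u = c 1 := by
    intro u
    have := hcc u⁻¹ 1
    simpa using this
  have hFc : F = c 1 • stV0 U a sg := by
    rw [← hc]
    unfold stV0
    rw [Finset.smul_sum]
    exact Finset.sum_congr rfl fun u _ => by rw [hc1 u]
  have hc0 : c 1 ≠ 0 := by
    intro h
    rw [h, zero_smul] at hFc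
    have h3 : F ω₀ = 0 := by rw [hFc]; rfl
    rw [hF0] at h3
    rcases mul_eq_zero.mp h3 with h | h
    · exact Fintype.card_ne_zero (Nat.cast_eq_zero.mp h)
    · exact hf'0 h
  have h4 : stV0 U a sg = (c 1)⁻¹ • F := by
    rw [hFc, smul_smul, inv_mul_cancel₀ hc0, one_smul]
  rw [h4]
  exact Submodule.smul_mem _ _ hFS

/-- The Steinberg module is an irreducible representation of dimension `|U|`. -/
theorem exists_irr [Finite G] (U : Subgroup G) (a : W → Ω) (sg : W → ℂ) (ω₀ : Ω)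
    (hU : ∀ u ∈ U, u • ω₀ = ω₀) (horb : ∀ w, ∃ g : G, g • ω₀ = a w)
    (w₀ : W) (hw₀ : sg w₀ ≠ 0)
    (hind : ∀ v ∈ U, ∀ w, v • a w₀ = a w → v = 1 ∧ w = w₀)
    (hst : ∀ g : G, ∀ v ∈ stV U a sg, trep G Ω g v ∈ stV U a sg) :
    ∃ τ : Subrepresentation (trep G Ω), τ.toSubmodule = stV U a sg ∧
      τ.toRepresentation.IsIrreducible ∧ Module.finrank ℂ τ.toSubmodule = Nat.card U := by
  have : Fintype U := Fintype.ofFinite U
  have hli := linIndep U a sg w₀ hw₀ hind
  obtain ⟨τ, hτ⟩ : ∃ τ : Subrepresentation (trep G Ω), τ.toSubmodule = stV U a sg :=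
    ⟨⟨stV U a sg, fun g v hv => hst g v hv⟩, rfl⟩
  refine ⟨τ, hτ, ?_, ?_⟩
  swap
  · rw [hτ]
    unfold stV
    rw [finrank_span_eq_card hli, Nat.card_eq_fintype_card]
  have hv0V : stV0 U a sg ∈ τ.toSubmodule := by
    rw [hτ]
    exact Submodule.sum_mem _ fun u _ => trep_mem_stV U a sg _ u.2
  have hv0 : stV0 U a sg ≠ 0 := by
    intro h
    have := (Fintype.linearIndependent_iff.mp hli) (fun _ => 1) (by simpa [stV0] using h) 1
    exact one_ne_zero this
  have hkey : ∀ σ : Subrepresentation τ.toRepresentation, σ ≠ ⊥ →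
      (⟨stV0 U a sg, hv0V⟩ : τ.toSubmodule) ∈ σ.toSubmodule := by
    intro σ hσ
    have h1 := key_contains U a sg ω₀ hU horb w₀ hw₀ hind
      (σ.toSubmodule.map τ.toSubmodule.subtype) ?_ ?_ ?_
    · obtain ⟨x, hx, hxe⟩ := h1
      have : x = ⟨stV0 U a sg, hv0V⟩ := Subtype.ext hxe
      rw [← this]
      exact hx
    · rintro _ ⟨x, -, rfl⟩
      rw [← hτ]
      exact x.2
    · rintro g _ ⟨x, hx, rfl⟩
      exact ⟨τ.toRepresentation g x, σ.apply_mem_toSubmodule g hx, rfl⟩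
    · intro h
      apply hσ
      apply Subrepresentation.toSubmodule_injective
      show σ.toSubmodule = ⊥
      rw [eq_bot_iff]
      intro x hx
      have h5 : τ.toSubmodule.subtype x ∈ Submodule.map τ.toSubmodule.subtype σ.toSubmodule :=
        ⟨x, hx, rfl⟩
      rw [h] at h5
      exact (Submodule.mem_bot ℂ).mpr (Subtype.ext ((Submodule.mem_bot ℂ).mp h5))
  have : NeZero (Nat.card G : ℂ) := ⟨Nat.cast_ne_zero.mpr Nat.card_pos.ne'⟩
  exact
    { exists_pair_ne := ⟨⊥, ⊤, fun h => by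
        have hmem : (⟨stV0 U a sg, hv0V⟩ : τ.toSubmodule) ∈
            (⊤ : Subrepresentation τ.toRepresentation).toSubmodule := Submodule.mem_top
        rw [← h] at hmem
        have h0 : (⟨stV0 U a sg, hv0V⟩ : τ.toSubmodule) = 0 := (Submodule.mem_bot ℂ).mp hmem
        exact hv0 (congrArg Subtype.val h0)⟩
      eq_bot_or_eq_top := fun σ => by
        by_cases hσ : σ = ⊥
        · exact Or.inl hσ
        · right
          obtain ⟨σ', hc⟩ := exists_isCompl σ
          by_cases hσ' : σ' = ⊥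
          · rw [hσ'] at hc
            have := hc.sup_eq_top
            rwa [sup_bot_eq] at this
          · exfalso
            have h1 := hkey σ hσ
            have h2 := hkey σ' hσ'
            have h3 : (⟨stV0 U a sg, hv0V⟩ : τ.toSubmodule) ∈ (σ ⊓ σ').toSubmodule := ⟨h1, h2⟩
            rw [hc.inf_eq_bot] at h3
            exact hv0 (congrArg Subtype.val ((Submodule.mem_bot ℂ).mp h3)) }

end Cfsg.Agent.H78.StM
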