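import Cfsg.Agent.H78.StM3

/-!
# Abstract Steinberg module with a weaker orbit hypothesis (helper78)

Variants of `key_contains`, `exists_irr`, `steinberg_quot` in which only the apartment chamber
`a w₀` of the big cell is assumed to lie in the `G`-orbit of the base point `ω₀` (so the indexing
"Weyl group" may be larger than the Weyl group of `G`; used for `Ω⁺_{2m}(q)` inside `O⁺_{2m}(q)`).
-/

set_option autoImplicit false

namespace Cfsg.Agent.H78.StM

open scoped Classical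

section

variable {G : Type*} [Group G] {Ω : Type*} [MulAction G Ω] {W : Type*} [Fintype W]

/-- A nonzero vector of the Steinberg module does not vanish on the orbit of the base point. -/
theorem stV_support' (U : Subgroup G) [Fintype U] (a : W → Ω) (sg : W → ℂ) (ω₀ : Ω)
    (w₀ : W) (hw₀ : sg w₀ ≠ 0)
    (hind : ∀ v ∈ U, ∀ w, v • a w₀ = a w → v = 1 ∧ w = w₀)
    (horb : ∃ g : G, g • ω₀ = a w₀) :
    ∀ f ∈ stV U a sg, f ≠ 0 → ∃ g : G, f (g • ω₀) ≠ 0 := by
  intro f hf hf0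
  unfold stV at hf
  rw [Submodule.mem_span_range_iff_exists_fun] at hf
  obtain ⟨c, hc⟩ := hf
  obtain ⟨u₁, hu₁⟩ : ∃ u₁ : U, c u₁ ≠ 0 := by
    by_contra hcon
    push Not at hcon
    apply hf0
    rw [← hc]
    exact Finset.sum_eq_zero fun u _ => by rw [hcon u, zero_smul]
  obtain ⟨g₀, hg₀⟩ := horb
  refine ⟨u₁ * g₀, ?_⟩
  rw [mul_smul, hg₀, ← hc, Finset.sum_apply]
  have h2 : ∀ u ∈ (Finset.univ : Finset U),
      (c u • trep G Ω (u : G) (stE a sg)) ((u₁ : G) • a w₀) =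
      if u = u₁ then c u₁ * sg w₀ else 0 := by
    intro u _
    rw [Pi.smul_apply, smul_eq_mul, eval_big U a sg w₀ hind u u₁ u.2 u₁.2]
    by_cases h : u = u₁
    · subst h; simp
    · have : (u : G) ≠ u₁ := fun h' => h (Subtype.ext h')
      simp [h, this]
  rw [Finset.sum_congr rfl h2, Finset.sum_ite_eq' Finset.univ u₁, if_pos (Finset.mem_univ _)]
  exact mul_ne_zero hu₁ hw₀

/-- Every nonzero `G`-stable subspace of the Steinberg module contains the `U`-fixed vector. -/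
theorem key_contains' (U : Subgroup G) [Fintype U] (a : W → Ω) (sg : W → ℂ) (ω₀ : Ω)
    (hU : ∀ u ∈ U, u • ω₀ = ω₀)
    (w₀ : W) (hw₀ : sg w₀ ≠ 0)
    (hind : ∀ v ∈ U, ∀ w, v • a w₀ = a w → v = 1 ∧ w = w₀)
    (horb : ∃ g : G, g • ω₀ = a w₀)
    (S : Submodule ℂ (Ω → ℂ)) (hSV : S ≤ stV U a sg)
    (hS : ∀ g : G, ∀ v ∈ S, trep G Ω g v ∈ S) (hne : S ≠ ⊥) : stV0 U a sg ∈ S := by
  obtain ⟨f, hfS, hf0⟩ := (Submodule.ne_bot_iff S).mp hne
  obtain ⟨g, hω⟩ := stV_support' U a sg ω₀ w₀ hw₀ hind horb f (hSV hfS) hf0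
  obtain ⟨ω, hg⟩ : ∃ ω, g • ω₀ = ω := ⟨_, rfl⟩
  rw [hg] at hω
  obtain ⟨f', hf'⟩ : ∃ f', f' = trep G Ω g⁻¹ f := ⟨_, rfl⟩
  have hf'S : f' ∈ S := hf' ▸ hS _ _ hfS
  have hf'0 : f' ω₀ ≠ 0 := by
    rw [hf', trep_apply, inv_inv, hg]
    exact hω
  obtain ⟨F, hF⟩ : ∃ F, F = ∑ u : U, trep G Ω (u : G) f' := ⟨_, rfl⟩
  have hFS : F ∈ S := by
    rw [hF]
    exact Submodule.sum_mem _ fun u _ => hS _ _ hf'S
  have hF0 : F ω₀ = (Fintype.card U : ℂ) * f' ω₀ := by
    rw [hF, Finset.sum_apply]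
    have : ∀ u : U, trep G Ω (u : G) f' ω₀ = f' ω₀ := by
      intro u
      rw [trep_apply, hU _ (U.inv_mem u.2)]
    simp only [this]
    rw [Finset.sum_const, Finset.card_univ, nsmul_eq_mul]
  have hFU : ∀ u₁ : U, trep G Ω (u₁ : G) F = F := by
    intro u₁
    rw [hF, map_sum]
    apply Fintype.sum_equiv (Equiv.mulLeft u₁)
    intro u
    rw [← trep_mul_apply]
    rfl
  have hFV : F ∈ stV U a sg := hSV hFS
  unfold stV at hFV
  rw [Submodule.mem_span_range_iff_exists_fun] at hFV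
  obtain ⟨c, hc⟩ := hFV
  have hli := linIndep U a sg w₀ hw₀ hind
  have hcc : ∀ u₁ u : U, c (u₁⁻¹ * u) = c u := by
    intro u₁ u
    have h1 : trep G Ω (u₁ : G) F = ∑ u : U, c (u₁⁻¹ * u) • trep G Ω (u : G) (stE a sg) := by
      rw [← hc, map_sum]
      apply Fintype.sum_equiv (Equiv.mulLeft u₁)
      intro u
      rw [map_smul, ← trep_mul_apply]
      simp
    have h2 : ∑ u : U, (c (u₁⁻¹ * u) - c u) • trep G Ω (u : G) (stE a sg) = 0 := by
      simp only [sub_smul]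
      rw [Finset.sum_sub_distrib, ← h1, hc, hFU, sub_self]
    have := (Fintype.linearIndependent_iff.mp hli) _ h2 u
    exact sub_eq_zero.mp this
  have hc1 : ∀ u : U, c u = c 1 := by
    intro u
    have := hcc u⁻¹ 1
    simpa using this
  have hFc : F = c 1 • stV0 U a sg := by
    rw [← hc]
    unfold stV0
    rw [Finset.smul_sum]
    exact Finset.sum_congr rfl fun u _ => by rw [hc1 u]
  have hc0 : c 1 ≠ 0 := by
    intro h
    rw [h, zero_smul] at hFc
    have h3 : F ω₀ = 0 := by rw [hFc]; rfl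
    rw [hF0] at h3
    rcases mul_eq_zero.mp h3 with h | h
    · exact Fintype.card_ne_zero (Nat.cast_eq_zero.mp h)
    · exact hf'0 h
  have h4 : stV0 U a sg = (c 1)⁻¹ • F := by
    rw [hFc, smul_smul, inv_mul_cancel₀ hc0, one_smul]
  rw [h4]
  exact Submodule.smul_mem _ _ hFS

/-- The Steinberg module is an irreducible representation of dimension `|U|`. -/
theorem exists_irr' [Finite G] (U : Subgroup G) (a : W → Ω) (sg : W → ℂ) (ω₀ : Ω)
    (hU : ∀ u ∈ U, u • ω₀ = ω₀)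
    (w₀ : W) (hw₀ : sg w₀ ≠ 0)
    (hind : ∀ v ∈ U, ∀ w, v • a w₀ = a w → v = 1 ∧ w = w₀)
    (horb : ∃ g : G, g • ω₀ = a w₀)
    (hst : ∀ g : G, ∀ v ∈ stV U a sg, trep G Ω g v ∈ stV U a sg) :
    ∃ τ : Subrepresentation (trep G Ω), τ.toSubmodule = stV U a sg ∧
      τ.toRepresentation.IsIrreducible ∧ Module.finrank ℂ τ.toSubmodule = Nat.card U := by
  have : Fintype U := Fintype.ofFinite U
  have hli := linIndep U a sg w₀ hw₀ hind
  obtain ⟨τ, hτ⟩ : ∃ τ : Subrepresentation (trep G Ω), τ.toSubmodule = stV U a sg :=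
    ⟨⟨stV U a sg, fun g v hv => hst g v hv⟩, rfl⟩
  refine ⟨τ, hτ, ?_, ?_⟩
  swap
  · rw [hτ]
    unfold stV
    rw [finrank_span_eq_card hli, Nat.card_eq_fintype_card]
  have hv0V : stV0 U a sg ∈ τ.toSubmodule := by
    rw [hτ]
    exact Submodule.sum_mem _ fun u _ => trep_mem_stV U a sg _ u.2
  have hv0 : stV0 U a sg ≠ 0 := by
    intro h
    have := (Fintype.linearIndependent_iff.mp hli) (fun _ => 1) (by simpa [stV0] using h) 1
    exact one_ne_zero this
  have hkey : ∀ σ : Subrepresentation τ.toRepresentation, σ ≠ ⊥ →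
      (⟨stV0 U a sg, hv0V⟩ : τ.toSubmodule) ∈ σ.toSubmodule := by
    intro σ hσ
    have h1 := key_contains' U a sg ω₀ hU w₀ hw₀ hind horb
      (σ.toSubmodule.map τ.toSubmodule.subtype) ?_ ?_ ?_
    · obtain ⟨x, hx, hxe⟩ := h1
      have : x = ⟨stV0 U a sg, hv0V⟩ := Subtype.ext hxe
      rw [← this]
      exact hx
    · rintro _ ⟨x, -, rfl⟩
      rw [← hτ]
      exact x.2
    · rintro g _ ⟨x, hx, rfl⟩
      exact ⟨τ.toRepresentation g x, σ.apply_mem_toSubmodule g hx, rfl⟩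
    · intro h
      apply hσ
      apply Subrepresentation.toSubmodule_injective
      show σ.toSubmodule = ⊥
      rw [eq_bot_iff]
      intro x hx
      have h5 : τ.toSubmodule.subtype x ∈ Submodule.map τ.toSubmodule.subtype σ.toSubmodule :=
        ⟨x, hx, rfl⟩
      rw [h] at h5
      exact (Submodule.mem_bot ℂ).mpr (Subtype.ext ((Submodule.mem_bot ℂ).mp h5))
  have : NeZero (Nat.card G : ℂ) := ⟨Nat.cast_ne_zero.mpr Nat.card_pos.ne'⟩
  exact
    { exists_pair_ne := ⟨⊥, ⊤, fun h => by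
        have hmem : (⟨stV0 U a sg, hv0V⟩ : τ.toSubmodule) ∈
            (⊤ : Subrepresentation τ.toRepresentation).toSubmodule := Submodule.mem_top
        rw [← h] at hmem
        have h0 : (⟨stV0 U a sg, hv0V⟩ : τ.toSubmodule) = 0 := (Submodule.mem_bot ℂ).mp hmem
        exact hv0 (congrArg Subtype.val h0)⟩
      eq_bot_or_eq_top := fun σ => by
        by_cases hσ : σ = ⊥
        · exact Or.inl hσ
        · right
          obtain ⟨σ', hc⟩ := exists_isCompl σ
          by_cases hσ' : σ' = ⊥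
          · rw [hσ'] at hc
            have := hc.sup_eq_top
            rwa [sup_bot_eq] at this
          · exfalso
            have h1 := hkey σ hσ
            have h2 := hkey σ' hσ'
            have h3 : (⟨stV0 U a sg, hv0V⟩ : τ.toSubmodule) ∈ (σ ⊓ σ').toSubmodule := ⟨h1, h2⟩
            rw [hc.inf_eq_bot] at h3
            exact hv0 (congrArg Subtype.val ((Submodule.mem_bot ℂ).mp h3)) }


end

universe u

theorem steinberg_quot' {G : Type u} [Group G] [Finite G] {Ω : Type*} [MulAction G Ω] {W : Type*}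
    [Fintype W] (p : ℕ) [Fact p.Prime] (U : Subgroup G) (a : W → Ω) (sg : W → ℂ) (ω₀ : Ω)
    (hU : ∀ u ∈ U, u • ω₀ = ω₀)
    (w₀ : W) (hw₀ : sg w₀ ≠ 0)
    (hind : ∀ v ∈ U, ∀ w, v • a w₀ = a w → v = 1 ∧ w = w₀)
    (horb : ∃ g : G, g • ω₀ = a w₀)
    (hst : ∀ g : G, ∀ v ∈ stV U a sg, trep G Ω g v ∈ stV U a sg)
    (hUp : IsPGroup p U) (hUi : ¬ p ∣ U.index)
    (Z : Subgroup G) [Z.Normal] (hZ : ∀ z ∈ Z, (∀ u ∈ U, z * u = u * z) ∧ ∀ w, z • a w = a w) :
    ∃ χ : G ⧸ Z → ℂ, Cfsg.IsIrrCharacter (G ⧸ Z) χ ∧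
      ∀ P : Sylow p (G ⧸ Z), χ 1 = Nat.card P ∧ ∀ x : G ⧸ Z, x ∈ P → x ≠ 1 → χ x = 0 := by
  obtain ⟨τ, hτ, hirr, hdim⟩ := exists_irr' U a sg ω₀ hU w₀ hw₀ hind horb hst
  have hli := linIndep U a sg w₀ hw₀ hind
  have hUpos : 0 < Nat.card U := Nat.card_pos
  have hfd : FiniteDimensional ℂ τ.toSubmodule :=
    Module.finite_of_finrank_pos (by rw [hdim]; exact hUpos)
  have hker : Z ≤ MonoidHom.ker (τ.toRepresentation : G →* Module.End ℂ τ.toSubmodule) := by
    intro z hz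
    rw [MonoidHom.mem_ker]
    refine LinearMap.ext fun v => Subtype.ext ?_
    show trep G Ω z v.1 = v.1
    exact central_trivial U a sg z (hZ z hz).1 (hZ z hz).2 v.1 (hτ ▸ v.2)
  obtain ⟨ρ', hρ'⟩ : ∃ ρ' : Representation ℂ (G ⧸ Z) τ.toSubmodule,
      ρ'.comp (QuotientGroup.mk' Z) = τ.toRepresentation :=
    ⟨QuotientGroup.lift Z τ.toRepresentation hker, by ext g; rfl⟩
  have hirr' : ρ'.IsIrreducible :=
    (Cfsg.Agent.H82.irreducible_comp_iff ρ' _ (QuotientGroup.mk'_surjective Z)).mp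
      (by rw [hρ']; exact hirr)
  refine ⟨ρ'.character, Cfsg.Agent.H82.isIrrCharacter_of_rep ρ', ?_⟩
  have hUZ : ∀ u ∈ U, u ∈ Z → u = 1 := by
    intro u hu huZ
    have h1 : trep G Ω u (stE a sg) = stE a sg :=
      central_trivial U a sg u (hZ u huZ).1 (hZ u huZ).2 _ (stE_mem_stV U a sg)
    have h2 : (fun u : U => trep G Ω (u : G) (stE a sg)) ⟨u, hu⟩ =
        (fun u : U => trep G Ω (u : G) (stE a sg)) 1 := by
      show trep G Ω u (stE a sg) = trep G Ω ((1 : U) : G) (stE a sg)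
      rw [h1, OneMemClass.coe_one, map_one]
      rfl
    exact congrArg Subtype.val (hli.injective h2)
  obtain ⟨f, hf⟩ : ∃ f : G →* G ⧸ Z, f = QuotientGroup.mk' Z := ⟨_, rfl⟩
  have hinj : Function.Injective (f.comp U.subtype) := by
    rw [injective_iff_map_eq_one]
    intro u hu
    have : (u : G) ∈ Z := by
      rw [hf] at hu
      exact (QuotientGroup.eq_one_iff _).mp hu
    exact Subtype.ext (hUZ _ u.2 this)
  have hcard : Nat.card (U.map f) = Nat.card U := by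
    have h := Nat.card_congr (MonoidHom.ofInjective hinj).toEquiv
    rw [MonoidHom.range_comp, Subgroup.range_subtype] at h
    exact h.symm
  have hpg : IsPGroup p (U.map f) := hUp.map f
  have hidx : ¬ p ∣ (U.map f).index := fun h =>
    hUi (dvd_trans h (Subgroup.index_map_dvd U (by rw [hf]; exact QuotientGroup.mk'_surjective Z)))
  intro P
  have hPc : Nat.card P = Nat.card U := by
    rw [Sylow.card_eq_multiplicity, ← hcard]
    exact (Sylow.card_eq_multiplicity (hpg.toSylow hidx)).symm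
  have hχ1 : ρ'.character 1 = Nat.card P := by
    rw [Representation.char_one, hdim, hPc]
  refine ⟨hχ1, ?_⟩
  intro x hxP hx1
  obtain ⟨n, hn⟩ : ∃ n, n = (Nat.card (G ⧸ Z)).factorization p := ⟨_, rfl⟩
  have hPn : Nat.card P = p ^ n := by rw [hn]; exact Sylow.card_eq_multiplicity P
  have hp := (Fact.out : p.Prime)
  apply rep_defect_zero_vanish ρ' p n hp
  · rw [hn]; exact Nat.ordProj_dvd _ _
  · rw [hn]; exact Nat.pow_succ_factorization_not_dvd Nat.card_pos.ne' hp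
  · rw [hdim, ← hPc, hPn]
  · have hxp : IsPGroup p P := P.isPGroup'
    obtain ⟨k, hk⟩ := hxp ⟨x, hxP⟩
    have hk' : x ^ p ^ k = 1 := by simpa using congrArg Subtype.val hk
    obtain ⟨j, hj, hjk⟩ := (Nat.dvd_prime_pow hp).mp (orderOf_dvd_of_pow_eq_one hk')
    rw [hjk]
    rcases j with _ | j
    · exfalso
      rw [pow_zero] at hjk
      exact hx1 (orderOf_eq_one_iff.mp hjk)
    · exact dvd_pow_self p (Nat.succ_ne_zero j)

end Cfsg.Agent.H78.StM
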