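import Cfsg.Agent.H78.StO1
import Cfsg.Agent.H92.StSpW

/-!
# Steinberg module for `Ω⁺_{2(m+1)}`: stability under the orthogonal group (helper78)

The apartment is indexed by the Weyl group of type `B` (`WSp m`), with the sign character that is
trivial on the long reflection (the flip `e_m ↔ f_m`, which lies in `O⁺` but is not a reflection
of the Weyl group of `Ω⁺`).
-/

set_option autoImplicit false

namespace Cfsg.Agent.H78.StO

open Matrix Cfsg.Agent.H50.AutPSL Cfsg.Agent.H78.StSL Cfsg.Agent.H78.StSp Cfsg.Agent.H78.StM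

variable {m : ℕ} {F : Type*} [Field F]

/-- The apartment. -/
def aO (m : ℕ) (F : Type*) [Field F] : WSp m → Flg ((m + 1) + (m + 1)) F := fun w => apt w.1

/-- The sign character (trivial on the long reflection). -/
noncomputable def epsO (m : ℕ) : WSp m →* ℤˣ :=
  Equiv.Perm.sign.comp (Cfsg.Agent.H92.StSp.wspPi m)

/-- The signs as complex numbers. -/
noncomputable def sgO (m : ℕ) : WSp m → ℂ := fun w => (((epsO m w : ℤˣ) : ℤ) : ℂ)

theorem epsO_some (k : Fin m) : epsO m (sgenW (some k)) = -1 := by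
  show Equiv.Perm.sign (Cfsg.Agent.H92.StSp.wspPi m (sgenW (some k))) = -1
  have h : Cfsg.Agent.H92.StSp.wspPi m (sgenW (some k)) = Equiv.swap k.castSucc k.succ :=
    Cfsg.Agent.H92.StSp.wspPi_some m k
  rw [h, Equiv.Perm.sign_swap (Fin.castSucc_lt_succ).ne]

theorem epsO_none : epsO m (sgenW none) = 1 := by
  show Equiv.Perm.sign (Cfsg.Agent.H92.StSp.wspPi m (sgenW none)) = 1
  have h : Cfsg.Agent.H92.StSp.wspPi m (sgenW none) = 1 := Cfsg.Agent.H92.StSp.wspPi_none m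
  rw [h, map_one]

theorem sgO_some (k : Fin m) (w : WSp m) : sgO m (sgenW (some k) * w) = - sgO m w := by
  unfold sgO
  rw [map_mul, epsO_some, neg_one_mul]
  push_cast
  rfl

theorem sgO_none (w : WSp m) : sgO m (sgenW none * w) = sgO m w := by
  unfold sgO
  rw [map_mul, epsO_none, one_mul]

theorem wsp_rev' (w : Equiv.Perm (Fin ((m + 1) + (m + 1)))) (hw : w ∈ WSp m)
    (c : Fin ((m + 1) + (m + 1))) : w (Fin.rev c) = Fin.rev (w c) :=
  Cfsg.Agent.H92.StSp.wsp_rev m w hw c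

theorem xdO_zero (i j : Fin (m + 1)) (hij : i ≠ j) : (xdO i j hij (0 : F) : OG m F) = 1 := by
  apply mat_injective
  rw [mat_xdO, xd_zero]
  rfl

theorem xdO_mem_UO [Fintype F] (i j : Fin (m + 1)) (hij : i < j) (t : F) :
    (xdO i j hij.ne t : OG m F) ∈ UO m F :=
  ⟨psi m F (xd i j hij.ne t), xd_mem_USp i j hij t, (psiO_eq_of_sp _ _ (mat_xdO _ _ _ _)).symm⟩

theorem psiO_xdO (i j : Fin (m + 1)) (hij : i ≠ j) (t : F) :
    psiO m F (xdO i j hij t) = SpecialLinearGroup.toGL (psi m F (xd i j hij t)) :=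
  psiO_eq_of_sp _ _ (mat_xdO _ _ _ _)

theorem psiO_nsO (k : Fin m) :
    psiO m F (nsO k) = SpecialLinearGroup.toGL (psi m F (ns k)) :=
  psiO_eq_of_sp _ _ (mat_nsO k)

/-- Rank one for the short nodes, at the level of the orthogonal group. -/
theorem short_node [Fintype F] [Fintype (WSp m)]
    (hrel : ∀ g : OG m F, IsUniO g → ∀ k : Fin m,
      mat g (Sum.inr k.succ) (Sum.inr k.castSucc) = - mat g (Sum.inl k.castSucc) (Sum.inl k.succ))
    (k : Fin m) :
    ∀ u : UO m F, trep (OG m F) (Flg ((m + 1) + (m + 1)) F) ((nsO k : OG m F) * (u : OG m F))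
      (stE (aO m F) (sgO m)) ∈
      stV (UO m F) (aO m F) (sgO m) := by
  refine rank_one (UO m F) (aO m F) (sgO m) (nsO k)
    (Set.range (xdO k.castSucc k.succ (cs_ne k))) (fun w => sgenW (some k) * w) ?_
    (sgO_some k) ?_ (WpS (some k)) (fun w => mem_WpS_iff (some k) w) ?_ ?_ ?_ ?_
  · intro w
    apply Subtype.ext
    exact sgen_mul_self (some k) w.1
  · intro w
    show nsO k • (apt w.1 : Flg ((m + 1) + (m + 1)) F) = apt (sgen m (some k) * w.1)
    rw [o_smul_of_sl _ _ (psiO_nsO k).symm]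
    exact psi_nn_smul (some k) w.1
  · rintro x ⟨t, rfl⟩
    exact xdO_mem_UO _ _ Fin.castSucc_lt_succ t
  · rintro x ⟨t, rfl⟩ w hw
    show xdO k.castSucc k.succ (cs_ne k) t • (apt w.1 : Flg ((m + 1) + (m + 1)) F) = apt w.1
    rw [o_smul_of_sl _ _ (psiO_xdO _ _ _ _).symm, psi_xd]
    exact dbl_x_smul_apt _ _ _ _ _ _ t (-t) w.1 hw (pF_lt_of_rev wsp_rev' w k hw)
  · rintro x ⟨t, rfl⟩ hx1
    have ht : t ≠ 0 := by
      rintro rfl
      exact hx1 (xdO_zero _ _ _)
    refine ⟨xdO k.castSucc k.succ (cs_ne k) (-t⁻¹), ⟨_, rfl⟩, fun w hw => ?_⟩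
    have e : (sgenW (some k) * w : WSp m).1 = Equiv.swap (pE m k.castSucc) (pE m k.succ) *
        (Equiv.swap (pF m k.succ) (pF m k.castSucc) * w.1) := mul_assoc _ _ _
    have h := dbl_rank1 (F := F) (pE m k.castSucc) (pE m k.succ) (pF m k.succ) (pF m k.castSucc)
      (pE_ne (cs_ne k)) (pF_ne (cs_ne k).symm) (disj_short k) t (-t) ht (neg_ne_zero.mpr ht)
      w.1 hw (pF_lt_of_rev wsp_rev' w k hw)
    rw [inv_neg, ← e, ← psi_ns, ← psi_xd, ← psi_xd, ← map_mul] at h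
    have h1 : psiO m F (nsO k * xdO k.castSucc k.succ (cs_ne k) t) =
        SpecialLinearGroup.toGL (psi m F (ns k * xd k.castSucc k.succ (cs_ne k) t)) := by
      rw [map_mul, map_mul, map_mul, psiO_nsO, psiO_xdO]
    show (nsO k * xdO k.castSucc k.succ (cs_ne k) t) •
        (apt (sgenW (some k) * w : WSp m).1 : Flg ((m + 1) + (m + 1)) F) =
      xdO k.castSucc k.succ (cs_ne k) (-t⁻¹) • apt (sgenW (some k) * w : WSp m).1
    rw [o_smul_of_sl _ _ h1.symm, o_smul_of_sl _ _ (psiO_xdO _ _ _ _).symm]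
    exact h
  · intro u hu
    obtain ⟨s, hs, hsu⟩ := hu
    have hval : ∀ a b, s.1 a b = ((psiO m F u : GL (Fin ((m + 1) + (m + 1))) F) :
        Matrix (Fin ((m + 1) + (m + 1))) (Fin ((m + 1) + (m + 1))) F) a b := by
      intro a b
      rw [← hsu]
      rfl
    have huni : IsUniO u := (mem_UO_iff_isUniO u).mp ⟨s, hs, hsu⟩
    obtain ⟨t, ht⟩ : ∃ t : F, t = s.1 (pE m k.castSucc) (pE m k.succ) := ⟨_, rfl⟩
    have hrel' : s.1 (pF m k.succ) (pF m k.castSucc) = -t := by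
      rw [ht, hval, hval, ← eN_inr, ← eN_inr, ← eN_inl, ← eN_inl, psiO_apply, psiO_apply]
      exact hrel u huni k
    have hf := dbl_factor (pE m k.castSucc) (pE m k.succ) (pF m k.succ) (pF m k.castSucc)
      (pE_adj k) (pF_adj k) (pE_ne (cs_ne k)) (pF_ne (cs_ne k).symm) (disj_short k) s hs
    rw [hrel', ← ht] at hf
    have hx : psi m F (xd k.castSucc k.succ (cs_ne k) t) =
        xE (pE m k.castSucc) (pE m k.succ) (pE_ne (cs_ne k)) t *
          xE (pF m k.succ) (pF m k.castSucc) (pF_ne (cs_ne k).symm) (-t) := psi_xd _ _ _ _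
    rw [← hx, ← psi_ns] at hf
    refine ⟨u * (xdO k.castSucc k.succ (cs_ne k) t)⁻¹, ?_, _, ⟨t, rfl⟩,
      by rw [inv_mul_cancel_right], ?_⟩
    · refine ⟨_, hf.1, ?_⟩
      simp only [map_mul, map_inv, hsu, psiO_xdO]
    · refine ⟨_, hf.2, ?_⟩
      simp only [map_mul, map_inv, hsu, psiO_xdO, psiO_nsO]

/-! ### Monomial elements normalizing `U` -/

theorem mono_node [Fintype F] [Fintype (WSp m)] (g : OG m F)
    (hfix : trep (OG m F) (Flg ((m + 1) + (m + 1)) F) g (stE (aO m F) (sgO m)) =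
      stE (aO m F) (sgO m))
    (hconj : ∀ u ∈ UO m F, g * u * g⁻¹ ∈ UO m F) :
    ∀ u : UO m F, trep (OG m F) (Flg ((m + 1) + (m + 1)) F) (g * (u : OG m F))
      (stE (aO m F) (sgO m)) ∈ stV (UO m F) (aO m F) (sgO m) := by
  intro u
  have e : g * (u : OG m F) = (g * u * g⁻¹) * g := by group
  rw [e, trep_mul_apply, hfix]
  exact trep_mem_stV (UO m F) (aO m F) (sgO m) _ (hconj u u.2)

theorem conj_mem_UO [Fintype F] (g : OG m F) (s : Equiv.Perm (Fin ((m + 1) + (m + 1))))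
    (hN : ∀ a b, a ≠ s b → ((psiO m F g : GL (Fin ((m + 1) + (m + 1))) F) :
      Matrix (Fin ((m + 1) + (m + 1))) (Fin ((m + 1) + (m + 1))) F) a b = 0)
    (u : OG m F) (hu : u ∈ UO m F)
    (h0 : ∀ a b : Fin ((m + 1) + (m + 1)), a < b → s b < s a →
      ((psiO m F u : GL (Fin ((m + 1) + (m + 1))) F) :
        Matrix (Fin ((m + 1) + (m + 1))) (Fin ((m + 1) + (m + 1))) F) a b = 0) :
    g * u * g⁻¹ ∈ UO m F := by
  rw [mem_UO_iff_isUT, map_mul, map_mul, map_inv]
  exact gmono_isUT_conj s (psiO m F g) hN _ ((mem_UO_iff_isUT u).mp hu) h0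

theorem psiO_dO_mono (d : Fin (m + 1) → Fˣ) (a b : Fin ((m + 1) + (m + 1)))
    (hab : a ≠ (1 : Equiv.Perm (Fin ((m + 1) + (m + 1)))) b) :
    ((psiO m F (dO d) : GL (Fin ((m + 1) + (m + 1))) F) :
      Matrix (Fin ((m + 1) + (m + 1))) (Fin ((m + 1) + (m + 1))) F) a b = 0 := by
  obtain ⟨x, rfl⟩ := (eN m).surjective a
  obtain ⟨y, rfl⟩ := (eN m).surjective b
  rw [psiO_apply, mat_dO]
  have hxy : x ≠ y := fun h => hab (by rw [h]; rfl)
  rcases x with i | i <;> rcases y with j | j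
  · rw [fromBlocks_apply₁₁, diagonal_apply_ne _ (fun h => hxy (by rw [h]))]
  · rfl
  · rfl
  · rw [fromBlocks_apply₂₂, diagonal_apply_ne _ (fun h => hxy (by rw [h]))]

theorem torus_node [Fintype F] [Fintype (WSp m)] (d : Fin (m + 1) → Fˣ) :
    ∀ u : UO m F, trep (OG m F) (Flg ((m + 1) + (m + 1)) F) ((dO d : OG m F) * (u : OG m F))
      (stE (aO m F) (sgO m)) ∈ stV (UO m F) (aO m F) (sgO m) := by
  apply mono_node
  · apply trep_stE_of_fix
    intro w
    show (dO d : OG m F) • (apt w.1 : Flg ((m + 1) + (m + 1)) F) = apt w.1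
    rw [o_smul_def, gmono_smul_apt 1 _ (psiO_dO_mono d), one_mul]
  · intro u hu
    apply conj_mem_UO _ 1 (psiO_dO_mono d) u hu
    intro a b hab hba
    exact absurd hab (not_lt.mpr hba.le)

/-! ### The flip -/

theorem mat_flip (r : OG m F)
    (hr : ∀ (v : Fin (m + 1) ⊕ Fin (m + 1) → F) (c : Fin (m + 1) ⊕ Fin (m + 1)),
      (mat r *ᵥ v) c = v (Equiv.swap (Sum.inl (Fin.last m)) (Sum.inr (Fin.last m)) c))
    (x y : Fin (m + 1) ⊕ Fin (m + 1)) :
    mat r x y = if Equiv.swap (Sum.inl (Fin.last m)) (Sum.inr (Fin.last m)) x = y then 1 else 0 := by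
  have e : mat r x y = (mat r *ᵥ Pi.single y 1) x := by
    rw [mulVec_single_one]; rfl
  rw [e, hr, Pi.single_apply]

theorem swap_eN (z : Fin (m + 1) ⊕ Fin (m + 1)) :
    Equiv.swap (pE m (Fin.last m)) (pF m (Fin.last m)) (eN m z) =
      eN m (Equiv.swap (Sum.inl (Fin.last m)) (Sum.inr (Fin.last m)) z) := by
  rw [← eN_inl, ← eN_inr]
  exact (eN m).injective.swap_apply _ _ _

theorem psiO_flip_mono (r : OG m F)
    (hr : ∀ (v : Fin (m + 1) ⊕ Fin (m + 1) → F) (c : Fin (m + 1) ⊕ Fin (m + 1)),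
      (mat r *ᵥ v) c = v (Equiv.swap (Sum.inl (Fin.last m)) (Sum.inr (Fin.last m)) c))
    (a b : Fin ((m + 1) + (m + 1)))
    (hab : a ≠ Equiv.swap (pE m (Fin.last m)) (pF m (Fin.last m)) b) :
    ((psiO m F r : GL (Fin ((m + 1) + (m + 1))) F) :
      Matrix (Fin ((m + 1) + (m + 1))) (Fin ((m + 1) + (m + 1))) F) a b = 0 := by
  obtain ⟨x, rfl⟩ := (eN m).surjective a
  obtain ⟨y, rfl⟩ := (eN m).surjective b
  rw [psiO_apply, mat_flip r hr, if_neg]
  intro h
  apply hab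
  rw [swap_eN, ← h, Equiv.swap_apply_self]

theorem flip_smul (r : OG m F)
    (hr : ∀ (v : Fin (m + 1) ⊕ Fin (m + 1) → F) (c : Fin (m + 1) ⊕ Fin (m + 1)),
      (mat r *ᵥ v) c = v (Equiv.swap (Sum.inl (Fin.last m)) (Sum.inr (Fin.last m)) c))
    (w : Equiv.Perm (Fin ((m + 1) + (m + 1)))) :
    r • (apt w : Flg ((m + 1) + (m + 1)) F) =
      apt (Equiv.swap (pE m (Fin.last m)) (pF m (Fin.last m)) * w) := by
  rw [o_smul_def, gmono_smul_apt _ _ (psiO_flip_mono r hr)]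

theorem swap_adj_lt {n : ℕ} (p q a b : Fin n) (hpq : (p : ℕ) + 1 = q) (hab : a < b)
    (hsw : Equiv.swap p q b < Equiv.swap p q a) : a = p ∧ b = q := by
  have key : ∀ x : Fin n, ((Equiv.swap p q x : Fin n) : ℕ) =
      if (x : ℕ) = p then (q : ℕ) else if (x : ℕ) = q then (p : ℕ) else x := by
    intro x
    rw [Equiv.swap_apply_def]
    by_cases h1 : x = p
    · rw [if_pos h1, if_pos (by rw [h1])]
    · have h1' : (x : ℕ) ≠ p := fun h => h1 (Fin.ext h)
      rw [if_neg h1, if_neg h1']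
      by_cases h2 : x = q
      · rw [if_pos h2, if_pos (by rw [h2])]
      · have h2' : (x : ℕ) ≠ q := fun h => h2 (Fin.ext h)
        rw [if_neg h2, if_neg h2']
  rw [Fin.lt_def] at hab hsw
  rw [key, key] at hsw
  constructor
  · apply Fin.ext
    split_ifs at hsw <;> omega
  · apply Fin.ext
    split_ifs at hsw <;> omega

theorem flip_node [Fintype F] [Fintype (WSp m)]
    (hrel2 : ∀ g : OG m F, IsUniO g → mat g (Sum.inl (Fin.last m)) (Sum.inr (Fin.last m)) = 0)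
    (r : OG m F)
    (hr : ∀ (v : Fin (m + 1) ⊕ Fin (m + 1) → F) (c : Fin (m + 1) ⊕ Fin (m + 1)),
      (mat r *ᵥ v) c = v (Equiv.swap (Sum.inl (Fin.last m)) (Sum.inr (Fin.last m)) c)) :
    ∀ u : UO m F, trep (OG m F) (Flg ((m + 1) + (m + 1)) F) (r * (u : OG m F))
      (stE (aO m F) (sgO m)) ∈ stV (UO m F) (aO m F) (sgO m) := by
  apply mono_node
  · rw [trep_stE]
    have h1 : ∀ w : WSp m, r • aO m F w = aO m F (sgenW none * w) := fun w => flip_smul r hr w.1
    simp only [h1]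
    unfold stE
    exact Fintype.sum_equiv (Equiv.mulLeft (sgenW none)) _ _
      (fun w => by rw [Equiv.coe_mulLeft, sgO_none])
  · intro u hu
    apply conj_mem_UO _ _ (psiO_flip_mono r hr) u hu
    intro a b hab hba
    obtain ⟨rfl, rfl⟩ := swap_adj_lt _ _ a b pEF_adj hab hba
    rw [← eN_inl, ← eN_inr, psiO_apply]
    exact hrel2 u ((mem_UO_iff_isUniO u).mp hu)

/-! ### Stability under the orthogonal group -/

theorem o_stable [Fintype F] [Fintype (WSp m)]
    (hrel : ∀ g : OG m F, IsUniO g →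
      (∀ k : Fin m, mat g (Sum.inr k.succ) (Sum.inr k.castSucc) =
        - mat g (Sum.inl k.castSucc) (Sum.inl k.succ)) ∧
      mat g (Sum.inl (Fin.last m)) (Sum.inr (Fin.last m)) = 0)
    (r : OG m F)
    (hr : ∀ (v : Fin (m + 1) ⊕ Fin (m + 1) → F) (c : Fin (m + 1) ⊕ Fin (m + 1)),
      (mat r *ᵥ v) c = v (Equiv.swap (Sum.inl (Fin.last m)) (Sum.inr (Fin.last m)) c))
    (hgen : ∀ K : Subgroup (OG m F),
      (∀ g : OG m F, IsUniO g → g ∈ K) →
      (∀ (k : Fin m) (t : F), ∃ g ∈ K, mat g =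
        fromBlocks (transvection k.succ k.castSucc t) 0 0 (transvection k.castSucc k.succ (-t))) →
      (∀ d : Fin (m + 1) → Fˣ, ∃ g ∈ K, mat g =
        fromBlocks (diagonal fun i => (d i : F)) 0 0 (diagonal fun i => (((d i)⁻¹ : Fˣ) : F))) →
      (∃ g ∈ K, ∀ (v : Fin (m + 1) ⊕ Fin (m + 1) → F) (c : Fin (m + 1) ⊕ Fin (m + 1)),
        (mat g *ᵥ v) c = v (Equiv.swap (Sum.inl (Fin.last m)) (Sum.inr (Fin.last m)) c)) →
      K = ⊤) :
    ∀ g : OG m F, ∀ v ∈ stV (UO m F) (aO m F) (sgO m),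
      trep (OG m F) (Flg ((m + 1) + (m + 1)) F) g v ∈ stV (UO m F) (aO m F) (sgO m) := by
  apply stV_stable_of (UO m F) (aO m F) (sgO m)
    ((((UO m F : Subgroup (OG m F)) : Set (OG m F)) ∪ Set.range (nsO : Fin m → OG m F)) ∪
      Set.range (dO : (Fin (m + 1) → Fˣ) → OG m F) ∪ {r})
  · apply hgen
    · intro g hg
      exact Subgroup.subset_closure (Or.inl (Or.inl (Or.inl ((mem_UO_iff_isUniO g).mpr hg))))
    · intro k t
      refine ⟨xdO k.succ k.castSucc (cs_ne k).symm t, ?_, by rw [mat_xdO, xd_val]⟩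
      have e : (xdO k.succ k.castSucc (cs_ne k).symm t : OG m F) =
          nsO k * xdO k.castSucc k.succ (cs_ne k) (-t) * (nsO k)⁻¹ := by
        rw [eq_mul_inv_iff_mul_eq]
        apply mat_injective
        rw [mat_mul, mat_mul, mat_xdO, mat_xdO, mat_nsO]
        have h := ns_conj (F := F) k t
        rw [mul_inv_eq_iff_eq_mul] at h
        exact (congrArg Subtype.val h).symm
      rw [e]
      refine Subgroup.mul_mem _ (Subgroup.mul_mem _ ?_ ?_) (Subgroup.inv_mem _ ?_)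
      · exact Subgroup.subset_closure (Or.inl (Or.inl (Or.inr ⟨k, rfl⟩)))
      · exact Subgroup.subset_closure (Or.inl (Or.inl (Or.inl
          (xdO_mem_UO _ _ Fin.castSucc_lt_succ _))))
      · exact Subgroup.subset_closure (Or.inl (Or.inl (Or.inr ⟨k, rfl⟩)))
    · intro d
      exact ⟨dO d, Subgroup.subset_closure (Or.inl (Or.inr ⟨d, rfl⟩)), mat_dO d⟩
    · exact ⟨r, Subgroup.subset_closure (Or.inr rfl), hr⟩
  · rintro g (((hg | ⟨k, rfl⟩) | ⟨d, rfl⟩) | rfl) u
    · exact trep_mem_stV _ _ _ _ ((UO m F).mul_mem hg u.2)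
    · exact short_node (fun g hg => (hrel g hg).1) k u
    · exact torus_node d u
    · exact flip_node (fun g hg => (hrel g hg).2) g hr u

end Cfsg.Agent.H78.StO
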