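import Cfsg.Agent.H78.StO2
import Cfsg.Prelude.Def_Characters

/-!
# Steinberg character of `PΩ⁺_{2(m+1)}(q)`: assembly (helper78)
-/

set_option autoImplicit false

namespace Cfsg.Agent.H78.StO

open Matrix Cfsg.Agent.H50.AutPSL Cfsg.Agent.H78.StSL Cfsg.Agent.H78.StSp Cfsg.Agent.H78.StM

open scoped commutatorElement

variable {m : ℕ} {F : Type*} [Field F]

/-- The chamber of the big cell: opposite to the base chamber up to the flip. -/
noncomputable def w1 (m : ℕ) : Equiv.Perm (Fin ((m + 1) + (m + 1))) :=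
  if Even (m + 1) then Fin.revPerm
  else Equiv.swap (pE m (Fin.last m)) (pF m (Fin.last m)) * Fin.revPerm

theorem w1_mem (m : ℕ) : w1 m ∈ WSp m := by
  unfold w1
  split_ifs
  · exact Cfsg.Agent.H92.StSp.revPerm_mem_wsp m
  · exact (WSp m).mul_mem (Subgroup.subset_closure ⟨none, rfl⟩)
      (Cfsg.Agent.H92.StSp.revPerm_mem_wsp m)

/-- The big cell. -/
theorem big_cell_O [Fintype F]
    (hrel2 : ∀ g : OG m F, IsUniO g → mat g (Sum.inl (Fin.last m)) (Sum.inr (Fin.last m)) = 0)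
    (v : OG m F) (hv : v ∈ UO m F) (w : Equiv.Perm (Fin ((m + 1) + (m + 1))))
    (h : v • (apt (w1 m) : Flg ((m + 1) + (m + 1)) F) = apt w) : v = 1 ∧ w = w1 m := by
  obtain ⟨s, hs, hsu⟩ := hv
  rw [o_smul_of_sl v s hsu] at h
  have hv1 : s = 1 → v = 1 := by
    intro h1
    apply psiO_injective
    rw [← hsu, h1, map_one, map_one]
  unfold w1 at h ⊢
  split_ifs at h ⊢ with he
  · obtain ⟨h1, h2⟩ := big_cell s hs w h
    exact ⟨hv1 h1, h2⟩
  · have hqp : pF m (Fin.last m) ≠ pE m (Fin.last m) := (pE_ne_pF _ _).symm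
    obtain ⟨n', hn'⟩ : ∃ n' : SpecialLinearGroup (Fin ((m + 1) + (m + 1))) F,
      n' = nE (pF m (Fin.last m)) (pE m (Fin.last m)) hqp := ⟨_, rfl⟩
    have hsw : Equiv.swap (pE m (Fin.last m)) (pF m (Fin.last m)) =
        Equiv.swap (pF m (Fin.last m)) (pE m (Fin.last m)) := Equiv.swap_comm _ _
    have e1 : (apt (Equiv.swap (pE m (Fin.last m)) (pF m (Fin.last m)) * Fin.revPerm) :
        Flg ((m + 1) + (m + 1)) F) = n'⁻¹ • apt Fin.revPerm := by
      rw [hn', nE_inv_smul_apt, hsw]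
    rw [e1, ← mul_smul] at h
    have h' : (n' * s * n'⁻¹) • (apt Fin.revPerm : Flg ((m + 1) + (m + 1)) F) =
        apt (Equiv.swap (pF m (Fin.last m)) (pE m (Fin.last m)) * w) := by
      rw [mul_assoc, mul_smul, h, hn', nE_smul_apt]
    have h0 : s.1 (pE m (Fin.last m)) (pF m (Fin.last m)) = 0 := by
      have e : s.1 = ((psiO m F v : GL (Fin ((m + 1) + (m + 1))) F) :
          Matrix (Fin ((m + 1) + (m + 1))) (Fin ((m + 1) + (m + 1))) F) := by
        rw [← hsu]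
        rfl
      rw [e, ← eN_inl, ← eN_inr, psiO_apply]
      exact hrel2 v ((mem_UO_iff_isUniO v).mp ⟨s, hs, hsu⟩)
    have hUT : n' * s * n'⁻¹ ∈ Uni ((m + 1) + (m + 1)) F := by
      rw [hn']
      exact isUT_conj_rev (pF m (Fin.last m)) (pE m (Fin.last m)) pEF_adj hqp s.1 hs h0
    obtain ⟨h1, h2⟩ := big_cell (n' * s * n'⁻¹) hUT _ h'
    refine ⟨hv1 (conj_eq_one_iff.mp h1), ?_⟩
    rw [← h2, ← mul_assoc, hsw, Equiv.swap_mul_self, one_mul]

/-- A lift of the big-cell chamber in `Ω`. -/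
theorem exists_lift (r : OG m F)
    (hr : ∀ (v : Fin (m + 1) ⊕ Fin (m + 1) → F) (c : Fin (m + 1) ⊕ Fin (m + 1)),
      (mat r *ᵥ v) c = v (Equiv.swap (Sum.inl (Fin.last m)) (Sum.inr (Fin.last m)) c))
    (hlong : ∀ L : Subgroup (Equiv.Perm (Fin ((m + 1) + (m + 1)))),
      (∀ x ∈ WSp m, ∀ y ∈ WSp m, x * y * x⁻¹ * y⁻¹ ∈ L) → w1 m ∈ L) :
    ∃ g : OG m F, g ∈ Cfsg.Omega F (Cfsg.quadFormPlus (m + 1) F) ∧
      g • (apt 1 : Flg ((m + 1) + (m + 1)) F) = apt (w1 m) := by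
  have hO : ∀ x ∈ WSp m, ∃ g : OG m F, ∀ w : Equiv.Perm (Fin ((m + 1) + (m + 1))),
      g • (apt w : Flg ((m + 1) + (m + 1)) F) = apt (x * w) := by
    intro x hx
    refine Subgroup.closure_induction (p := fun x _ => ∃ g : OG m F,
      ∀ w : Equiv.Perm (Fin ((m + 1) + (m + 1))),
        g • (apt w : Flg ((m + 1) + (m + 1)) F) = apt (x * w)) ?_ ?_ ?_ ?_ hx
    · rintro _ ⟨o, rfl⟩
      cases o with
      | none => exact ⟨r, fun w => flip_smul r hr w⟩
      | some k =>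
        refine ⟨nsO k, fun w => ?_⟩
        rw [o_smul_of_sl _ _ (psiO_nsO k).symm]
        exact psi_nn_smul (some k) w
    · exact ⟨1, fun w => by rw [one_smul, one_mul]⟩
    · rintro x y _ _ ⟨g, hg⟩ ⟨h, hh⟩
      exact ⟨g * h, fun w => by rw [mul_smul, hh, hg, mul_assoc]⟩
    · rintro x _ ⟨g, hg⟩
      refine ⟨g⁻¹, fun w => ?_⟩
      rw [inv_smul_eq_iff, hg, ← mul_assoc, mul_inv_cancel, one_mul]
  obtain ⟨L, hL⟩ : ∃ L : Subgroup (Equiv.Perm (Fin ((m + 1) + (m + 1)))), ∀ x, x ∈ L ↔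
      ∃ g : OG m F, g ∈ Cfsg.Omega F (Cfsg.quadFormPlus (m + 1) F) ∧
        ∀ w : Equiv.Perm (Fin ((m + 1) + (m + 1))),
          g • (apt w : Flg ((m + 1) + (m + 1)) F) = apt (x * w) :=
    ⟨{ carrier := {x | ∃ g : OG m F, g ∈ Cfsg.Omega F (Cfsg.quadFormPlus (m + 1) F) ∧
          ∀ w : Equiv.Perm (Fin ((m + 1) + (m + 1))),
            g • (apt w : Flg ((m + 1) + (m + 1)) F) = apt (x * w)}
       one_mem' := ⟨1, Subgroup.one_mem _, fun w => by rw [one_smul, one_mul]⟩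
       mul_mem' := by
        rintro x y ⟨g, hg1, hg⟩ ⟨h, hh1, hh⟩
        exact ⟨g * h, Subgroup.mul_mem _ hg1 hh1, fun w => by rw [mul_smul, hh, hg, mul_assoc]⟩
       inv_mem' := by
        rintro x ⟨g, hg1, hg⟩
        exact ⟨g⁻¹, Subgroup.inv_mem _ hg1, fun w => by
          rw [inv_smul_eq_iff, hg, ← mul_assoc, mul_inv_cancel, one_mul]⟩ }, fun x => Iff.rfl⟩
  have hw1 : w1 m ∈ L := by
    apply hlong
    intro x hx y hy
    obtain ⟨g, hg⟩ := hO x hx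
    obtain ⟨h, hh⟩ := hO y hy
    rw [hL]
    refine ⟨g * h * g⁻¹ * h⁻¹, ?_, fun w => ?_⟩
    · have e : g * h * g⁻¹ * h⁻¹ = ⁅g, h⁆ := (commutatorElement_def g h).symm
      rw [e]
      exact Subgroup.commutator_mem_commutator (Subgroup.mem_top g) (Subgroup.mem_top h)
    · have hgi : ∀ w : Equiv.Perm (Fin ((m + 1) + (m + 1))),
          g⁻¹ • (apt w : Flg ((m + 1) + (m + 1)) F) = apt (x⁻¹ * w) := fun w => by
        rw [inv_smul_eq_iff, hg, ← mul_assoc, mul_inv_cancel, one_mul]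
      have hhi : ∀ w : Equiv.Perm (Fin ((m + 1) + (m + 1))),
          h⁻¹ • (apt w : Flg ((m + 1) + (m + 1)) F) = apt (y⁻¹ * w) := fun w => by
        rw [inv_smul_eq_iff, hh, ← mul_assoc, mul_inv_cancel, one_mul]
      rw [mul_smul, mul_smul, mul_smul, hhi, hgi, hh, hg]
      simp only [mul_assoc]
  obtain ⟨g, hg1, hg⟩ := (hL _).mp hw1
  exact ⟨g, hg1, by rw [hg, mul_one]⟩

/-- The linear action of a subgroup is the restriction. -/
theorem trep_sub {G : Type*} [Group G] (X : Type*) [MulAction G X] (H : Subgroup G) (h : H) :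
    trep H X h = trep G X (h : G) :=
  LinearMap.ext fun _ => funext fun _ => rfl

theorem om_stV_eq [Fintype F] [Fintype (WSp m)] (Om : Subgroup (OG m F)) (hle : UO m F ≤ Om) :
    stV ((UO m F).subgroupOf Om) (aO m F) (sgO m) = stV (UO m F) (aO m F) (sgO m) := by
  unfold stV
  congr 1
  ext f
  constructor
  · rintro ⟨u, rfl⟩
    refine ⟨⟨((u : Om) : OG m F), u.2⟩, ?_⟩
    show trep (OG m F) (Flg ((m + 1) + (m + 1)) F) ((u : Om) : OG m F) (stE (aO m F) (sgO m)) =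
      trep Om (Flg ((m + 1) + (m + 1)) F) (u : Om) (stE (aO m F) (sgO m))
    rw [trep_sub]
  · rintro ⟨u, rfl⟩
    refine ⟨⟨⟨(u : OG m F), hle u.2⟩, u.2⟩, ?_⟩
    show trep Om (Flg ((m + 1) + (m + 1)) F) ⟨(u : OG m F), hle u.2⟩ (stE (aO m F) (sgO m)) =
      trep (OG m F) (Flg ((m + 1) + (m + 1)) F) (u : OG m F) (stE (aO m F) (sgO m))
    rw [trep_sub]

/-- Central elements of `Ω` fix the apartment. -/
theorem center_fix
    (hcen : ∀ z : Matrix (Fin (m + 1) ⊕ Fin (m + 1)) (Fin (m + 1) ⊕ Fin (m + 1)) F,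
      (∀ i j : Fin (m + 1), i ≠ j → ∀ t : F,
        z * fromBlocks (transvection i j t) 0 0 (transvection j i (-t)) =
          fromBlocks (transvection i j t) 0 0 (transvection j i (-t)) * z) →
      (∀ S : Matrix (Fin (m + 1)) (Fin (m + 1)) F, IsAlt S →
        z * fromBlocks 1 S 0 1 = fromBlocks 1 S 0 1 * z) →
      (∀ S : Matrix (Fin (m + 1)) (Fin (m + 1)) F, IsAlt S →
        z * fromBlocks 1 0 S 1 = fromBlocks 1 0 S 1 * z) →
      ∀ a b, a ≠ b → z a b = 0)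
    (hroot : ∀ g : OG m F,
      ((∃ (i j : Fin (m + 1)) (t : F), i ≠ j ∧
          mat g = fromBlocks (transvection i j t) 0 0 (transvection j i (-t))) ∨
        (∃ S : Matrix (Fin (m + 1)) (Fin (m + 1)) F, IsAlt S ∧ mat g = fromBlocks 1 S 0 1) ∨
        (∃ S : Matrix (Fin (m + 1)) (Fin (m + 1)) F, IsAlt S ∧ mat g = fromBlocks 1 0 S 1)) →
      g ∈ Cfsg.Omega F (Cfsg.quadFormPlus (m + 1) F))
    (hup : ∀ S : Matrix (Fin (m + 1)) (Fin (m + 1)) F, IsAlt S →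
      ∃ g : OG m F, mat g = fromBlocks 1 S 0 1)
    (hlow : ∀ S : Matrix (Fin (m + 1)) (Fin (m + 1)) F, IsAlt S →
      ∃ g : OG m F, mat g = fromBlocks 1 0 S 1)
    (z : ↥(Cfsg.Omega F (Cfsg.quadFormPlus (m + 1) F)))
    (hz : z ∈ Subgroup.center ↥(Cfsg.Omega F (Cfsg.quadFormPlus (m + 1) F)))
    (w : Equiv.Perm (Fin ((m + 1) + (m + 1)))) :
    z • (apt w : Flg ((m + 1) + (m + 1)) F) = apt w := by
  have hcomm : ∀ g : OG m F, g ∈ Cfsg.Omega F (Cfsg.quadFormPlus (m + 1) F) →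
      mat (z : OG m F) * mat g = mat g * mat (z : OG m F) := by
    intro g hg
    have h1 := Subgroup.mem_center_iff.mp hz ⟨g, hg⟩
    have h2 := congrArg (fun x : ↥(Cfsg.Omega F (Cfsg.quadFormPlus (m + 1) F)) =>
      mat (x : OG m F)) h1
    exact h2.symm
  have hdiag : ∀ a b, a ≠ b → mat (z : OG m F) a b = 0 := by
    apply hcen
    · intro i j hij t
      have h := hcomm (xdO i j hij t) (hroot _ (Or.inl ⟨i, j, t, hij, by rw [mat_xdO, xd_val]⟩))
      rwa [mat_xdO, xd_val] at h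
    · intro S hS
      obtain ⟨g, hg⟩ := hup S hS
      have h := hcomm g (hroot g (Or.inr (Or.inl ⟨S, hS, hg⟩)))
      rwa [hg] at h
    · intro S hS
      obtain ⟨g, hg⟩ := hlow S hS
      have h := hcomm g (hroot g (Or.inr (Or.inr ⟨S, hS, hg⟩)))
      rwa [hg] at h
  have hmono : ∀ a b, a ≠ (1 : Equiv.Perm (Fin ((m + 1) + (m + 1)))) b →
      ((psiO m F (z : OG m F) : GL (Fin ((m + 1) + (m + 1))) F) :
        Matrix (Fin ((m + 1) + (m + 1))) (Fin ((m + 1) + (m + 1))) F) a b = 0 := by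
    intro a b hab
    obtain ⟨x, rfl⟩ := (eN m).surjective a
    obtain ⟨y, rfl⟩ := (eN m).surjective b
    rw [psiO_apply]
    exact hdiag x y (fun h => hab (by rw [h]; rfl))
  show (z : OG m F) • (apt w : Flg ((m + 1) + (m + 1)) F) = apt w
  rw [o_smul_def, gmono_smul_apt 1 _ hmono, one_mul]

/-- The Steinberg character of `PΩ⁺_{2(m+1)}(F)`, from the generation, membership, relation,
centre, Sylow and Weyl group inputs. -/
theorem oplus_steinberg_of [Fintype F] (p : ℕ) [Fact p.Prime] [CharP F p] (m : ℕ)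
    (hrel : ∀ g : OG m F, IsUniO g →
      (∀ k : Fin m, mat g (Sum.inr k.succ) (Sum.inr k.castSucc) =
        - mat g (Sum.inl k.castSucc) (Sum.inl k.succ)) ∧
      mat g (Sum.inl (Fin.last m)) (Sum.inr (Fin.last m)) = 0)
    (hflip : ∃ r : OG m F, ∀ (v : Fin (m + 1) ⊕ Fin (m + 1) → F) (c : Fin (m + 1) ⊕ Fin (m + 1)),
      (mat r *ᵥ v) c = v (Equiv.swap (Sum.inl (Fin.last m)) (Sum.inr (Fin.last m)) c))
    (hgen : ∀ K : Subgroup (OG m F),
      (∀ g : OG m F, IsUniO g → g ∈ K) →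
      (∀ (k : Fin m) (t : F), ∃ g ∈ K, mat g =
        fromBlocks (transvection k.succ k.castSucc t) 0 0 (transvection k.castSucc k.succ (-t))) →
      (∀ d : Fin (m + 1) → Fˣ, ∃ g ∈ K, mat g =
        fromBlocks (diagonal fun i => (d i : F)) 0 0 (diagonal fun i => (((d i)⁻¹ : Fˣ) : F))) →
      (∃ g ∈ K, ∀ (v : Fin (m + 1) ⊕ Fin (m + 1) → F) (c : Fin (m + 1) ⊕ Fin (m + 1)),
        (mat g *ᵥ v) c = v (Equiv.swap (Sum.inl (Fin.last m)) (Sum.inr (Fin.last m)) c)) →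
      K = ⊤)
    (huni : ∀ g : OG m F, IsUniO g → g ∈ Cfsg.Omega F (Cfsg.quadFormPlus (m + 1) F))
    (hroot : ∀ g : OG m F,
      ((∃ (i j : Fin (m + 1)) (t : F), i ≠ j ∧
          mat g = fromBlocks (transvection i j t) 0 0 (transvection j i (-t))) ∨
        (∃ S : Matrix (Fin (m + 1)) (Fin (m + 1)) F, IsAlt S ∧ mat g = fromBlocks 1 S 0 1) ∨
        (∃ S : Matrix (Fin (m + 1)) (Fin (m + 1)) F, IsAlt S ∧ mat g = fromBlocks 1 0 S 1)) →
      g ∈ Cfsg.Omega F (Cfsg.quadFormPlus (m + 1) F))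
    (hup : ∀ S : Matrix (Fin (m + 1)) (Fin (m + 1)) F, IsAlt S →
      ∃ g : OG m F, mat g = fromBlocks 1 S 0 1)
    (hlow : ∀ S : Matrix (Fin (m + 1)) (Fin (m + 1)) F, IsAlt S →
      ∃ g : OG m F, mat g = fromBlocks 1 0 S 1)
    (hcen : ∀ z : Matrix (Fin (m + 1) ⊕ Fin (m + 1)) (Fin (m + 1) ⊕ Fin (m + 1)) F,
      (∀ i j : Fin (m + 1), i ≠ j → ∀ t : F,
        z * fromBlocks (transvection i j t) 0 0 (transvection j i (-t)) =
          fromBlocks (transvection i j t) 0 0 (transvection j i (-t)) * z) →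
      (∀ S : Matrix (Fin (m + 1)) (Fin (m + 1)) F, IsAlt S →
        z * fromBlocks 1 S 0 1 = fromBlocks 1 S 0 1 * z) →
      (∀ S : Matrix (Fin (m + 1)) (Fin (m + 1)) F, IsAlt S →
        z * fromBlocks 1 0 S 1 = fromBlocks 1 0 S 1 * z) →
      ∀ a b, a ≠ b → z a b = 0)
    (hcard : ∀ U' : Subgroup (OG m F), (∀ g : OG m F, IsUniO g → g ∈ U') →
      Fintype.card F ^ ((m + 1) * m) ≤ Nat.card U')
    (hsyl : ∀ U' : Subgroup ↥(Cfsg.Omega F (Cfsg.quadFormPlus (m + 1) F)), IsPGroup p U' →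
      Fintype.card F ^ ((m + 1) * m) ≤ Nat.card U' → ¬ p ∣ U'.index)
    (hlong : ∀ L : Subgroup (Equiv.Perm (Fin ((m + 1) + (m + 1)))),
      (∀ x ∈ WSp m, ∀ y ∈ WSp m, x * y * x⁻¹ * y⁻¹ ∈ L) →
      (if Even (m + 1) then (Fin.revPerm : Equiv.Perm (Fin ((m + 1) + (m + 1))))
        else Equiv.swap (pE m (Fin.last m)) (pF m (Fin.last m)) * Fin.revPerm) ∈ L) :
    ∃ χ : Cfsg.POmega F (Cfsg.quadFormPlus (m + 1) F) → ℂ,
      Cfsg.IsIrrCharacter (Cfsg.POmega F (Cfsg.quadFormPlus (m + 1) F)) χ ∧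
      ∀ P : Sylow p (Cfsg.POmega F (Cfsg.quadFormPlus (m + 1) F)), χ 1 = Nat.card P ∧
        ∀ x : Cfsg.POmega F (Cfsg.quadFormPlus (m + 1) F), x ∈ P → x ≠ 1 → χ x = 0 := by
  classical
  let _ : Fintype (WSp m) := Fintype.ofFinite _
  obtain ⟨r, hr⟩ := hflip
  obtain ⟨f, hp, hF⟩ := FiniteField.card F p
  have hle : UO m F ≤ Cfsg.Omega F (Cfsg.quadFormPlus (m + 1) F) :=
    fun g hg => huni g ((mem_UO_iff_isUniO g).mp hg)
  have hUpO : IsPGroup p (UO m F) :=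
    ((IsPGroup.of_card (n := f * ∑ j : Fin ((m + 1) + (m + 1)), (j : ℕ))
      (by rw [card_Uni, hF, pow_mul])).map _).comap_of_injective (psiO m F) psiO_injective
  have hUp : IsPGroup p ((UO m F).subgroupOf (Cfsg.Omega F (Cfsg.quadFormPlus (m + 1) F))) :=
    hUpO.comap_of_injective _ (Subgroup.subtype_injective _)
  have hUi : ¬ p ∣ ((UO m F).subgroupOf (Cfsg.Omega F (Cfsg.quadFormPlus (m + 1) F))).index := by
    apply hsyl _ hUp
    rw [Nat.card_congr (Subgroup.subgroupOfEquivOfLe hle).toEquiv]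
    exact hcard (UO m F) (fun g hg => (mem_UO_iff_isUniO g).mpr hg)
  have hstO := o_stable hrel r hr hgen
  refine steinberg_quot' p ((UO m F).subgroupOf (Cfsg.Omega F (Cfsg.quadFormPlus (m + 1) F)))
    (aO m F) (sgO m) (apt 1) ?_ ⟨w1 m, w1_mem m⟩ ?_ ?_ ?_ ?_ hUp hUi (Subgroup.center _) ?_
  · -- U fixes the base chamber
    intro u hu
    obtain ⟨s, hs, hsu⟩ := hu
    exact (o_smul_of_sl (u : OG m F) s hsu _).trans (uni_smul_apt_one s hs)
  · -- sign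
    show (((epsO m ⟨w1 m, w1_mem m⟩ : ℤˣ) : ℤ) : ℂ) ≠ 0
    rcases Int.units_eq_one_or (epsO m ⟨w1 m, w1_mem m⟩) with h | h <;> simp [h]
  · -- big cell
    intro v hv w h
    obtain ⟨h1, h2⟩ := big_cell_O (fun g hg => (hrel g hg).2) (v : OG m F) hv w.1 h
    exact ⟨Subtype.ext h1, Subtype.ext h2⟩
  · -- orbit of the big cell chamber
    obtain ⟨g, hg1, hg⟩ := exists_lift r hr hlong
    exact ⟨⟨g, hg1⟩, hg⟩
  · -- stability
    intro g v hv
    rw [om_stV_eq _ hle] at hv ⊢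
    rw [trep_sub]
    exact hstO (g : OG m F) v hv
  · -- centre
    intro z hz
    exact ⟨fun u _ => (Subgroup.mem_center_iff.mp hz u).symm,
      fun w => center_fix hcen hroot hup hlow z hz w.1⟩

end Cfsg.Agent.H78.StO
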