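import Cfsg.Agent.H78.StSL1
import Cfsg.Agent.H50.AutPSLSylow
import Cfsg.Agent.H45.SLGen

/-!
# Steinberg module for `SL_n`: unitriangular group, generation, big cell (helper78)
-/

set_option autoImplicit false

namespace Cfsg.Agent.H78.StSL

open Matrix Cfsg.Agent.H50.AutPSL

variable {n : ℕ} {F : Type*} [Field F]

local notation "SLn" => SpecialLinearGroup (Fin n) F

theorem isUT_transvection (i j : Fin n) (hij : i < j) (t : F) : IsUT (transvection i j t) := by
  constructor
  · intro a b hba
    unfold transvection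
    rw [Matrix.add_apply, Matrix.one_apply_ne (ne_of_gt hba), zero_add, Matrix.single_apply,
      if_neg]
    rintro ⟨rfl, rfl⟩
    exact absurd hba (not_lt.mpr hij.le)
  · intro a
    unfold transvection
    rw [Matrix.add_apply, Matrix.one_apply_eq, Matrix.single_apply, if_neg, add_zero]
    rintro ⟨rfl, rfl⟩
    exact lt_irrefl _ hij

theorem isUT_mulVec {M : Matrix (Fin n) (Fin n) F} (hM : IsUT M) (v : Fin n → F) (k : Fin n)
    (hv : ∀ c, k < c → v c = 0) : ∀ c, k < c → (M *ᵥ v) c = 0 := by
  intro c hc
  show ∑ d, M c d * v d = 0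
  apply Finset.sum_eq_zero
  intro d _
  by_cases hd : d < c
  · rw [hM.1 c d hd, zero_mul]
  · rw [hv d (lt_of_lt_of_le hc (not_lt.mp hd)), mul_zero]

/-- The unitriangular group fixes the standard flag. -/
theorem uni_smul_apt_one [Fintype F] (u : SLn) (hu : u ∈ Uni n F) :
    u • (apt 1 : Flg n F) = apt 1 := by
  apply Flg.ext'
  intro k v
  rw [mem_smul, mem_apt, mem_apt]
  show (∀ c, k < c → _) ↔ (∀ c, k < c → _)
  constructor
  · intro h c hc
    have h1 : v = u.1 *ᵥ ((u⁻¹).1 *ᵥ v) := by
      rw [mulVec_mulVec]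
      show v = (u * u⁻¹).1 *ᵥ v
      rw [mul_inv_cancel]
      show v = (1 : Matrix (Fin n) (Fin n) F) *ᵥ v
      rw [one_mulVec]
    rw [h1]
    exact isUT_mulVec hu _ k h c hc
  · intro h c hc
    exact isUT_mulVec (show IsUT (u⁻¹).1 from (Uni n F).inv_mem hu) v k h c hc

theorem nE_mul_apply (i j : Fin n) (hij : i ≠ j) (M : Matrix (Fin n) (Fin n) F) (a b : Fin n) :
    ((nE i j hij : SLn).1 * M) a b =
      if a = i then M j b else if a = j then - M i b else M a b := by
  have h : ((nE i j hij : SLn).1 * M) a b = ((nE i j hij : SLn).1 *ᵥ (fun c => M c b)) a := rfl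
  rw [h, nE_mulVec]

theorem mul_nE_inv_apply (i j : Fin n) (hij : i ≠ j) (M : Matrix (Fin n) (Fin n) F)
    (a b : Fin n) :
    (M * ((nE i j hij : SLn)⁻¹).1) a b =
      if b = j then - M a i else if b = i then M a j else M a b := by
  rw [nE_inv]
  show (M * (transvection i j (-1) * transvection j i 1 * transvection i j (-1) :
    Matrix (Fin n) (Fin n) F)) a b = _
  rw [← Matrix.mul_assoc, ← Matrix.mul_assoc]
  simp only [Cfsg.Agent.H45.mul_transvection_apply']
  by_cases h1 : b = j
  · subst h1
    simp [hij]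
    rw [if_neg hij.symm]
    ring
  · by_cases h2 : b = i
    · subst h2
      simp [hij]
    · simp [h1, h2]

theorem conj_nE_apply (i j : Fin n) (hij : i ≠ j) (M : Matrix (Fin n) (Fin n) F)
    (a b : Fin n) :
    ((nE i j hij : SLn).1 * M * ((nE i j hij : SLn)⁻¹).1) a b =
      if b = j then - (if a = i then M j i else if a = j then - M i i else M a i)
      else if b = i then (if a = i then M j j else if a = j then - M i j else M a j)
      else (if a = i then M j b else if a = j then - M i b else M a b) := by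
  rw [mul_nE_inv_apply]
  simp only [nE_mul_apply]

/-- Conjugation by the monomial element keeps unitriangular matrices with vanishing `(i, j)`
entry unitriangular, for adjacent `i, j`. -/
theorem isUT_conj (i j : Fin n) (hadj : (i : ℕ) + 1 = j) (hij : i ≠ j)
    (M : Matrix (Fin n) (Fin n) F) (hM : IsUT M) (h0 : M i j = 0) :
    IsUT ((nE i j hij : SLn).1 * M * ((nE i j hij : SLn)⁻¹).1) := by
  have key : ∀ x y : Fin n, (y : ℕ) < x → M x y = 0 := fun x y h => hM.1 x y h
  constructor
  · intro a b hba
    rw [conj_nE_apply]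
    split_ifs with h1 h2 h3 h4 h5 h6 h7 h8
    all_goals first
      | (rw [h0]; simp)
      | (simp only [Fin.lt_def, Fin.ext_iff] at *; simp (disch := omega) only [key, neg_zero])
  · intro a
    rw [conj_nE_apply]
    split_ifs with h1 h2 h3
    all_goals first
      | (simp [hM.2])
      | (exfalso; simp only [Fin.ext_iff] at *; omega)

/-- The factorisation condition for a simple root. -/
theorem factor [Fintype F] (i j : Fin n) (hadj : (i : ℕ) + 1 = j) (hij : i ≠ j) (u : SLn)
    (hu : u ∈ Uni n F) :
    ∃ u' ∈ Uni n F, ∃ x ∈ Set.range (xE i j hij : F → SLn), u = u' * x ∧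
      nE i j hij * u' * (nE i j hij)⁻¹ ∈ Uni n F := by
  have hlt : i < j := by rw [Fin.lt_def]; omega
  have hx : ∀ t : F, xE i j hij t ∈ Uni n F := fun t => isUT_transvection i j hlt t
  refine ⟨u * (xE i j hij (u.1 i j))⁻¹, (Uni n F).mul_mem hu ((Uni n F).inv_mem (hx _)),
    xE i j hij (u.1 i j), ⟨_, rfl⟩, by rw [inv_mul_cancel_right], ?_⟩
  have hu' : IsUT (u * (xE i j hij (u.1 i j))⁻¹).1 :=
    (Uni n F).mul_mem hu ((Uni n F).inv_mem (hx _))
  have h0 : (u * (xE i j hij (u.1 i j))⁻¹).1 i j = 0 := by
    rw [xE_inv]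
    show (u.1 * transvection i j (-(u.1 i j))) i j = 0
    rw [mul_transvection_apply_same, hu.2 i]
    ring
  exact isUT_conj i j hadj hij _ hu' h0

/-- Lower simple root elements are conjugates of upper ones. -/
theorem conj_xE (i j : Fin n) (hij : i ≠ j) (c : F) :
    nE i j hij * xE i j hij (-c) * (nE i j hij)⁻¹ = xE j i hij.symm c := by
  apply Subtype.ext
  show (nE i j hij : SLn).1 * transvection i j (-c) * ((nE i j hij : SLn)⁻¹).1 = transvection j i c
  ext a b
  rw [conj_nE_apply]
  simp only [transvection, Matrix.add_apply, Matrix.one_apply, Matrix.single_apply]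
  by_cases ha : a = i
  · subst ha
    by_cases hb : b = a
    · subst hb
      simp [hij, hij.symm]
    · by_cases hb' : b = j
      · subst hb'
        simp [hij, hij.symm]
      · simp [hij, hij.symm, hb, hb', Ne.symm hb, Ne.symm hb']
  · by_cases ha' : a = j
    · subst ha'
      by_cases hb : b = i
      · subst hb
        simp [hij, hij.symm]
      · by_cases hb' : b = a
        · subst hb'
          simp [hij, hij.symm]
        · simp [hij.symm, hb, hb', Ne.symm hb, Ne.symm hb']
    · by_cases hb : b = i
      · subst hb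
        simp [ha, ha', Ne.symm ha, Ne.symm ha', hij]
      · by_cases hb' : b = j
        · subst hb'
          simp [ha, ha', Ne.symm ha, Ne.symm ha', hij, hij.symm]
        · simp [ha, ha', hb, hb', Ne.symm ha, Ne.symm ha', Ne.symm hb, Ne.symm hb']

end Cfsg.Agent.H78.StSL
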