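import Cfsg.Agent.H78.StSL2

/-!
# Steinberg module for `SL_n`: generation, big cell, orbit, centre (helper78)
-/

set_option autoImplicit false

namespace Cfsg.Agent.H78.StSL

open Matrix Cfsg.Agent.H50.AutPSL

variable {m : ℕ} {F : Type*} [Field F]

local notation "SLm" => SpecialLinearGroup (Fin (m + 1)) F

theorem cs_ne (k : Fin m) : k.castSucc ≠ k.succ := ne_of_lt Fin.castSucc_lt_succ

theorem cs_adj (k : Fin m) : (k.castSucc : ℕ) + 1 = k.succ := by simp

/-- Monomial lifts of the simple reflections. -/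
noncomputable def nS (k : Fin m) : SLm := nE k.castSucc k.succ (cs_ne k)

/-- `SL_n` is generated by the unitriangular group and the simple monomial elements. -/
theorem gen_top [Fintype F] :
    Subgroup.closure (((Uni (m + 1) F : Subgroup SLm) : Set SLm) ∪
      Set.range (nS : Fin m → SLm)) = ⊤ := by
  obtain ⟨K, hK⟩ : ∃ K : Subgroup SLm, K = Subgroup.closure
      (((Uni (m + 1) F : Subgroup SLm) : Set SLm) ∪ Set.range nS) := ⟨_, rfl⟩
  rw [← hK]
  have hU : ∀ g ∈ Uni (m + 1) F, g ∈ K := fun g hg => by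
    rw [hK]; exact Subgroup.subset_closure (Or.inl hg)
  have hn : ∀ k, (nS k : SLm) ∈ K := fun k => by
    rw [hK]; exact Subgroup.subset_closure (Or.inr ⟨k, rfl⟩)
  have hup : ∀ (a b : Fin (m + 1)) (hab : a ≠ b), a < b → ∀ c : F, xE a b hab c ∈ K :=
    fun a b hab hlt c => hU _ (isUT_transvection a b hlt c)
  have hlow1 : ∀ (k : Fin m) (c : F), xE k.succ k.castSucc (cs_ne k).symm c ∈ K := by
    intro k c
    rw [← conj_xE k.castSucc k.succ (cs_ne k) c]
    exact K.mul_mem (K.mul_mem (hn k) (hup _ _ _ Fin.castSucc_lt_succ _)) (K.inv_mem (hn k))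
  have hbase : ∀ (a b : Fin (m + 1)) (hab : a ≠ b), (b : ℕ) + 1 = a → ∀ c : F,
      xE a b hab c ∈ K := by
    intro a b hab hd c
    obtain ⟨k, hk1, hk2⟩ : ∃ k : Fin m, k.castSucc = b ∧ k.succ = a :=
      ⟨⟨b, by have := a.isLt; omega⟩, Fin.ext rfl, Fin.ext (by simp; omega)⟩
    subst hk1
    subst hk2
    exact hlow1 k c
  have hlow : ∀ d : ℕ, ∀ (a b : Fin (m + 1)) (hab : a ≠ b), (b : ℕ) + d + 1 = a → ∀ c : F,
      xE a b hab c ∈ K := by
    intro d
    induction d with
    | zero =>
      intro a b hab hd c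
      exact hbase a b hab (by omega) c
    | succ d ih =>
      intro a b hab hd c
      obtain ⟨e, he⟩ : ∃ e : Fin (m + 1), (e : ℕ) = b + 1 :=
        ⟨⟨b + 1, by have := a.isLt; omega⟩, rfl⟩
      have hae : a ≠ e := by
        intro h
        rw [h] at hd
        omega
      have heb : e ≠ b := by
        intro h
        rw [h] at he
        omega
      have h1 := Cfsg.Agent.H45.transvection_comm_rel hae heb hab c (1 : F)
      rw [mul_one] at h1
      have hT : ∀ c' : F, xE a e hae c' ∈ K := fun c' => ih a e hae (by omega) c'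
      have hT2 : ∀ c' : F, xE e b heb c' ∈ K := fun c' => hbase e b heb he.symm c'
      have h2 : xE a b hab c = xE a e hae c * xE e b heb 1 * xE a e hae (-c) * xE e b heb (-1) :=
        h1.symm
      rw [h2]
      exact K.mul_mem (K.mul_mem (K.mul_mem (hT c) (hT2 1)) (hT (-c))) (hT2 (-1))
  rw [eq_top_iff, ← Cfsg.Agent.H45.elemSubgroup_eq_top]
  unfold Cfsg.Agent.H45.elemSubgroup
  rw [Subgroup.closure_le]
  rintro g ⟨i, j, hij, c, rfl⟩
  rcases lt_or_gt_of_ne hij with h | h
  · exact hup i j hij h c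
  · exact hlow ((i : ℕ) - j - 1) i j hij (by rw [Fin.lt_def] at h; omega) c

theorem eq_id_of_le {n : ℕ} (π : Fin n → Fin n) (hπ : Function.Injective π)
    (h : ∀ j, π j ≤ j) : ∀ j, π j = j := by
  intro j
  induction' hj : (j : ℕ) using Nat.strong_induction_on with d ih generalizing j
  by_contra hne
  have hlt : π j < j := lt_of_le_of_ne (h j) hne
  have := ih (π j) (by rw [← hj]; exact hlt) (π j) rfl
  exact hne (hπ this)

/-- Big cell uniqueness. -/
theorem big_cell [Fintype F] {n : ℕ} (v : SpecialLinearGroup (Fin n) F) (hv : v ∈ Uni n F)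
    (w : Equiv.Perm (Fin n)) (h : v • (apt Fin.revPerm : Flg n F) = apt w) :
    v = 1 ∧ w = Fin.revPerm := by
  have hUT : IsUT (v⁻¹).1 := (Uni n F).inv_mem hv
  have key : ∀ j c : Fin n, j < Fin.rev c → (v⁻¹).1 c (w j) = 0 := by
    intro j c hc
    have h1 : (Pi.single (w j) 1 : Fin n → F) ∈ (apt w : Flg n F).s j := by
      rw [mem_apt]
      intro c' hc'
      rw [Pi.single_apply, if_neg]
      rintro rfl
      rw [Equiv.symm_apply_apply] at hc'
      exact lt_irrefl _ hc'
    rw [← h, mem_smul, mem_apt] at h1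
    have h2 := h1 c (by rw [Fin.revPerm_symm, Fin.revPerm_apply]; exact hc)
    rw [mulVec_single_one] at h2
    exact h2
  have h1 : ∀ j, Fin.rev (w j) ≤ j := by
    intro j
    by_contra hcon
    have := key j (w j) (not_le.mp hcon)
    rw [hUT.2] at this
    exact one_ne_zero this
  have h2 : ∀ j, Fin.rev (w j) = j :=
    eq_id_of_le (fun j => Fin.rev (w j)) (fun a b hab => w.injective (Fin.rev_injective hab)) h1
  have hw : w = Fin.revPerm := by
    apply Equiv.ext
    intro j
    rw [Fin.revPerm_apply]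
    have := h2 j
    rw [Fin.rev_eq_iff] at this
    exact this
  refine ⟨?_, hw⟩
  have h3 : (v⁻¹).1 = 1 := by
    ext c d
    rcases lt_trichotomy c d with hcd | hcd | hcd
    · rw [Matrix.one_apply_ne hcd.ne]
      have := key (Fin.rev d) c (Fin.rev_lt_rev.mpr hcd)
      rw [hw, Fin.revPerm_apply, Fin.rev_rev] at this
      exact this
    · subst hcd
      rw [Matrix.one_apply_eq]
      exact hUT.2 c
    · rw [Matrix.one_apply_ne hcd.ne']
      exact hUT.1 c d hcd
  have h4 : v⁻¹ = 1 := Subtype.ext h3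
  exact inv_eq_one.mp h4

/-- The apartment lies in one orbit. -/
theorem orbit_apt (w : Equiv.Perm (Fin (m + 1))) :
    ∃ g : SLm, g • (apt 1 : Flg (m + 1) F) = apt w := by
  refine Submonoid.induction_of_closure_eq_top_left (Equiv.Perm.mclosure_swap_castSucc_succ m) w
    ⟨1, one_smul _ _⟩ ?_
  rintro _ ⟨k, rfl⟩ y ⟨g, hg⟩
  exact ⟨nS k * g, by rw [mul_smul, hg]; exact nE_smul_apt _ _ _ y⟩

/-- The centre fixes the apartment pointwise. -/
theorem center_smul_apt {n : ℕ} (z : SpecialLinearGroup (Fin n) F)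
    (hz : z ∈ Subgroup.center (SpecialLinearGroup (Fin n) F)) (w : Equiv.Perm (Fin n)) :
    z • (apt w : Flg n F) = apt w := by
  have hz' : z⁻¹ ∈ Subgroup.center (SpecialLinearGroup (Fin n) F) := Subgroup.inv_mem _ hz
  obtain ⟨r, hr, hrz⟩ := Matrix.SpecialLinearGroup.mem_center_iff.mp hz'
  have hr0 : ∀ c : Fin n, r ≠ 0 := by
    rintro c rfl
    rw [Fintype.card_fin, zero_pow (by have := c.pos; omega)] at hr
    exact zero_ne_one hr
  apply Flg.ext'
  intro k v
  rw [mem_smul, mem_apt, mem_apt, ← hrz]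
  constructor
  · intro h c hc
    have h1 := h c hc
    rw [Matrix.scalar_apply, mulVec_diagonal] at h1
    exact (mul_eq_zero.mp h1).resolve_left (hr0 c)
  · intro h c hc
    rw [Matrix.scalar_apply, mulVec_diagonal, h c hc, mul_zero]

end Cfsg.Agent.H78.StSL
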