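import Mathlib

/-!
# Steinberg module for `Sp_{2m}`: combinatorial definitions (helper78)

The ordered basis is `e_0, …, e_m, f_m, …, f_0` (indices in `Fin ((m+1)+(m+1))`); `pE i`, `pF i` are
the positions of `e_i`, `f_i`; `sgen m` are the simple reflections of type `C_{m+1}` as permutations
of the positions; `WSp m` is the Weyl group.
-/

set_option autoImplicit false

namespace Cfsg.Agent.H78.StSp

/-- Position of `e_i`. -/
def pE (m : ℕ) (i : Fin (m + 1)) : Fin ((m + 1) + (m + 1)) := Fin.castAdd (m + 1) i

/-- Position of `f_i`. -/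
def pF (m : ℕ) (i : Fin (m + 1)) : Fin ((m + 1) + (m + 1)) := Fin.natAdd (m + 1) i.rev

/-- The simple reflections of type `C_{m+1}` (`none`: the long one). -/
def sgen (m : ℕ) : Option (Fin m) → Equiv.Perm (Fin ((m + 1) + (m + 1)))
  | none => Equiv.swap (pE m (Fin.last m)) (pF m (Fin.last m))
  | some k => Equiv.swap (pE m k.castSucc) (pE m k.succ) *
      Equiv.swap (pF m k.succ) (pF m k.castSucc)

/-- The Weyl group of type `C_{m+1}` inside the symmetric group on the positions. -/
def WSp (m : ℕ) : Subgroup (Equiv.Perm (Fin ((m + 1) + (m + 1)))) :=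
  Subgroup.closure (Set.range (sgen m))

end Cfsg.Agent.H78.StSp
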