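import Mathlib
import Cfsg.Agent.Lib.Lead.SylAlt.Defs

/-! helper78: piece S2221-ZEVEN of lead's S2221 project. -/

open Equiv Cfsg.Agent.Lib.Lead.SylAlt

namespace Cfsg.Agent.H78.SylAlt

variable {α : Type*} [Fintype α] [DecidableEq α]

omit [Fintype α] [DecidableEq α] in
/-- A point moved by `T` whose orbit does not have exactly two points has a big orbit. -/
theorem bigp_of_moved_of_not_two (T : Subgroup (Perm α)) (x : α) (hx : ∃ g ∈ T, g x ≠ x)
    (h2 : ¬ Two T x) : Bigp T x := by
  by_contra hnb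
  unfold Bigp at hnb
  push_neg at hnb
  obtain ⟨y, hy⟩ := hnb
  obtain ⟨c, hc, hcx⟩ := hx
  apply h2
  have hcy : c x = y := hy c hc hcx
  refine ⟨y, ?_, ⟨c, hc, hcy⟩, ?_⟩
  · rw [← hcy]; exact hcx
  · intro g hg
    by_cases hgx : g x = x
    · exact Or.inl hgx
    · exact Or.inr (hy g hg hgx)

theorem zeven (T : Subgroup (Perm α)) (hT : IsSyl2 T) (hno2 : ∀ x, ¬ Two T x)
    (htr : HTr T) (h4 : HOrb4 T) : HZeven T := by
  intro c hc hcen
  have hcc : c * c = 1 := by
    ext x
    simp only [Perm.mul_apply, Perm.one_apply]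
    by_cases hx : ∃ g ∈ T, g x ≠ x
    · obtain ⟨y, hyx, hsw⟩ := htr x hx
      have h := congrArg (fun p : Perm α => p x) (hcen (swap x y) hsw)
      simp only [Perm.mul_apply, swap_apply_left] at h
      by_cases h1 : c x = x
      · rw [h1, h1]
      by_cases h2 : c x = y
      · rw [h2] at h ⊢; rw [swap_apply_right] at h; exact h.symm
      · rw [swap_apply_of_ne_of_ne h1 h2] at h
        exact absurd (c.injective h).symm hyx
    · push_neg at hx
      rw [hx c hc, hx c hc]
  have hbig : ∀ x ∈ c.support, Bigp T x := by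
    intro x hx
    rw [Perm.mem_support] at hx
    exact bigp_of_moved_of_not_two T x ⟨c, hc, hx⟩ (hno2 x)
  have hinv : ∀ g ∈ T, ∀ x ∈ c.support, g x ∈ c.support := by
    intro g hg x hx
    rw [Perm.mem_support] at hx ⊢
    have h := congrArg (fun p : Perm α => p x) (hcen g hg)
    simp only [Perm.mul_apply] at h
    rw [← h]
    exact fun h' => hx (g.injective h')
  have h4' : 4 ∣ c.support.card := h4 c.support hinv hbig
  by_cases hc1 : c = 1
  · rw [hc1, Perm.sign_one]
  have hord : orderOf c = 2 := orderOf_eq_prime (by rw [pow_two]; exact hcc) hc1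
  obtain ⟨n, hn⟩ := Perm.cycleType_prime_order (σ := c) (by rw [hord]; exact Nat.prime_two)
  rw [hord] at hn
  have hsum := Perm.sum_cycleType c
  rw [Perm.sign_of_cycleType, hn]
  rw [hn] at hsum
  simp only [Multiset.sum_replicate, Multiset.card_replicate, smul_eq_mul] at hsum ⊢
  have hev : Even (n + 1) := by
    rw [← hsum] at h4'
    obtain ⟨k, hk⟩ := h4'
    exact ⟨k, by omega⟩
  obtain ⟨k, hk⟩ := hev
  rw [hk]
  have h3 : (k + k) * 2 + (k + k) = 2 * (3 * k) := by ring
  rw [h3, pow_mul]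
  simp

example (T : Subgroup (Perm α)) (hT : IsSyl2 T) (hno2 : ∀ x, ¬ Two T x)
    (htr : HTr T) (h4 : HOrb4 T) : HZeven T := zeven T hT hno2 htr h4

end Cfsg.Agent.H78.SylAlt
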