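import Mathlib
import Cfsg.Agent.Lib.Lead.SylAlt.Defs
import Cfsg.Agent.H78.SylAltZeven

/-! helper78: piece S2221-IND2 of lead's S2221 project. -/

open Equiv Cfsg.Agent.Lib.Lead.SylAlt

namespace Cfsg.Agent.H78.SylAlt

variable {α : Type*} [Fintype α] [DecidableEq α]

theorem ind_two (T : Subgroup (Perm α)) (hT : IsSyl2 T) (hs : HSplit T) (htr : HTr T) (hzone : HZone T)
    (x₀ : α) (h0 : Two T x₀) (x₁ : α) (h₁ : Bigp T x₁)
    (hone : ∀ x, Bigp T x → ∃ g ∈ T, g x₁ = x)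
    (htwo : ∀ x, Two T x → ∃ g ∈ T, g x₀ = x)
    (c c' : Perm α) (hc : c ∈ T ⊓ alternatingGroup α) (hc' : c' ∈ T ⊓ alternatingGroup α)
    (hc1 : c ≠ 1) (hc1' : c' ≠ 1)
    (hcen : ∀ g ∈ T ⊓ alternatingGroup α, g * c = c * g)
    (hcen' : ∀ g ∈ T ⊓ alternatingGroup α, g * c' = c' * g) : c = c' := by
  obtain ⟨y₀, hy0, ⟨g0, hg0, hg0x⟩, h0all⟩ := h0
  have hmoved : ∃ g ∈ T, g x₀ ≠ x₀ := ⟨g0, hg0, by rw [hg0x]; exact hy0⟩
  obtain ⟨y, hyx, hsw⟩ := htr x₀ hmoved
  have hyy : y = y₀ := by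
    rcases h0all (swap x₀ y) hsw with h | h
    · rw [swap_apply_left] at h; exact absurd h hyx
    · rw [swap_apply_left] at h; exact h
  subst hyy
  have hx0O : x₀ ∉ orb T x₁ := by
    rintro ⟨g, hg, hgx⟩
    obtain ⟨h, hh, hh1, hh2⟩ := h₁ (g⁻¹ y)
    have hmem : g * h * g⁻¹ ∈ T := T.mul_mem (T.mul_mem hg hh) (T.inv_mem hg)
    have hval : (g * h * g⁻¹) x₀ = g (h x₁) := by
      rw [← hgx]; simp
    rcases h0all _ hmem with h' | h'
    · rw [hval, ← hgx] at h'; exact hh1 (g.injective h')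
    · rw [hval] at h'; apply hh2; rw [← h']; simp
  have hy0O : y ∉ orb T x₁ := by
    intro hy
    apply hx0O
    have := orb_inv T x₁ g0⁻¹ (T.inv_mem hg0) y hy
    rw [← hg0x] at this
    simpa using this
  have hfix : ∀ z, z ∉ orb T x₁ → z ≠ x₀ → z ≠ y → ∀ g ∈ T, g z = z := by
    intro z hzO hzx hzy g hg
    by_contra hgz
    by_cases h2 : Two T z
    · obtain ⟨k, hk, hkz⟩ := htwo z h2
      rcases h0all k hk with h | h
      · exact hzx (by rw [← hkz, h])
      · exact hzy (by rw [← hkz, h])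
    · have hb := bigp_of_moved_of_not_two T z ⟨g, hg, hgz⟩ h2
      exact hzO (hone z hb)
  have hτ : swap x₀ y ∈ res T (orb T x₁)ᶜ := by
    refine ⟨hsw, fun z hz => ?_⟩
    have hz' : z ∈ orb T x₁ := by simpa using hz
    apply swap_apply_of_ne_of_ne
    · rintro rfl; exact hx0O hz'
    · rintro rfl; exact hy0O hz'
  have hR1 : ∀ e ∈ res T (orb T x₁)ᶜ, e x₀ = x₀ → e = 1 := by
    intro e he hex
    have hfix' : ∀ z, z ≠ y → e z = z := by
      intro z hzy
      by_cases hzO : z ∈ orb T x₁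
      · exact he.2 z (fun h => h hzO)
      · by_cases hzx : z = x₀
        · rw [hzx]; exact hex
        · exact hfix z hzO hzx hzy e he.1
    ext z
    by_cases hzy : z = y
    · subst hzy
      by_contra hne
      exact hne (e.injective (hfix' _ hne))
    · exact hfix' z hzy
  have hR : ∀ e ∈ res T (orb T x₁)ᶜ, e = 1 ∨ e = swap x₀ y := by
    intro e he
    rcases h0all e he.1 with h | h
    · exact Or.inl (hR1 e he h)
    · right
      have : swap x₀ y * e = 1 :=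
        hR1 _ ((res T (orb T x₁)ᶜ).mul_mem hτ he) (by rw [Perm.mul_apply, h, swap_apply_right])
      have h2 : e = (swap x₀ y)⁻¹ := eq_inv_of_mul_eq_one_right this
      rw [h2, swap_inv]
  have hRcomm : ∀ e ∈ res T (orb T x₁)ᶜ, ∀ r ∈ res T (orb T x₁)ᶜ, e * r = r * e := by
    intro e he r hr
    rcases hR e he with rfl | rfl <;> rcases hR r hr with rfl | rfl <;> simp
  have hsτ : Perm.sign (swap x₀ y) = -1 := Perm.sign_swap hyx.symm
  have main : ∀ d : Perm α, d ∈ T ⊓ alternatingGroup α → d ≠ 1 →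
      (∀ g ∈ T ⊓ alternatingGroup α, g * d = d * g) →
      ∃ w ∈ res T (orb T x₁), ∃ e ∈ res T (orb T x₁)ᶜ, d = w * e ∧ w ≠ 1 ∧
        (∀ g ∈ res T (orb T x₁), g * w = w * g) := by
    intro d hd hd1 hdc
    obtain ⟨w, hw, e, he, hdwe⟩ := hs (orb T x₁) (orb_inv T x₁) d (Subgroup.mem_inf.mp hd).1
    refine ⟨w, hw, e, he, hdwe, ?_, ?_⟩
    · rintro rfl
      rw [one_mul] at hdwe
      rcases hR e he with h | h
      · exact hd1 (by rw [hdwe, h])
      · have := (Subgroup.mem_inf.mp hd).2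
        rw [Perm.mem_alternatingGroup, hdwe, h, hsτ] at this
        exact absurd this (by decide)
    · intro u hu
      have : ∃ r ∈ res T (orb T x₁)ᶜ, u * r ∈ T ⊓ alternatingGroup α := by
        rcases Int.units_eq_one_or (Perm.sign u) with h | h
        · exact ⟨1, one_mem _, by
            rw [mul_one]; exact Subgroup.mem_inf.mpr ⟨hu.1, Perm.mem_alternatingGroup.mpr h⟩⟩
        · exact ⟨swap x₀ y, hτ, Subgroup.mem_inf.mpr ⟨T.mul_mem hu.1 hsw, by
            rw [Perm.mem_alternatingGroup, Perm.sign_mul, h, hsτ]; rfl⟩⟩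
      obtain ⟨r, hr, hur⟩ := this
      have h := hdc _ hur
      rw [hdwe] at h
      have e1 : u * r * (w * e) = u * w * (r * e) := by
        rw [mul_assoc, ← mul_assoc r w e, ← res_comm hw hr, mul_assoc, mul_assoc]
      have e2 : w * e * (u * r) = w * u * (r * e) := by
        rw [mul_assoc, ← mul_assoc e u r, ← res_comm hu he, mul_assoc u e r, hRcomm e he r hr,
          mul_assoc]
      rw [e1, e2] at h
      exact mul_right_cancel h
  obtain ⟨w, hw, e, he, hcwe, hw1, hwc⟩ := main c hc hc1 hcen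
  obtain ⟨w', hw', e', he', hcwe', hw1', hwc'⟩ := main c' hc' hc1' hcen'
  have hww : w = w' := hzone x₁ h₁ w w' hw hw' hw1 hw1' hwc hwc'
  subst hww
  have hsc := (Subgroup.mem_inf.mp hc).2
  have hsc' := (Subgroup.mem_inf.mp hc').2
  rw [Perm.mem_alternatingGroup, hcwe, Perm.sign_mul] at hsc
  rw [Perm.mem_alternatingGroup, hcwe', Perm.sign_mul] at hsc'
  have hse : Perm.sign e = Perm.sign e' := mul_left_cancel (hsc.trans hsc'.symm)
  rw [hcwe, hcwe']
  congr 1
  rcases hR e he with rfl | rfl <;> rcases hR e' he' with rfl | rfl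
  · rfl
  · rw [Perm.sign_one, hsτ] at hse; exact absurd hse (by decide)
  · rw [Perm.sign_one, hsτ] at hse; exact absurd hse (by decide)
  · rfl

example (T : Subgroup (Perm α)) (hT : IsSyl2 T) (hs : HSplit T) (htr : HTr T) (hzone : HZone T)
    (x₀ : α) (h0 : Two T x₀) (x₁ : α) (h₁ : Bigp T x₁)
    (hone : ∀ x, Bigp T x → ∃ g ∈ T, g x₁ = x)
    (htwo : ∀ x, Two T x → ∃ g ∈ T, g x₀ = x)
    (c c' : Perm α) (hc : c ∈ T ⊓ alternatingGroup α) (hc' : c' ∈ T ⊓ alternatingGroup α)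
    (hc1 : c ≠ 1) (hc1' : c' ≠ 1)
    (hcen : ∀ g ∈ T ⊓ alternatingGroup α, g * c = c * g)
    (hcen' : ∀ g ∈ T ⊓ alternatingGroup α, g * c' = c' * g) : c = c' :=
  ind_two T hT hs htr hzone x₀ h0 x₁ h₁ hone htwo c c' hc hc' hc1 hc1' hcen hcen'

end Cfsg.Agent.H78.SylAlt
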