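import Mathlib
import Cfsg.Agent.Lib.Lead.SylAlt.Defs

/-! helper78: piece S2221-ZONEA of lead's S2221 project. -/

open Equiv Cfsg.Agent.Lib.Lead.SylAlt

namespace Cfsg.Agent.H78.SylAlt

variable {α : Type*} [Fintype α] [DecidableEq α]

omit [Fintype α] [DecidableEq α] in
theorem res_trans_of_split (T : Subgroup (Perm α)) (hs : HSplit T) (x : α) :
    ∀ u ∈ orb T x, ∀ v ∈ orb T x, ∃ a ∈ res T (orb T x), a u = v := by
  intro u hu v hv
  obtain ⟨g, hg, hgu⟩ := orb_trans T x u hu v hv
  obtain ⟨a, ha, b, hb, hgab⟩ := hs (orb T x) (orb_inv T x) g hg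
  refine ⟨a, ha, ?_⟩
  have hbu : b u = u := hb.2 u (fun h => h hu)
  rw [← hgu, hgab, Perm.mul_apply, hbu]

theorem zoneA (T : Subgroup (Perm α)) (hT : IsSyl2 T) (hs : HSplit T) (htr : HTr T) : HZone T := by
  intro x hx c c' hc hc' hc1 hc1' hcen hcen'
  obtain ⟨g0, hg0, hg0x, -⟩ := hx x
  obtain ⟨y, hyx, hsw⟩ := htr x ⟨g0, hg0, hg0x⟩
  have hyO : y ∈ orb T x := ⟨swap x y, hsw, swap_apply_left x y⟩
  have hswW : swap x y ∈ res T (orb T x) := by
    refine ⟨hsw, fun z hz => ?_⟩
    apply swap_apply_of_ne_of_ne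
    · rintro rfl; exact hz (mem_orb_self T _)
    · rintro rfl; exact hz hyO
  have key : ∀ d : Perm α, d ∈ res T (orb T x) → d ≠ 1 →
      (∀ g ∈ res T (orb T x), g * d = d * g) → d x = y := by
    intro d hd hd1 hdc
    have hdx : d x ≠ x := by
      intro hdx
      apply hd1
      ext z
      by_cases hz : z ∈ orb T x
      · obtain ⟨a, ha, haz⟩ := res_trans_of_split T hs x x (mem_orb_self T x) z hz
        have := congrArg (fun p : Perm α => p x) (hdc a ha)
        simp only [Perm.mul_apply] at this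
        rw [← haz, ← this, hdx]; rfl
      · simpa using hd.2 z hz
    by_contra hne
    have := congrArg (fun p : Perm α => p x) (hdc (swap x y) hswW)
    simp only [Perm.mul_apply, swap_apply_left] at this
    rw [swap_apply_of_ne_of_ne hdx hne] at this
    exact hyx (d.injective this).symm
  have hcx := key c hc hc1 hcen
  have hcx' := key c' hc' hc1' hcen'
  ext z
  by_cases hz : z ∈ orb T x
  · obtain ⟨a, ha, haz⟩ := res_trans_of_split T hs x x (mem_orb_self T x) z hz
    have h1 := congrArg (fun p : Perm α => p x) (hcen a ha)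
    have h2 := congrArg (fun p : Perm α => p x) (hcen' a ha)
    simp only [Perm.mul_apply] at h1 h2
    rw [← haz, ← h1, ← h2, hcx, hcx']
  · rw [hc.2 z hz, hc'.2 z hz]

example (T : Subgroup (Perm α)) (hT : IsSyl2 T) (hs : HSplit T) (htr : HTr T) : HZone T :=
  zoneA T hT hs htr

end Cfsg.Agent.H78.SylAlt
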